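import Mathlib
import Cfsg.Agent.Lib.Helper80.K2Core

/-!
# A counting core for families of column vectors (helper33)

If every member of `B₀` is detected (nonvanishing linear form) by at least two members of a
family of integer columns, and each column detects at most `Ns s` members of `B`, then
`2 |B₀| ≤ ∑ Ns`.
-/

set_option autoImplicit false
set_option linter.style.haveILetI false

namespace Cfsg.Agent.Lib.Helper33.BF

open Cfsg.Agent.Lib.Helper80.K2 Cfsg.Agent.Lib.Helper80.Cyclo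
open scoped ComplexConjugate

theorem count_core {I J : Type*} [Fintype J] (N : ℕ) [NeZero N] (B B₀ : Finset I)
    (hsub : B₀ ⊆ B) (ρ : I → J → ℤ) (k : J → ℕ) (r : ℕ) (hr : 0 < r) (g : Fin r → J → ℤ)
    (Ns : Fin r → ℝ) (P : ℝ)
    (hcol : ∀ s, ∀ η ∈ primitiveRoots N ℂ,
      ∑ χ ∈ B, Complex.normSq (gsum (g s) (xv (ρ χ) k η)) ≤ Ns s)
    (htwo : ∀ χ ∈ B₀, ∀ s₀ : Fin r, ∃ s, s ≠ s₀ ∧
      ∃ η ∈ primitiveRoots N ℂ, gsum (g s) (xv (ρ χ) k η) ≠ 0)
    (htot : ∑ s, Ns s ≤ 2 * P) :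
    (B₀.card : ℝ) ≤ P := by
  classical
  have hPR : 0 < (primitiveRoots N ℂ).card := by
    rw [Complex.card_primitiveRoots]
    exact Nat.totient_pos.mpr (NeZero.pos N)
  have hPRr : (0 : ℝ) < ((primitiveRoots N ℂ).card : ℝ) := by exact_mod_cast hPR
  set Bs : Fin r → Finset I := fun s => B₀.filter
    (fun χ => ∃ η ∈ primitiveRoots N ℂ, gsum (g s) (xv (ρ χ) k η) ≠ 0) with hBs
  -- each column detects few characters
  have h1 : ∀ s, ((Bs s).card : ℝ) ≤ Ns s := by
    intro s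
    have hlow : ∀ χ ∈ Bs s, ((primitiveRoots N ℂ).card : ℝ) ≤
        ∑ η ∈ primitiveRoots N ℂ, Complex.normSq (gsum (g s) (xv (ρ χ) k η)) := by
      intro χ hχ
      obtain ⟨η₀, hη₀, hne₀⟩ := (Finset.mem_filter.mp hχ).2
      have hall : ∀ η ∈ primitiveRoots N ℂ, gsum (g s) (xv (ρ χ) k η) ≠ 0 := by
        rcases gsum_dichotomy N (g s) (ρ χ) k with h | h
        · exact absurd (h η₀ hη₀) hne₀
        · exact h
      have h2 := card_le_sum_normSq N Finset.univ (fun ξ => g s ξ * ρ χ ξ) k (by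
        intro η hη
        rw [← gsum_xv]
        exact hall η hη)
      refine h2.trans (le_of_eq ?_)
      refine Finset.sum_congr rfl fun η _ => ?_
      rw [gsum_xv]
    have h3 : ((Bs s).card : ℝ) * ((primitiveRoots N ℂ).card : ℝ) ≤
        ∑ χ ∈ Bs s, ∑ η ∈ primitiveRoots N ℂ, Complex.normSq (gsum (g s) (xv (ρ χ) k η)) := by
      have := Finset.sum_le_sum hlow
      rw [Finset.sum_const, nsmul_eq_mul] at this
      exact this
    have hBsB : Bs s ⊆ B := (Finset.filter_subset _ _).trans hsub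
    have h4 : ∑ χ ∈ Bs s, ∑ η ∈ primitiveRoots N ℂ,
        Complex.normSq (gsum (g s) (xv (ρ χ) k η)) ≤
        ∑ χ ∈ B, ∑ η ∈ primitiveRoots N ℂ, Complex.normSq (gsum (g s) (xv (ρ χ) k η)) :=
      Finset.sum_le_sum_of_subset_of_nonneg hBsB
        (fun χ _ _ => Finset.sum_nonneg fun η _ => Complex.normSq_nonneg _)
    have h5 : ∑ χ ∈ B, ∑ η ∈ primitiveRoots N ℂ,
        Complex.normSq (gsum (g s) (xv (ρ χ) k η)) ≤
        ((primitiveRoots N ℂ).card : ℝ) * Ns s := by
      rw [Finset.sum_comm]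
      have := Finset.sum_le_sum (fun η hη => hcol s η hη)
      rw [Finset.sum_const, nsmul_eq_mul] at this
      exact this
    have h6 : ((Bs s).card : ℝ) * ((primitiveRoots N ℂ).card : ℝ) ≤
        ((primitiveRoots N ℂ).card : ℝ) * Ns s := h3.trans (h4.trans h5)
    rw [mul_comm] at h6
    exact le_of_mul_le_mul_left h6 hPRr
  -- each character of `B₀` is detected twice
  have h2 : 2 * B₀.card ≤ ∑ s, (Bs s).card := by
    have e1 : ∑ s, (Bs s).card = ∑ χ ∈ B₀, (Finset.univ.filter (fun s => χ ∈ Bs s)).card := by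
      simp only [Finset.card_eq_sum_ones, hBs, Finset.sum_filter]
      rw [Finset.sum_comm]
      refine Finset.sum_congr rfl fun χ hχ => ?_
      refine Finset.sum_congr rfl fun s _ => ?_
      simp [hχ]
    rw [e1]
    have e2 : ∀ χ ∈ B₀, 2 ≤ (Finset.univ.filter (fun s => χ ∈ Bs s)).card := by
      intro χ hχ
      obtain ⟨s₁, -, hs₁⟩ := htwo χ hχ ⟨0, hr⟩
      obtain ⟨s₂, hs₂ne, hs₂⟩ := htwo χ hχ s₁
      have hm1 : s₁ ∈ Finset.univ.filter (fun s => χ ∈ Bs s) :=
        Finset.mem_filter.mpr ⟨Finset.mem_univ _, Finset.mem_filter.mpr ⟨hχ, hs₁⟩⟩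
      have hm2 : s₂ ∈ Finset.univ.filter (fun s => χ ∈ Bs s) :=
        Finset.mem_filter.mpr ⟨Finset.mem_univ _, Finset.mem_filter.mpr ⟨hχ, hs₂⟩⟩
      have : ({s₁, s₂} : Finset (Fin r)) ⊆ Finset.univ.filter (fun s => χ ∈ Bs s) := by
        intro x hx
        rcases Finset.mem_insert.mp hx with rfl | hx
        · exact hm1
        · rw [Finset.mem_singleton.mp hx]; exact hm2
      have hc := Finset.card_le_card this
      rw [Finset.card_pair hs₂ne.symm] at hc
      exact hc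
    have := Finset.sum_le_sum e2
    rw [Finset.sum_const, smul_eq_mul, mul_comm] at this
    exact this
  have h3 : (2 : ℝ) * (B₀.card : ℝ) ≤ ∑ s, Ns s := by
    have h4 : ((2 * B₀.card : ℕ) : ℝ) ≤ ((∑ s, (Bs s).card : ℕ) : ℝ) := by exact_mod_cast h2
    push_cast at h4
    exact h4.trans (Finset.sum_le_sum fun s _ => h1 s)
  linarith

end Cfsg.Agent.Lib.Helper33.BF
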