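import Mathlib
import Cfsg.Agent.Lib.Helper81.CentralDefect
import Cfsg.Agent.Lib.Helper4.Contrib2

/-!
# Deflation of a block along a central `p`-subgroup (helper33)

Two-argument kernel identity, equality of `p`-regular ranks and the defect inequality for the
block of `G ⧸ D` below a block of `G`, `D` a central `p`-subgroup.
-/

set_option autoImplicit false
set_option linter.style.haveILetI false

namespace Cfsg.Agent.Lib.Helper33.BF

open Cfsg Cfsg.Agent.Lib.Helper4 Cfsg.Agent.Lib.Helper21 Cfsg.Agent.Lib.Helper22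
open Cfsg.Agent.Lib.Helper81
open scoped ComplexConjugate

section Defl

variable {G : Type*} [Group G]

open scoped Classical in
/-- Two-argument version of `block_sq_sum_central`. -/
theorem block_kernel_central [Fintype G] [Fintype (IrrCharacter G)] {p : ℕ} [Fact p.Prime]
    {M : Ideal AlgInt} (hM : IsPModular p M) (B : Set (IrrCharacter G)) (hB : IsPBlock M B)
    (D : Subgroup G) [D.Normal] (hDZ : D ≤ Subgroup.center G) (hDp : IsPGroup p D) (x y : G)
    (hx : ¬ p ∣ orderOf x) (hy : ¬ p ∣ orderOf y) :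
    ∑ θ : IrrCharacter G, (if θ ∈ B then (θ : G → ℂ) x * conj ((θ : G → ℂ) y) else 0) =
      (Nat.card D : ℂ) * ∑ θ : IrrCharacter G,
        (if θ ∈ B ∧ (∀ u ∈ D, (θ : G → ℂ) u = (θ : G → ℂ) 1) then
          (θ : G → ℂ) x * conj ((θ : G → ℂ) y) else 0) := by
  have h1 : ∑ z : D, ∑ θ : IrrCharacter G,
      (if θ ∈ B then (θ : G → ℂ) x * conj ((θ : G → ℂ) (y * (z : G))) else 0) =
      ∑ θ : IrrCharacter G, (if θ ∈ B then (θ : G → ℂ) x * conj ((θ : G → ℂ) y) else 0) := by
    rw [Finset.sum_eq_single (1 : D)]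
    · simp
    · intro z _ hz
      refine weak_orth_sum hM B hB x (y * (z : G)) hx ?_
      refine singular_mul_central p y z hy (hDZ z.2) ?_ ?_
      · intro h
        exact hz (Subtype.ext h)
      · obtain ⟨j, hj⟩ := (IsPGroup.iff_orderOf.mp hDp) z
        exact ⟨j, by rw [Subgroup.orderOf_coe]; exact hj⟩
    · intro h
      exact absurd (Finset.mem_univ _) h
  rw [← h1, Finset.sum_comm, Finset.mul_sum]
  refine Finset.sum_congr rfl fun θ _ => ?_
  by_cases hθ : θ ∈ B
  · simp only [hθ, if_true, true_and]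
    have hθ1 : (θ : G → ℂ) 1 ≠ 0 := irr_one_ne_zero θ
    have hmul : ∀ z : D, (θ : G → ℂ) x * conj ((θ : G → ℂ) (y * (z : G))) =
        (θ : G → ℂ) x * conj ((θ : G → ℂ) y) * conj ((θ : G → ℂ) (z : G)) / (θ : G → ℂ) 1 := by
      intro z
      have h2 := irr_mul_central θ y (z : G) (hDZ z.2)
      have h3 : (θ : G → ℂ) (y * (z : G)) = (θ : G → ℂ) y * (θ : G → ℂ) (z : G) / (θ : G → ℂ) 1 := by
        rw [h2]
        field_simp
      rw [h3, map_div₀, map_mul, irr_one_conj]
      ring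
    rw [Finset.sum_congr rfl (fun z _ => hmul z), ← Finset.sum_div, ← Finset.mul_sum, ← map_sum]
    by_cases hker : ∀ u ∈ D, (θ : G → ℂ) u = (θ : G → ℂ) 1
    · rw [if_pos hker]
      have h4 : ∑ z : D, (θ : G → ℂ) (z : G) = (Nat.card D : ℂ) * (θ : G → ℂ) 1 := by
        rw [Finset.sum_congr rfl (fun (z : D) _ => hker (z : G) z.2), Finset.sum_const,
          Finset.card_univ, nsmul_eq_mul, Nat.card_eq_fintype_card]
      rw [h4, map_mul, map_natCast, irr_one_conj]
      field_simp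
    · rw [if_neg hker]
      push Not at hker
      obtain ⟨u, huD, hu⟩ := hker
      have h4 := Cfsg.Agent.Lib.Helper83.irr_sum_normal_eq_zero D θ.2 u huD hu 1
      simp only [one_mul] at h4
      rw [h4, map_zero, mul_zero, zero_div, mul_zero]
  · simp [hθ]

open scoped Classical in
/-- The kernel identity in terms of the quotient group. -/
theorem block_kernel_deflate [Fintype G] [Fintype (IrrCharacter G)] {p : ℕ} [Fact p.Prime]
    {M : Ideal AlgInt} (hM : IsPModular p M) (B : Set (IrrCharacter G)) (hB : IsPBlock M B)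
    (D : Subgroup G) [D.Normal] [Fintype (IrrCharacter (G ⧸ D))]
    (hDZ : D ≤ Subgroup.center G) (hDp : IsPGroup p D) (x y : G)
    (hx : ¬ p ∣ orderOf x) (hy : ¬ p ∣ orderOf y) :
    ∑ θ : IrrCharacter G, (if θ ∈ B then (θ : G → ℂ) x * conj ((θ : G → ℂ) y) else 0) =
      (Nat.card D : ℂ) * ∑ χ : IrrCharacter (G ⧸ D),
        (if Cfsg.Agent.Lib.Helper83.inflate D χ ∈ B then
          (χ : G ⧸ D → ℂ) (x : G ⧸ D) * conj ((χ : G ⧸ D → ℂ) (y : G ⧸ D)) else 0) := by
  rw [block_kernel_central hM B hB D hDZ hDp x y hx hy,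
    sum_inflate_reindex D B (fun θ => (θ : G → ℂ) x * conj ((θ : G → ℂ) y))]
  rfl

/-- The deflated block is nonempty. -/
theorem deflate_nonempty [Fintype G] {p : ℕ} [Fact p.Prime] {M : Ideal AlgInt}
    (hM : IsPModular p M) (B : Set (IrrCharacter G)) (hB : IsPBlock M B) (D : Subgroup G)
    [D.Normal] (hDp : IsPGroup p D) :
    ∃ χ : IrrCharacter (G ⧸ D), Cfsg.Agent.Lib.Helper83.inflate D χ ∈ B := by
  obtain ⟨θ, hθB, hθ⟩ := exists_mem_block_ker hM D hDp B hB
  obtain ⟨χ, hχ⟩ := Cfsg.Agent.Lib.Helper83.exists_inflate_eq D θ hθ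
  exact ⟨χ, by rw [hχ]; exact hθB⟩

/-- The deflated block along a central `p`-subgroup has the same `p`-regular rank. -/
theorem blockRank_deflate [Fintype G] {p : ℕ} [Fact p.Prime] {M : Ideal AlgInt}
    (hM : IsPModular p M) (B : Set (IrrCharacter G)) (hB : IsPBlock M B) (D : Subgroup G)
    [D.Normal] (hDZ : D ≤ Subgroup.center G) (hDp : IsPGroup p D) :
    blockRank p {χ : IrrCharacter (G ⧸ D) | Cfsg.Agent.Lib.Helper83.inflate D χ ∈ B} =
      blockRank p B := by
  classical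
  let _ : Fintype (G ⧸ D) := Fintype.ofFinite _
  have := irr_finite (G := G)
  let _ := Fintype.ofFinite (IrrCharacter G)
  have := irr_finite (G := G ⧸ D)
  let _ := Fintype.ofFinite (IrrCharacter (G ⧸ D))
  have hC : ∃ k : ℕ, (Subgroup.centralizer (D : Set G)).index = p ^ k :=
    ⟨0, by rw [Subgroup.centralizer_eq_top_iff_subset.mpr hDZ]; simp⟩
  set B' : Set (IrrCharacter (G ⧸ D)) :=
    {χ | Cfsg.Agent.Lib.Helper83.inflate D χ ∈ B} with hB'def
  have hB' : IsPBlock M B' := isPBlock_deflate hM D hDp hC B hB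
  have e1 := blockRank_eq_sum hM B hB
  have e2 := blockRank_eq_sum hM B' hB'
  rw [sum_inner_reg] at e1 e2
  have key : (blockRank p B : ℂ) = (blockRank p B' : ℂ) := by
    rw [e1, e2]
    have hcard : (Nat.card G : ℂ) = (Nat.card (G ⧸ D) : ℂ) * (Nat.card D : ℂ) := by
      exact_mod_cast Subgroup.card_eq_card_quotient_mul_card_subgroup D
    have hQ0 : (Nat.card (G ⧸ D) : ℂ) ≠ 0 := by exact_mod_cast Nat.card_pos.ne'
    have hD0 : (Nat.card D : ℂ) ≠ 0 := by exact_mod_cast Nat.card_pos.ne'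
    have h3 : ∀ x : G, (if p ∣ orderOf x then (0 : ℂ) else
        ∑ θ : IrrCharacter G, (if θ ∈ B then (θ : G → ℂ) x * conj ((θ : G → ℂ) x) else 0)) =
        (if p ∣ orderOf x then 0 else (fun q : G ⧸ D => (Nat.card D : ℂ) *
          ∑ χ : IrrCharacter (G ⧸ D), (if χ ∈ B' then (χ : G ⧸ D → ℂ) q *
            conj ((χ : G ⧸ D → ℂ) q) else 0)) (x : G ⧸ D)) := by
      intro x
      by_cases hx : p ∣ orderOf x
      · simp [hx]
      · rw [if_neg hx, if_neg hx, block_sq_sum_central hM B hB D hDZ hDp x hx]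
        have h4 := sum_inflate_reindex D B (fun θ => (θ : G → ℂ) x * conj ((θ : G → ℂ) x))
        rw [h4]
        rfl
    have h5 := sum_regular_quotient p D hDZ hDp (fun q : G ⧸ D => (Nat.card D : ℂ) *
          ∑ χ : IrrCharacter (G ⧸ D), (if χ ∈ B' then (χ : G ⧸ D → ℂ) q *
            conj ((χ : G ⧸ D → ℂ) q) else 0))
    rw [Finset.sum_congr rfl (fun x _ => h3 x), h5, hcard,
      Finset.mul_sum, Finset.mul_sum]
    refine Finset.sum_congr rfl fun q _ => ?_
    split_ifs
    · simp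
    · field_simp
  exact_mod_cast key.symm

/-- The defect of the deflated block along a central subgroup of order `p ^ n` is at most the
defect minus `n`. -/
theorem blockDefect_deflate_le [Fintype G] {p : ℕ} [Fact p.Prime] {M : Ideal AlgInt}
    (hM : IsPModular p M) (B : Set (IrrCharacter G)) (hB : IsPBlock M B) (D : Subgroup G)
    [D.Normal] (hDp : IsPGroup p D) (n : ℕ) (hn : Nat.card D = p ^ n) :
    blockDefect p {χ : IrrCharacter (G ⧸ D) | Cfsg.Agent.Lib.Helper83.inflate D χ ∈ B} + n ≤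
      blockDefect p B := by
  classical
  have hp : p.Prime := Fact.out
  let _ : Fintype (G ⧸ D) := Fintype.ofFinite _
  obtain ⟨χ₀, hχ₀⟩ := deflate_nonempty hM B hB D hDp
  have hG : Nat.card G = Nat.card (G ⧸ D) * Nat.card D :=
    Subgroup.card_eq_card_quotient_mul_card_subgroup D
  have hQ0 : Nat.card (G ⧸ D) ≠ 0 := Nat.card_pos.ne'
  have hD0 : Nat.card D ≠ 0 := Nat.card_pos.ne'
  have hfac : (Nat.card G).factorization p = (Nat.card (G ⧸ D)).factorization p + n := by
    rw [hG, Nat.factorization_mul hQ0 hD0, Finsupp.add_apply, hn,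
      Nat.Prime.factorization_pow hp]
    simp
  unfold blockDefect
  rw [hfac]
  have hmem : sInf ((fun χ : IrrCharacter (G ⧸ D) =>
      (charDegree (χ : G ⧸ D → ℂ)).factorization p) ''
        {χ : IrrCharacter (G ⧸ D) | Cfsg.Agent.Lib.Helper83.inflate D χ ∈ B}) ∈
      ((fun χ : IrrCharacter (G ⧸ D) => (charDegree (χ : G ⧸ D → ℂ)).factorization p) ''
        {χ : IrrCharacter (G ⧸ D) | Cfsg.Agent.Lib.Helper83.inflate D χ ∈ B}) :=
    Nat.sInf_mem ⟨_, ⟨χ₀, hχ₀, rfl⟩⟩
  obtain ⟨χ₁, hχ₁, hχ₁e⟩ := hmem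
  have h1 : sInf ((fun χ : IrrCharacter G => (charDegree (χ : G → ℂ)).factorization p) '' B) ≤
      (charDegree (Cfsg.Agent.Lib.Helper83.inflate D χ₁ : G → ℂ)).factorization p :=
    Nat.sInf_le ⟨_, hχ₁, rfl⟩
  rw [Cfsg.Agent.Lib.Helper83.charDegree_inflate] at h1
  have h2 := nu_le_card p χ₁
  have h3 : (charDegree (χ₁ : G ⧸ D → ℂ)).factorization p =
      sInf ((fun χ : IrrCharacter (G ⧸ D) =>
      (charDegree (χ : G ⧸ D → ℂ)).factorization p) ''
        {χ : IrrCharacter (G ⧸ D) | Cfsg.Agent.Lib.Helper83.inflate D χ ∈ B}) := hχ₁e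
  omega

end Defl

end Cfsg.Agent.Lib.Helper33.BF
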