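import Mathlib
import Cfsg.Agent.Lib.Helper33.BFDefl
import Cfsg.Agent.Lib.Helper33.BFCount
import Cfsg.Agent.Lib.Helper80.Major4

/-!
# Families of projective-like integer columns of a block (helper33)

`HasFamily p β P`: a nonempty finite family of integer vectors supported on the block `β`,
vanishing on the `p`-singular elements (as class functions), of total norm at most `2 P`, any
all-but-one of which detect every vector of `β` vanishing on `p`-singular elements.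
Blocks of defect zero have such a family with `P = 1`.
-/

set_option autoImplicit false
set_option linter.style.haveILetI false

namespace Cfsg.Agent.Lib.Helper33.BF

open Cfsg Cfsg.Agent.Lib.Helper4 Cfsg.Agent.Lib.Helper21 Cfsg.Agent.Lib.Helper22
open Cfsg.Agent.Lib.Helper81 Cfsg.Agent.Lib.Helper80.K2
open scoped ComplexConjugate

/-- A doubly spanning family of integer columns vanishing on `p`-singular elements. -/
def HasFamily {K : Type*} [Group K] [Fintype (IrrCharacter K)] (p : ℕ)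
    (β : Set (IrrCharacter K)) (P : ℕ) : Prop :=
  ∃ (r : ℕ) (Φ : Fin r → IrrCharacter K → ℤ), 0 < r ∧
    (∀ s θ, θ ∉ β → Φ s θ = 0) ∧
    (∀ s (k : K), p ∣ orderOf k → ∑ θ : IrrCharacter K, (Φ s θ : ℂ) * θ.1 k = 0) ∧
    (∑ s, ∑ θ : IrrCharacter K, Φ s θ ^ 2 ≤ 2 * (P : ℤ)) ∧
    (∀ (s₀ : Fin r) (f : IrrCharacter K → ℂ), (∀ θ, θ ∉ β → f θ = 0) →
      (∀ k : K, p ∣ orderOf k → ∑ θ : IrrCharacter K, f θ * θ.1 k = 0) →
      (∀ s, s ≠ s₀ → ∑ θ : IrrCharacter K, f θ * (Φ s θ : ℂ) = 0) → f = 0)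

section Zero

variable {K : Type*} [Group K] [Fintype K] [Fintype (IrrCharacter K)] {p : ℕ} [Fact p.Prime]
  {M : Ideal AlgInt}

open scoped Classical in
/-- A block of defect zero has a family with `P = 1`. -/
theorem hasFamily_of_defect_zero (hM : IsPModular p M) (β : Set (IrrCharacter K))
    (hβ : IsPBlock M β) (h0 : blockDefect p β = 0) : HasFamily p β 1 := by
  have hcard : Nat.card β = 1 := ((Cfsg.Agent.S4733.result p M hM β hβ).2.1.mp h0).1
  obtain ⟨θ₀, hθ₀⟩ := hβ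
  have hθ₀β : θ₀ ∈ β := by
    rw [hθ₀]; exact Cfsg.Agent.Lib.Helper79.mem_blockOf_self hM θ₀
  have huniq : ∀ θ ∈ β, θ = θ₀ := by
    intro θ hθ
    have := Finite.card_le_one_iff_subsingleton.mp hcard.le
    have h1 := @Subsingleton.elim _ this (⟨θ, hθ⟩ : β) ⟨θ₀, hθ₀β⟩
    exact congrArg Subtype.val h1
  have hβ' : IsPBlock M β := ⟨θ₀, hθ₀⟩
  have hvan : ∀ k : K, p ∣ orderOf k → θ₀.1 k = 0 := by
    intro k hk
    have h1 := weak_orth_sum hM β hβ' 1 k (by rw [orderOf_one]; exact (Fact.out : p.Prime).not_dvd_one) hk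
    rw [Finset.sum_eq_single θ₀] at h1
    · rw [if_pos hθ₀β] at h1
      rcases mul_eq_zero.mp h1 with h2 | h2
      · exact absurd h2 (irr_one_ne_zero θ₀)
      · exact (map_eq_zero _).mp h2
    · intro θ _ hne
      rw [if_neg (fun h => hne (huniq θ h))]
    · intro h; exact absurd (Finset.mem_univ _) h
  obtain ⟨Φ, hΦ⟩ : ∃ Φ : Fin 2 → IrrCharacter K → ℤ,
      ∀ s θ, Φ s θ = if θ = θ₀ then 1 else 0 := ⟨fun _ θ => if θ = θ₀ then 1 else 0, fun _ _ => rfl⟩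
  refine ⟨2, Φ, by norm_num, ?_, ?_, ?_, ?_⟩
  · intro s θ hθ
    rw [hΦ, if_neg (fun h => hθ (by rw [h]; exact hθ₀β))]
  · intro s k hk
    rw [Finset.sum_eq_single θ₀]
    · rw [hvan k hk, mul_zero]
    · intro θ _ hne
      rw [hΦ, if_neg hne, Int.cast_zero, zero_mul]
    · intro h; exact absurd (Finset.mem_univ _) h
  · have h1 : ∀ s : Fin 2, ∑ θ : IrrCharacter K, Φ s θ ^ 2 = 1 := by
      intro s
      rw [Finset.sum_eq_single θ₀]
      · rw [hΦ, if_pos rfl]; norm_num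
      · intro θ _ hne
        rw [hΦ, if_neg hne]; norm_num
      · intro h; exact absurd (Finset.mem_univ _) h
    rw [Finset.sum_congr rfl (fun s _ => h1 s)]
    simp
  · intro s₀ f hf _ hs
    obtain ⟨s, hs1⟩ : ∃ s : Fin 2, s ≠ s₀ := ⟨s₀ + 1, by
      intro h
      have : (s₀ + 1).val = s₀.val := congrArg Fin.val h
      rw [Fin.val_add] at this
      have := s₀.2
      omega⟩
    have h1 := hs s hs1
    rw [Finset.sum_eq_single θ₀] at h1
    · rw [hΦ, if_pos rfl, Int.cast_one, mul_one] at h1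
      funext θ
      by_cases hθ : θ ∈ β
      · rw [huniq θ hθ, h1]; rfl
      · rw [hf θ hθ]; rfl
    · intro θ _ hne
      rw [hΦ, if_neg hne, Int.cast_zero, mul_zero]
    · intro h; exact absurd (Finset.mem_univ _) h

end Zero

section Cong

variable {J : Type*} [Fintype J] {p : ℕ} {M : Ideal AlgInt}

/-- If the matrix `c` is congruent to a rank one matrix, `c ξ₁ ξ₁` is a unit and the column
`c a` is divisible by `p` at `ξ₁`, then it is divisible by `p` everywhere. -/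
theorem dvd_col_of_cong (hM : IsPModular p M) (c : J → J → ℤ) (U : ℂ) (dl : J → ℂ)
    (hU : MemLocalRing M U) (hdl : ∀ ξ, MemLocalRing M (dl ξ))
    (hcong : ∀ ξ ξ', MemLocalIdeal M ((c ξ ξ' : ℂ) - U * dl ξ * dl ξ'))
    (a : J → ℤ) (ξ₁ : J) (h11 : ¬ (p : ℤ) ∣ c ξ₁ ξ₁) (hg1 : (p : ℤ) ∣ ∑ ζ, c ξ₁ ζ * a ζ)
    (ξ : J) : (p : ℤ) ∣ ∑ ζ, c ξ ζ * a ζ := by
  have hp : p.Prime := hM.1
  obtain ⟨g, hgdef⟩ : ∃ g : J → ℤ, ∀ ξ, g ξ = ∑ ζ, c ξ ζ * a ζ := ⟨_, fun _ => rfl⟩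
  rw [← hgdef] at hg1 ⊢
  obtain ⟨D, hD⟩ : ∃ D : ℂ, D = ∑ ζ, dl ζ * (a ζ : ℂ) := ⟨_, rfl⟩
  have hDloc : MemLocalRing M D := by
    rw [hD]
    exact locRing_sum hM _ _ fun ζ _ => locRing_mul hM (hdl ζ) (locRing_intCast hM _)
  have h1 : ∀ ξ, MemLocalIdeal M ((g ξ : ℂ) - U * dl ξ * D) := by
    intro ξ
    have e1 : (g ξ : ℂ) - U * dl ξ * D = ∑ ζ, ((c ξ ζ : ℂ) - U * dl ξ * dl ζ) * (a ζ : ℂ) := by
      rw [hgdef, hD, Int.cast_sum, Finset.mul_sum, ← Finset.sum_sub_distrib]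
      refine Finset.sum_congr rfl fun ζ _ => ?_
      push_cast
      ring
    rw [e1]
    exact locIdeal_sum hM _ _ fun ζ _ => locIdeal_mul_right hM (hcong ξ ζ) (locRing_intCast hM _)
  have h2 : MemLocalIdeal M (U * dl ξ₁ * D) := by
    have e1 : U * dl ξ₁ * D = (g ξ₁ : ℂ) - ((g ξ₁ : ℂ) - U * dl ξ₁ * D) := by ring
    rw [e1]
    exact locIdeal_sub hM ((memLocalIdeal_intCast_iff hM _).mpr hg1) (h1 ξ₁)
  have h3 : MemLocalIdeal M ((c ξ₁ ξ₁ : ℂ) * D) := by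
    have e1 : (c ξ₁ ξ₁ : ℂ) * D = ((c ξ₁ ξ₁ : ℂ) - U * dl ξ₁ * dl ξ₁) * D +
        dl ξ₁ * (U * dl ξ₁ * D) := by ring
    rw [e1]
    exact locIdeal_add hM (locIdeal_mul_right hM (hcong ξ₁ ξ₁) hDloc)
      (locIdeal_mul_left hM (hdl ξ₁) h2)
  have hcop : IsCoprime (p : ℤ) (c ξ₁ ξ₁) :=
    (Nat.prime_iff_prime_int.mp hp).coprime_iff_not_dvd.mpr h11
  obtain ⟨x, y, hxy⟩ := hcop
  have h4 : MemLocalIdeal M D := by
    have e1 : D = (x : ℂ) * (((p : ℤ) : ℂ) * D) + (y : ℂ) * ((c ξ₁ ξ₁ : ℂ) * D) := by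
      have h5 : ((x * (p : ℤ) + y * c ξ₁ ξ₁ : ℤ) : ℂ) = 1 := by rw [hxy]; norm_num
      push_cast at h5
      linear_combination (-D) * h5
    rw [e1]
    refine locIdeal_add hM (locIdeal_mul_left hM (locRing_intCast hM _) ?_)
      (locIdeal_mul_left hM (locRing_intCast hM _) h3)
    exact locIdeal_mul_right hM ((memLocalIdeal_intCast_iff hM _).mpr dvd_rfl) hDloc
  have h5 : MemLocalIdeal M ((g ξ : ℂ)) := by
    have e1 : (g ξ : ℂ) = ((g ξ : ℂ) - U * dl ξ * D) + (U * dl ξ) * D := by ring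
    rw [e1]
    exact locIdeal_add hM (h1 ξ) (locIdeal_mul_left hM (locRing_mul hM hU (hdl ξ)) h4)
  exact (memLocalIdeal_intCast_iff hM _).mp h5

end Cong

end Cfsg.Agent.Lib.Helper33.BF
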