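import Mathlib
import Cfsg.Agent.Lib.Helper33.BFFam

/-!
# Counting characters of height zero through a subsection with a small central quotient
(helper33)

Let `(z, e)` be a subsection of the block `B` (`z` central of order `p ^ n` in `H ⊇ C_G(z)`,
`e` a block of `H` inducing `B`), and let `β` be the block of `H ⧸ ⟨z⟩` below `e`. If `β` has
defect `δ ≤ 1`, `d(e) = n + δ` and `β` has a doubly spanning family of columns of total norm
`≤ 2 p ^ δ`, then `B` has at most `p ^ d(e)` characters of height zero.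
-/

set_option autoImplicit false
set_option linter.style.haveILetI false
set_option maxHeartbeats 1600000

namespace Cfsg.Agent.Lib.Helper33.BF

open Cfsg Cfsg.Agent.Lib.Helper80.GenDec Cfsg.Agent.Lib.Helper80.Contrib
open Cfsg.Agent.Lib.Helper4 Cfsg.Agent.Lib.Helper21 Cfsg.Agent.Lib.Helper22
open Cfsg.Agent.Lib.Helper80.K2 Cfsg.Agent.Lib.Helper80.Major Cfsg.Agent.Lib.Helper81
open scoped ComplexConjugate

section LiftVec

variable {L : Type*} [Group L] [Fintype (IrrCharacter L)] (D : Subgroup L) [D.Normal]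
  [Fintype (IrrCharacter (L ⧸ D))]

open scoped Classical in
/-- The lift of an integer vector on the characters of `L ⧸ D` to the characters of `L`. -/
noncomputable def liftVec (Φ : IrrCharacter (L ⧸ D) → ℤ) (ζ : IrrCharacter L) : ℤ :=
  ∑ θ : IrrCharacter (L ⧸ D), if Cfsg.Agent.Lib.Helper83.inflate D θ = ζ then Φ θ else 0

theorem sum_mul_liftVec (Φ : IrrCharacter (L ⧸ D) → ℤ) (F : IrrCharacter L → ℂ) :
    ∑ ζ : IrrCharacter L, F ζ * (liftVec D Φ ζ : ℂ) =
      ∑ θ : IrrCharacter (L ⧸ D), F (Cfsg.Agent.Lib.Helper83.inflate D θ) * (Φ θ : ℂ) := by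
  classical
  unfold liftVec
  simp only [Int.cast_sum, Finset.mul_sum]
  rw [Finset.sum_comm]
  refine Finset.sum_congr rfl fun θ _ => ?_
  rw [Finset.sum_eq_single (Cfsg.Agent.Lib.Helper83.inflate D θ)]
  · rw [if_pos rfl]
  · intro ζ _ hne
    rw [if_neg (Ne.symm hne), Int.cast_zero, mul_zero]
  · intro h; exact absurd (Finset.mem_univ _) h

theorem sum_mul_liftVec_int (Φ : IrrCharacter (L ⧸ D) → ℤ) (F : IrrCharacter L → ℤ) :
    ∑ ζ : IrrCharacter L, F ζ * liftVec D Φ ζ =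
      ∑ θ : IrrCharacter (L ⧸ D), F (Cfsg.Agent.Lib.Helper83.inflate D θ) * Φ θ := by
  classical
  unfold liftVec
  simp only [Finset.mul_sum]
  rw [Finset.sum_comm]
  refine Finset.sum_congr rfl fun θ _ => ?_
  rw [Finset.sum_eq_single (Cfsg.Agent.Lib.Helper83.inflate D θ)]
  · rw [if_pos rfl]
  · intro ζ _ hne
    rw [if_neg (Ne.symm hne), mul_zero]
  · intro h; exact absurd (Finset.mem_univ _) h

end LiftVec

section Lift

variable {G : Type*} [Group G] [Fintype G] {p : ℕ} [Fact p.Prime] {M : Ideal AlgInt}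
variable (H : Subgroup G) [Fintype H] [Fintype (IrrCharacter H)]

omit [Fintype G] [Fact p.Prime] in
/-- Linearity of the pairing in the first argument. -/
theorem Q_sum_left (a : IrrCharacter H → ℂ) (g : H → ℂ) :
    Q p (fun s => ∑ ξ : IrrCharacter H, a ξ * ξ.1 s) g =
      ∑ ξ : IrrCharacter H, a ξ * Q p ξ.1 g := by
  simp only [Q_def, Finset.mul_sum]
  rw [Finset.sum_comm]
  refine Finset.sum_congr rfl fun s _ => ?_
  by_cases hs : p ∣ orderOf s
  · simp [hs]
  · simp only [if_neg hs]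
    rw [Finset.sum_mul]
    refine Finset.sum_congr rfl fun ξ _ => ?_
    ring

open scoped Classical in
/-- The column of the contribution matrix at the lift of a projective-like vector, evaluated
at an inflated character. -/
theorem col_value (hM : IsPModular p M) (e : Set (IrrCharacter H)) (he : IsPBlock M e)
    (D : Subgroup H) [D.Normal] [Fintype (H ⧸ D)] [Fintype (IrrCharacter (H ⧸ D))]
    (hDZ : D ≤ Subgroup.center H) (hDp : IsPGroup p D)
    (Φ : IrrCharacter (H ⧸ D) → ℤ)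
    (hsupp : ∀ θ, Cfsg.Agent.Lib.Helper83.inflate D θ ∉ e → Φ θ = 0)
    (hsing : ∀ k : H ⧸ D, p ∣ orderOf k →
      ∑ θ : IrrCharacter (H ⧸ D), (Φ θ : ℂ) * θ.1 k = 0)
    (θ₁ : IrrCharacter (H ⧸ D)) (hθ₁ : Cfsg.Agent.Lib.Helper83.inflate D θ₁ ∈ e) :
    ((∑ ζ, cE H p e (Cfsg.Agent.Lib.Helper83.inflate D θ₁) ζ * liftVec D Φ ζ : ℤ) : ℂ) *
        ((kap H p e : ℝ) : ℂ) =
      (Nat.card (H ⧸ D) : ℂ) * (Φ θ₁ : ℂ) := by
  obtain ⟨ξ₁, hξ₁⟩ : ∃ ξ₁ : IrrCharacter H, ξ₁ = Cfsg.Agent.Lib.Helper83.inflate D θ₁ :=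
    ⟨_, rfl⟩
  rw [← hξ₁] at hθ₁ ⊢
  have e1 : ((∑ ζ, cE H p e ξ₁ ζ * liftVec D Φ ζ : ℤ) : ℂ) * ((kap H p e : ℝ) : ℂ) =
      ∑ θ : IrrCharacter (H ⧸ D),
        ((cE H p e ξ₁ (Cfsg.Agent.Lib.Helper83.inflate D θ) : ℂ) * ((kap H p e : ℝ) : ℂ)) *
          (Φ θ : ℂ) := by
    rw [Int.cast_sum, Finset.sum_mul,
      ← sum_mul_liftVec D Φ (fun ζ => (cE H p e ξ₁ ζ : ℂ) * ((kap H p e : ℝ) : ℂ))]
    refine Finset.sum_congr rfl fun ζ _ => ?_
    push_cast
    ring
  rw [e1]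
  have e2 : ∀ θ : IrrCharacter (H ⧸ D),
      ((cE H p e ξ₁ (Cfsg.Agent.Lib.Helper83.inflate D θ) : ℂ) * ((kap H p e : ℝ) : ℂ)) *
          (Φ θ : ℂ) =
      ∑ s : H, (if p ∣ orderOf s then 0 else
        ξ₁.1 s * conj ((Φ θ : ℂ) * θ.1 (s : H ⧸ D))) := by
    intro θ
    by_cases hθ : Cfsg.Agent.Lib.Helper83.inflate D θ ∈ e
    · rw [cE_gram H hM e he, Finset.sum_mul]
      refine Finset.sum_congr rfl fun s _ => ?_
      rw [if_pos hθ₁, if_pos hθ]
      by_cases hs : p ∣ orderOf s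
      · simp [hs]
      · simp only [if_neg hs]
        rw [map_mul, map_intCast, Cfsg.Agent.Lib.Helper83.inflate_apply]
        ring
    · rw [hsupp θ hθ]
      simp
  rw [Finset.sum_congr rfl (fun θ _ => e2 θ), Finset.sum_comm]
  have e3 : ∀ s : H, ∑ θ : IrrCharacter (H ⧸ D), (if p ∣ orderOf s then 0 else
        ξ₁.1 s * conj ((Φ θ : ℂ) * θ.1 (s : H ⧸ D))) =
      (if p ∣ orderOf s then 0 else (fun k : H ⧸ D => θ₁.1 k *
        conj (∑ θ : IrrCharacter (H ⧸ D), (Φ θ : ℂ) * θ.1 k)) (s : H ⧸ D)) := by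
    intro s
    by_cases hs : p ∣ orderOf s
    · simp [hs]
    · simp only [if_neg hs]
      rw [map_sum, Finset.mul_sum, hξ₁]
      rfl
  rw [Finset.sum_congr rfl (fun s _ => e3 s)]
  refine Eq.trans (sum_regular_quotient p D hDZ hDp (fun k : H ⧸ D => θ₁.1 k *
        conj (∑ θ : IrrCharacter (H ⧸ D), (Φ θ : ℂ) * θ.1 k))) ?_
  have e4 : ∀ k : H ⧸ D, (if p ∣ orderOf k then (0 : ℂ) else
        θ₁.1 k * conj (∑ θ : IrrCharacter (H ⧸ D), (Φ θ : ℂ) * θ.1 k)) =
      ∑ θ : IrrCharacter (H ⧸ D), (Φ θ : ℂ) * (θ₁.1 k * conj (θ.1 k)) := by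
    intro k
    have h2 : ∑ θ : IrrCharacter (H ⧸ D), (Φ θ : ℂ) * (θ₁.1 k * conj (θ.1 k)) =
        θ₁.1 k * conj (∑ θ : IrrCharacter (H ⧸ D), (Φ θ : ℂ) * θ.1 k) := by
      rw [map_sum, Finset.mul_sum]
      refine Finset.sum_congr rfl fun θ _ => ?_
      rw [map_mul, map_intCast]
      ring
    by_cases hk : p ∣ orderOf k
    · rw [if_pos hk, h2, hsing k hk, map_zero, mul_zero]
    · rw [if_neg hk, h2]
  rw [Finset.sum_congr rfl (fun k _ => e4 k), Finset.sum_comm]
  have e5 : ∀ θ : IrrCharacter (H ⧸ D),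
      ∑ k : H ⧸ D, (Φ θ : ℂ) * (θ₁.1 k * conj (θ.1 k)) =
      (Φ θ : ℂ) * ((Nat.card (H ⧸ D) : ℂ) * (if θ₁ = θ then 1 else 0)) := by
    intro θ
    have h3 := Cfsg.Agent.Lib.Helper83.irr_orthonormal θ₁ θ
    unfold classInner at h3
    rw [← Finset.mul_sum]
    congr 1
    have hK0 : (Nat.card (H ⧸ D) : ℂ) ≠ 0 := Nat.cast_ne_zero.mpr Nat.card_pos.ne'
    by_cases hθ : θ₁ = θ
    · rw [if_pos hθ] at h3 ⊢
      field_simp at h3
      rw [h3, mul_one]
    · rw [if_neg hθ] at h3 ⊢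
      rw [mul_zero]
      rcases mul_eq_zero.mp h3 with h | h
      · exact absurd (inv_eq_zero.mp h) hK0
      · exact h
  rw [Finset.sum_congr rfl (fun θ _ => e5 θ), Finset.sum_eq_single θ₁]
  · rw [if_pos rfl]
    ring
  · intro θ _ hne
    rw [if_neg (Ne.symm hne)]
    ring
  · intro h; exact absurd (Finset.mem_univ _) h

open scoped Classical in
/-- **Counting characters of height zero through a subsection with small quotient.** -/
theorem k0_le_of_family (hM : IsPModular p M) (z : H) (hz : z ∈ Subgroup.center H) (n : ℕ)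
    (hn : orderOf (z : G) = p ^ n) (hCH : Subgroup.centralizer ({(z : G)} : Set G) ≤ H)
    (e : Set (IrrCharacter H)) (B : Set (IrrCharacter G)) (hind : IsInducedBlock M H e B)
    [Fintype (IrrCharacter G)]
    (D : Subgroup H) [D.Normal] [Fintype (H ⧸ D)] [Fintype (IrrCharacter (H ⧸ D))]
    (hD : D = Subgroup.zpowers z)
    (δ : ℕ) (hδ : δ ≤ 1) (hdef : blockDefect p e = n + δ)
    (hδβ : blockDefect p
      {θ : IrrCharacter (H ⧸ D) | Cfsg.Agent.Lib.Helper83.inflate D θ ∈ e} = δ)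
    (hfam : HasFamily p
      {θ : IrrCharacter (H ⧸ D) | Cfsg.Agent.Lib.Helper83.inflate D θ ∈ e} (p ^ δ)) :
    (Finset.univ.filter
      (fun χ : IrrCharacter G => χ ∈ B ∧ blockHeight p B χ.1 = 0)).card ≤
        p ^ blockDefect p e := by
  have hp : p.Prime := Fact.out
  have he : IsPBlock M e := hind.1
  have hB : IsPBlock M B := hind.2.1
  have hN : 0 < p ^ n := pow_pos hp.pos n
  haveI : NeZero (p ^ n) := ⟨hN.ne'⟩
  have hpc : (p : ℂ) ≠ 0 := Nat.cast_ne_zero.mpr hp.ne_zero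
  have hzn : z ^ (p ^ n) = 1 := by
    apply Subtype.ext
    rw [Subgroup.coe_pow, ← hn]
    exact pow_orderOf_eq_one _
  have hDZ : D ≤ Subgroup.center H := by
    rw [hD, Subgroup.zpowers_le]; exact hz
  have hDcard : Nat.card D = p ^ n := by
    rw [hD, Nat.card_zpowers, ← hn, Subgroup.orderOf_coe]
  have hDp : IsPGroup p D := IsPGroup.of_card hDcard
  obtain ⟨β, hβdef⟩ : ∃ β : Set (IrrCharacter (H ⧸ D)),
      β = {θ : IrrCharacter (H ⧸ D) | Cfsg.Agent.Lib.Helper83.inflate D θ ∈ e} := ⟨_, rfl⟩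
  rw [← hβdef] at hδβ hfam
  have hmemβ : ∀ θ : IrrCharacter (H ⧸ D), θ ∈ β ↔ Cfsg.Agent.Lib.Helper83.inflate D θ ∈ e := by
    intro θ; rw [hβdef]; rfl
  have hC : ∃ k : ℕ, (Subgroup.centralizer (D : Set H)).index = p ^ k :=
    ⟨0, by rw [Subgroup.centralizer_eq_top_iff_subset.mpr hDZ]; simp⟩
  have hβ : IsPBlock M β := by
    rw [hβdef]; exact isPBlock_deflate hM D hDp hC e he
  obtain ⟨r, Φ, hr, hsupp, hsing, htot, hfour⟩ := hfam
  obtain ⟨ζ, hζ⟩ : ∃ ζ : ℂ, IsPrimitiveRoot ζ (p ^ n) :=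
    ⟨_, Complex.isPrimitiveRoot_exp (p ^ n) hN.ne'⟩
  have h1 : ∀ ξ : IrrCharacter H, ∃ i : ℕ, ζ ^ i = eps H z ξ := by
    intro ξ
    obtain ⟨i, -, hi⟩ := hζ.eq_pow_of_pow_eq_one (eps_pow_eq_one H z hz ξ _ hzn)
    exact ⟨i, hi⟩
  choose k₁ hk₁ using h1
  have hdata : ∀ η ∈ primitiveRoots (p ^ n) ℂ, ∃ t : ℕ, t.Coprime (p ^ n) ∧
      ∀ ξ, η ^ k₁ ξ = eps H (z ^ t) ξ := by
    intro η hη
    rw [mem_primitiveRoots hN] at hη
    obtain ⟨t, -, ht⟩ := hζ.eq_pow_of_pow_eq_one hη.pow_eq_one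
    have htc : t.Coprime (p ^ n) := by
      have h3 : IsPrimitiveRoot (ζ ^ t) (p ^ n) := ht ▸ hη
      exact (hζ.pow_iff_coprime hN t).mp h3
    refine ⟨t, htc, fun ξ => ?_⟩
    rw [eps_pow H z hz, ← hk₁ ξ, ← ht, ← pow_mul, ← pow_mul, mul_comm]
  -- the lifted vectors and their columns
  obtain ⟨a, ha⟩ : ∃ a : Fin r → IrrCharacter H → ℤ, ∀ s, a s = liftVec D (Φ s) :=
    ⟨_, fun _ => rfl⟩
  obtain ⟨g, hg⟩ : ∃ g : Fin r → IrrCharacter H → ℤ,
      ∀ s ξ, g s ξ = ∑ ζ, cE H p e ξ ζ * a s ζ := ⟨_, fun _ _ => rfl⟩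
  have hcardH : Nat.card H = Nat.card (H ⧸ D) * p ^ n := by
    rw [← hDcard]; exact Subgroup.card_eq_card_quotient_mul_card_subgroup D
  have hκ0 : ((kap H p e : ℝ) : ℂ) ≠ 0 := by
    exact_mod_cast (kap_pos H e).ne'
  have hkap : ((kap H p e : ℝ) : ℂ) * (p : ℂ) ^ δ = (Nat.card (H ⧸ D) : ℂ) := by
    have h2 := card_eq_split (p := p) H e
    rw [← kap_cast, hdef] at h2
    have h3 : (Nat.card H : ℂ) = (Nat.card (H ⧸ D) : ℂ) * (p : ℂ) ^ n := by
      rw [hcardH]; push_cast; ring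
    rw [h3] at h2
    push_cast at h2
    have hpn : (p : ℂ) ^ n ≠ 0 := pow_ne_zero _ hpc
    apply mul_right_cancel₀ hpn
    rw [h2, pow_add]
    ring
  have hval : ∀ s, ∀ θ₁ : IrrCharacter (H ⧸ D), θ₁ ∈ β →
      g s (Cfsg.Agent.Lib.Helper83.inflate D θ₁) = (p : ℤ) ^ δ * Φ s θ₁ := by
    intro s θ₁ hθ₁
    have h2 := col_value H hM e he D hDZ hDp (Φ s)
      (fun θ hθ => hsupp s θ (fun h => hθ ((hmemβ θ).mp h))) (hsing s) θ₁ ((hmemβ θ₁).mp hθ₁)
    rw [← ha, ← hg, ← hkap] at h2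
    have h3 : (g s (Cfsg.Agent.Lib.Helper83.inflate D θ₁) : ℂ) = (p : ℂ) ^ δ * (Φ s θ₁ : ℂ) := by
      apply mul_right_cancel₀ hκ0
      rw [h2]; ring
    exact_mod_cast h3
  have hqf : ∀ s, qf (cE H p e) (a s) (a s) =
      (p : ℤ) ^ δ * ∑ θ : IrrCharacter (H ⧸ D), Φ s θ ^ 2 := by
    intro s
    have e1 : qf (cE H p e) (a s) (a s) = ∑ ξ, g s ξ * a s ξ := by
      rw [qf_def]
      refine Finset.sum_congr rfl fun ξ _ => ?_
      rw [hg, Finset.sum_mul]
      refine Finset.sum_congr rfl fun ζ _ => ?_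
      ring
    rw [e1, ha, sum_mul_liftVec_int D (Φ s) (fun ξ => g s ξ), Finset.mul_sum]
    refine Finset.sum_congr rfl fun θ _ => ?_
    by_cases hθ : θ ∈ β
    · rw [hval s θ hθ]; ring
    · rw [hsupp s θ hθ]; ring
  have hdvd : ∀ s ξ, ∃ c : ℤ, g s ξ = (p : ℤ) ^ δ * c := by
    intro s ξ
    rcases Nat.eq_zero_or_pos δ with h0 | h0
    · exact ⟨g s ξ, by rw [h0, pow_zero, one_mul]⟩
    · have hδ1 : δ = 1 := by omega
      rw [hδ1, pow_one]
      obtain ⟨θ₁, hθ₁β, hmin₁, hdef₁, -⟩ := Cfsg.Agent.S4710.exists_min p M hM β hβ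
      obtain ⟨ξ₀, hξ₀e, hmin₀, hdef₀, -⟩ := Cfsg.Agent.S4710.exists_min p M hM e he
      obtain ⟨ξ₁, hξ₁⟩ : ∃ ξ₁ : IrrCharacter H,
          ξ₁ = Cfsg.Agent.Lib.Helper83.inflate D θ₁ := ⟨_, rfl⟩
      have hξ₁e : ξ₁ ∈ e := by rw [hξ₁]; exact (hmemβ θ₁).mp hθ₁β
      have hdeg : (charDegree ξ₁.1).factorization p = (charDegree θ₁.1).factorization p := by
        rw [hξ₁, Cfsg.Agent.Lib.Helper83.charDegree_inflate]
      have hfacH : (Nat.card H).factorization p = (Nat.card (H ⧸ D)).factorization p + n := by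
        rw [hcardH, Nat.factorization_mul Nat.card_pos.ne' hN.ne', Finsupp.add_apply,
          Nat.Prime.factorization_pow hp]
        simp
      have h2 := nu_le_card p θ₁
      have h3 := nu_le_card p ξ₀
      have h4 := hmin₀ ξ₁ hξ₁e
      have h5 : (charDegree ξ₁.1).factorization p = (charDegree ξ₀.1).factorization p := by
        omega
      have hmin₁' : ∀ ψ ∈ e, (charDegree ξ₁.1).factorization p ≤
          (charDegree ψ.1).factorization p := fun ψ hψ => h5 ▸ hmin₀ ψ hψ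
      have h6 := min_ctr_not_dvd p M hM e he ξ₁ hξ₁e hmin₁' ξ₁ hξ₁e
      have h7 := ctr_eq_cc H hM e he ξ₁ hξ₁e ξ₁
      have he0 : e0 H p e = (charDegree ξ₁.1).factorization p := by
        unfold e0; omega
      have h11 : ¬ (p : ℤ) ∣ cE H p e ξ₁ ξ₁ := by
        intro hdiv
        apply h6
        have h8 : cE H p e ξ₁ ξ₁ = cc H p e ξ₁ ξ₁ := by
          unfold cE; rw [if_pos ⟨hξ₁e, hξ₁e⟩]
        rw [h8] at hdiv
        rw [h7, ← he0, pow_succ]
        push_cast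
        exact mul_dvd_mul_left _ hdiv
      obtain ⟨U, dl, hU, hdl, hcong⟩ := cE_cong H hM e he
      have hg1 : (p : ℤ) ∣ ∑ ζ, cE H p e ξ₁ ζ * a s ζ := by
        rw [← hg, hξ₁, hval s θ₁ hθ₁β, hδ1, pow_one]; exact dvd_mul_right _ _
      have h9 := dvd_col_of_cong hM (cE H p e) U dl hU hdl hcong (a s) ξ₁ h11 hg1 ξ
      rw [← hg] at h9
      exact h9
  choose Gc hGc using hdvd
  -- the counting core
  have hpδ : ((p : ℂ) ^ δ) ≠ 0 := pow_ne_zero _ hpc
  have hmain := count_core (p ^ n) (Finset.univ.filter (fun χ : IrrCharacter G => χ ∈ B))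
    (Finset.univ.filter (fun χ : IrrCharacter G => χ ∈ B ∧ blockHeight p B χ.1 = 0))
    (by
      intro χ hχ
      exact Finset.mem_filter.mpr ⟨Finset.mem_univ _, (Finset.mem_filter.mp hχ).2.1⟩)
    (fun χ ξ => (resMult H χ ξ : ℤ)) k₁ r hr Gc
    (fun s => ((p ^ n : ℕ) : ℝ) * ((∑ θ : IrrCharacter (H ⧸ D), Φ s θ ^ 2 : ℤ) : ℝ))
    ((p ^ blockDefect p e : ℕ) : ℝ) ?_ ?_ ?_
  · exact_mod_cast hmain
  · -- the column identity
    intro s η hη
    obtain ⟨t, htc, hk⟩ := hdata η hη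
    obtain ⟨hz', hzn', hu', hCH'⟩ := pow_hyps H z hz n hn hCH t htc
    have h2 := col_identity H hM (z ^ t) hz' hu' hCH' e B hind (a s)
    have hS : ∀ χ : IrrCharacter G,
        (∑ ξ : IrrCharacter H, ((∑ ζ, cE H p e ξ ζ * a s ζ : ℤ) : ℂ) *
          ((resMult H χ ξ : ℂ) * eps H (z ^ t) ξ)) =
        (p : ℂ) ^ δ * gsum (Gc s) (xv (fun ξ => (resMult H χ ξ : ℤ)) k₁ η) := by
      intro χ
      rw [gsum_def, Finset.mul_sum]
      refine Finset.sum_congr rfl fun ξ _ => ?_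
      rw [← hg, hGc s ξ, xv_apply, hk ξ]
      push_cast
      ring
    have h3 : ∑ χ : IrrCharacter G, (if χ ∈ B then
          (gsum (Gc s) (xv (fun ξ => (resMult H χ ξ : ℤ)) k₁ η)) *
          conj (gsum (Gc s) (xv (fun ξ => (resMult H χ ξ : ℤ)) k₁ η)) else 0) =
        ((p ^ n : ℕ) : ℂ) * ((∑ θ : IrrCharacter (H ⧸ D), Φ s θ ^ 2 : ℤ) : ℂ) := by
      have h4 : ∑ χ : IrrCharacter G, (if χ ∈ B then
          (∑ ξ : IrrCharacter H, ((∑ ζ, cE H p e ξ ζ * a s ζ : ℤ) : ℂ) *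
            ((resMult H χ ξ : ℂ) * eps H (z ^ t) ξ)) *
          conj (∑ ξ : IrrCharacter H, ((∑ ζ, cE H p e ξ ζ * a s ζ : ℤ) : ℂ) *
            ((resMult H χ ξ : ℂ) * eps H (z ^ t) ξ)) else 0) =
          (p : ℂ) ^ δ * (p : ℂ) ^ δ * ∑ χ : IrrCharacter G, (if χ ∈ B then
          (gsum (Gc s) (xv (fun ξ => (resMult H χ ξ : ℤ)) k₁ η)) *
          conj (gsum (Gc s) (xv (fun ξ => (resMult H χ ξ : ℤ)) k₁ η)) else 0) := by
        rw [Finset.mul_sum]
        refine Finset.sum_congr rfl fun χ _ => ?_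
        by_cases hχ : χ ∈ B
        · rw [if_pos hχ, if_pos hχ, hS χ, map_mul, map_pow, Complex.conj_natCast]
          ring
        · rw [if_neg hχ, if_neg hχ, mul_zero]
      rw [h4, hqf s, hdef] at h2
      apply mul_left_cancel₀ (mul_ne_zero hpδ hpδ)
      rw [h2]
      push_cast
      rw [pow_add]
      ring
    have h5 : ((∑ χ ∈ Finset.univ.filter (fun χ : IrrCharacter G => χ ∈ B),
        Complex.normSq (gsum (Gc s) (xv (fun ξ => (resMult H χ ξ : ℤ)) k₁ η)) : ℝ) : ℂ) =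
        ((((p ^ n : ℕ) : ℝ) * ((∑ θ : IrrCharacter (H ⧸ D), Φ s θ ^ 2 : ℤ) : ℝ) : ℝ) : ℂ) := by
      rw [Complex.ofReal_sum, Finset.sum_filter]
      push_cast
      push_cast at h3
      rw [← h3]
      refine Finset.sum_congr rfl fun χ _ => ?_
      by_cases hχ : χ ∈ B
      · rw [if_pos hχ, if_pos hχ, Complex.mul_conj]
      · rw [if_neg hχ, if_neg hχ]
    exact le_of_eq (Complex.ofReal_injective h5)
  · -- every character of height zero is detected twice
    intro χ hχ s₀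
    obtain ⟨hχB, hχ0⟩ := (Finset.mem_filter.mp hχ).2
    by_contra hcon
    push Not at hcon
    have hζmem : ζ ∈ primitiveRoots (p ^ n) ℂ := (mem_primitiveRoots hN).mpr hζ
    obtain ⟨f, hf⟩ : ∃ f : IrrCharacter (H ⧸ D) → ℂ, ∀ θ, f θ =
        if θ ∈ β then Q p (X H e (z : G) χ) (Cfsg.Agent.Lib.Helper83.inflate D θ).1 else 0 :=
      ⟨_, fun _ => rfl⟩
    have hQX : ∀ θ ∈ β, Q p (X H e (z : G) χ) (Cfsg.Agent.Lib.Helper83.inflate D θ).1 =
        ((kap H p e : ℝ) : ℂ) * ∑ ξ : IrrCharacter H,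
          (cE H p e ξ (Cfsg.Agent.Lib.Helper83.inflate D θ) : ℂ) *
            ((resMult H χ ξ : ℂ) * eps H z ξ) := by
      intro θ hθ
      have hθe := (hmemβ θ).mp hθ
      rw [X_expand H e χ z hz, Q_sum_left, Finset.mul_sum]
      refine Finset.sum_congr rfl fun ξ _ => ?_
      by_cases hξ : ξ ∈ e
      · rw [if_pos hξ, ← cc_gram H hM e he ξ hξ (Cfsg.Agent.Lib.Helper83.inflate D θ), kap_cast]
        have h8 : cE H p e ξ (Cfsg.Agent.Lib.Helper83.inflate D θ) =
            cc H p e ξ (Cfsg.Agent.Lib.Helper83.inflate D θ) := by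
          unfold cE; rw [if_pos ⟨hξ, hθe⟩]
        rw [h8]
        ring
      · have h8 : cE H p e ξ (Cfsg.Agent.Lib.Helper83.inflate D θ) = 0 := by
          unfold cE; rw [if_neg (fun h => hξ h.1)]
        rw [if_neg hξ, h8]
        simp
    have hf0 : f = 0 := by
      apply hfour s₀ f
      · intro θ hθ
        rw [hf, if_neg hθ]
      · intro k hk
        have e1 : ∀ θ : IrrCharacter (H ⧸ D), f θ * θ.1 k =
            ∑ s : H, (if p ∣ orderOf s then 0 else X H e (z : G) χ s *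
              (if θ ∈ β then θ.1 k * conj (θ.1 (s : H ⧸ D)) else 0)) := by
          intro θ
          rw [hf]
          by_cases hθ : θ ∈ β
          · rw [if_pos hθ, Q_def, Finset.sum_mul]
            refine Finset.sum_congr rfl fun s _ => ?_
            by_cases hs : p ∣ orderOf s
            · rw [if_pos hs, if_pos hs, zero_mul]
            · rw [if_neg hs, if_neg hs, if_pos hθ, Cfsg.Agent.Lib.Helper83.inflate_apply]
              ring
          · rw [if_neg hθ, zero_mul]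
            symm
            refine Finset.sum_eq_zero fun s _ => ?_
            rw [if_neg hθ, mul_zero, ite_self]
        rw [Finset.sum_congr rfl (fun θ _ => e1 θ), Finset.sum_comm]
        refine Finset.sum_eq_zero fun s _ => ?_
        by_cases hs : p ∣ orderOf s
        · simp [hs]
        · simp only [if_neg hs]
          rw [← Finset.mul_sum]
          have hs' : ¬ p ∣ orderOf (s : H ⧸ D) := fun h =>
            hs (dvd_trans h (orderOf_map_dvd (QuotientGroup.mk' D) s))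
          rw [weak_orth_sum' hM β hβ (s : H ⧸ D) k hs' hk, mul_zero]
      · intro s hs
        have h0 := hcon s hs ζ hζmem
        have e1 : ∑ θ : IrrCharacter (H ⧸ D), f θ * (Φ s θ : ℂ) =
            ((kap H p e : ℝ) : ℂ) * ((p : ℂ) ^ δ *
              gsum (Gc s) (xv (fun ξ => (resMult H χ ξ : ℤ)) k₁ ζ)) := by
          have e2 : ∀ θ : IrrCharacter (H ⧸ D), f θ * (Φ s θ : ℂ) =
              ((kap H p e : ℝ) : ℂ) * ∑ ξ : IrrCharacter H,
                ((resMult H χ ξ : ℂ) * eps H z ξ) *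
                  ((cE H p e ξ (Cfsg.Agent.Lib.Helper83.inflate D θ) : ℂ) * (Φ s θ : ℂ)) := by
            intro θ
            by_cases hθ : θ ∈ β
            · rw [hf, if_pos hθ, hQX θ hθ, mul_assoc, Finset.sum_mul]
              congr 1
              refine Finset.sum_congr rfl fun ξ _ => ?_
              ring
            · rw [hsupp s θ hθ]
              simp
          rw [Finset.sum_congr rfl (fun θ _ => e2 θ), ← Finset.mul_sum, Finset.sum_comm]
          congr 1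
          rw [gsum_def, Finset.mul_sum]
          refine Finset.sum_congr rfl fun ξ _ => ?_
          rw [← Finset.mul_sum]
          have e3 : ∑ θ : IrrCharacter (H ⧸ D),
              (cE H p e ξ (Cfsg.Agent.Lib.Helper83.inflate D θ) : ℂ) * (Φ s θ : ℂ) =
              (g s ξ : ℂ) := by
            rw [hg, ha, Int.cast_sum,
              ← sum_mul_liftVec D (Φ s) (fun ζ => (cE H p e ξ ζ : ℂ))]
            refine Finset.sum_congr rfl fun ζ _ => ?_
            push_cast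
            ring
          rw [e3, hGc s ξ, xv_apply, hk₁ ξ]
          push_cast
          ring
        rw [e1, h0, mul_zero, mul_zero]
    have hQ0 : ∀ θ ∈ β,
        Q p (X H e (z : G) χ) (Cfsg.Agent.Lib.Helper83.inflate D θ).1 = 0 := by
      intro θ hθ
      have h2 := congrFun hf0 θ
      rw [hf, if_pos hθ] at h2
      exact h2
    have hX0 : ∀ s : H, ¬ p ∣ orderOf s → X H e (z : G) χ s = 0 := by
      intro s hs
      have h2 := kernel_repro hM e he (fun c : H => χ.1 ((z : G) * (c : G))) s hs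
      have h3 : ∀ s' : H, (if p ∣ orderOf s' then (0 : ℂ) else
          conj (blockPart e (fun c : H => χ.1 ((z : G) * (c : G))) s') *
            ∑ ξ : IrrCharacter H, (if ξ ∈ e then conj (ξ.1 s) * ξ.1 s' else 0)) =
          ∑ θ : IrrCharacter (H ⧸ D), (if p ∣ orderOf s' then 0 else
            (Nat.card D : ℂ) * conj (θ.1 (s : H ⧸ D)) *
              (if θ ∈ β then conj (X H e (z : G) χ s' *
                conj ((Cfsg.Agent.Lib.Helper83.inflate D θ).1 s')) else 0)) := by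
        intro s'
        by_cases hs' : p ∣ orderOf s'
        · simp [hs']
        · simp only [if_neg hs']
          have h4 := block_kernel_deflate hM e he D hDZ hDp s' s hs' hs
          have h5 : ∑ ξ : IrrCharacter H, (if ξ ∈ e then conj (ξ.1 s) * ξ.1 s' else 0) =
              ∑ ξ : IrrCharacter H, (if ξ ∈ e then ξ.1 s' * conj (ξ.1 s) else 0) :=
            Finset.sum_congr rfl fun ξ _ => by rw [mul_comm]
          rw [h5, h4, Finset.mul_sum, Finset.mul_sum]
          refine Finset.sum_congr rfl fun θ _ => ?_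
          by_cases hθ : θ ∈ β
          · rw [if_pos ((hmemβ θ).mp hθ), if_pos hθ, X_def, map_mul, Complex.conj_conj,
              Cfsg.Agent.Lib.Helper83.inflate_apply]
            ring
          · rw [if_neg (fun h => hθ ((hmemβ θ).mpr h)), if_neg hθ]
            ring
      rw [Finset.sum_congr rfl (fun s' _ => h3 s'), Finset.sum_comm] at h2
      have h6 : ∀ θ : IrrCharacter (H ⧸ D), ∑ s' : H, (if p ∣ orderOf s' then (0 : ℂ) else
            (Nat.card D : ℂ) * conj (θ.1 (s : H ⧸ D)) *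
              (if θ ∈ β then conj (X H e (z : G) χ s' *
                conj ((Cfsg.Agent.Lib.Helper83.inflate D θ).1 s')) else 0)) = 0 := by
        intro θ
        by_cases hθ : θ ∈ β
        · have h7 := congrArg conj (hQ0 θ hθ)
          rw [Q_def, map_sum, map_zero] at h7
          have h8 : ∑ s' : H, (if p ∣ orderOf s' then (0 : ℂ) else
              (Nat.card D : ℂ) * conj (θ.1 (s : H ⧸ D)) *
                (if θ ∈ β then conj (X H e (z : G) χ s' *
                  conj ((Cfsg.Agent.Lib.Helper83.inflate D θ).1 s')) else 0)) =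
              (Nat.card D : ℂ) * conj (θ.1 (s : H ⧸ D)) *
                ∑ s' : H, conj (if p ∣ orderOf s' then 0 else X H e (z : G) χ s' *
                  conj ((Cfsg.Agent.Lib.Helper83.inflate D θ).1 s')) := by
            rw [Finset.mul_sum]
            refine Finset.sum_congr rfl fun s' _ => ?_
            by_cases hs' : p ∣ orderOf s'
            · simp [hs']
            · simp only [if_neg hs', if_pos hθ]
          rw [h8, h7, mul_zero]
        · refine Finset.sum_eq_zero fun s' _ => ?_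
          rw [if_neg hθ, mul_zero, ite_self]
      rw [Finset.sum_congr rfl (fun θ _ => h6 θ), Finset.sum_const_zero] at h2
      have hH0 : (Nat.card H : ℂ) ≠ 0 := Nat.cast_ne_zero.mpr Nat.card_pos.ne'
      have h9 : conj (blockPart e (fun c : H => χ.1 ((z : G) * (c : G))) s) = 0 := by
        rcases mul_eq_zero.mp h2.symm with h | h
        · exact absurd h hH0
        · exact h
      rw [X_def]
      exact (map_eq_zero _).mp h9
    have hT := T_ne_zero H hM z hz n hzn e B hind χ χ hχB hχB hχ0 hχ0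
    apply hT
    rw [T_def]
    refine Finset.sum_eq_zero fun s _ => ?_
    by_cases hs : p ∣ orderOf s
    · rw [if_pos hs]
    · rw [if_neg hs, hX0 s hs, zero_mul]
  · -- the total norm
    have h2 : ((∑ s, ∑ θ : IrrCharacter (H ⧸ D), Φ s θ ^ 2 : ℤ) : ℝ) ≤
        ((2 * ((p ^ δ : ℕ) : ℤ) : ℤ) : ℝ) := by exact_mod_cast htot
    rw [← Finset.mul_sum]
    have h3 : (0 : ℝ) ≤ ((p ^ n : ℕ) : ℝ) := Nat.cast_nonneg _
    have h4 : ∑ s, ((∑ θ : IrrCharacter (H ⧸ D), Φ s θ ^ 2 : ℤ) : ℝ) =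
        ((∑ s, ∑ θ : IrrCharacter (H ⧸ D), Φ s θ ^ 2 : ℤ) : ℝ) := by
      push_cast; rfl
    rw [h4, hdef]
    calc ((p ^ n : ℕ) : ℝ) * ((∑ s, ∑ θ : IrrCharacter (H ⧸ D), Φ s θ ^ 2 : ℤ) : ℝ)
        ≤ ((p ^ n : ℕ) : ℝ) * ((2 * ((p ^ δ : ℕ) : ℤ) : ℤ) : ℝ) :=
          mul_le_mul_of_nonneg_left h2 h3
      _ = 2 * ((p ^ (n + δ) : ℕ) : ℝ) := by
          push_cast
          rw [pow_add]
          ring

end Lift

end Cfsg.Agent.Lib.Helper33.BF
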