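import Mathlib
import Cfsg.Prelude.Def_Blocks
import Cfsg.Prelude.Def_BlockRank
import Cfsg.Agent.Lib.Helper81.IrrEquiv
import Cfsg.Agent.Lib.Helper81.BrSubgrp
import Cfsg.Agent.Lib.Helper81.RegPart
import Cfsg.Agent.Lib.Helper79.Blk2
import Cfsg.Agent.S0965

/-!
# Transport of blocks along `K ≃* G` for a subgroup `K = ⊤`, and rank invariance (helper33)
-/

set_option autoImplicit false

namespace Cfsg.Agent.Lib.Helper33.Klein

open Cfsg Cfsg.Agent.Lib.Helper4 Cfsg.Agent.Lib.Helper21 Cfsg.Agent.Lib.Helper22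
open Cfsg.Agent.Lib.Helper81

section Rank

variable {K K' : Type*} [Group K] [Group K']

theorem pRegularPart_irrMap (φ : K ≃* K') (p : ℕ) (θ : IrrCharacter K) :
    pRegularPart p (irrMap φ θ : K' → ℂ) = fun k' => pRegularPart p (θ : K → ℂ) (φ.symm k') := by
  funext k'
  have ho : orderOf (φ.symm k') = orderOf k' := MulEquiv.orderOf_eq φ.symm k'
  by_cases h : p ∣ orderOf k'
  · rw [pRegularPart_of_sing _ h, pRegularPart_of_sing _ (by rw [ho]; exact h)]
  · rw [pRegularPart_of_reg _ h, pRegularPart_of_reg _ (by rw [ho]; exact h), irrMap_apply]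

/-- The `p`-regular rank is invariant under transport along a group isomorphism. -/
theorem blockRank_image_irrMap (φ : K ≃* K') (p : ℕ) (e : Set (IrrCharacter K)) :
    blockRank p (irrMap φ '' e) = blockRank p e := by
  unfold blockRank
  have h : (fun χ : IrrCharacter K' => pRegularPart p (χ : K' → ℂ)) '' (irrMap φ '' e) =
      ((LinearEquiv.funCongrLeft ℂ ℂ φ.symm.toEquiv : (K → ℂ) ≃ₗ[ℂ] (K' → ℂ)) :
          (K → ℂ) →ₗ[ℂ] (K' → ℂ)) ''
        ((fun χ : IrrCharacter K => pRegularPart p (χ : K → ℂ)) '' e) := by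
    rw [Set.image_image, Set.image_image]
    refine Set.image_congr fun θ _ => ?_
    rw [pRegularPart_irrMap]
    rfl
  rw [h, ← Submodule.map_span]
  exact LinearEquiv.finrank_map_eq _ _

end Rank

section Top

variable {G : Type*} [Group G] [Finite G] {p : ℕ} {M : Ideal AlgInt}

/-- The isomorphism `K ≃* G` for a subgroup `K` containing every element. -/
def topIso (K : Subgroup G) (hK : ∀ g : G, g ∈ K) : K ≃* G where
  toFun := Subtype.val
  invFun := fun g => ⟨g, hK g⟩
  left_inv := fun _ => rfl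
  right_inv := fun _ => rfl
  map_mul' := fun _ _ => rfl

omit [Finite G] in
theorem topIso_apply (K : Subgroup G) (hK : ∀ g : G, g ∈ K) (k : K) :
    topIso K hK k = (k : G) := rfl

omit [Finite G] in
theorem topIso_symm_apply (K : Subgroup G) (hK : ∀ g : G, g ∈ K) (g : G) :
    ((topIso K hK).symm g : G) = g := rfl

theorem inducedCentralChar_top (K : Subgroup G) (hK : ∀ g : G, g ∈ K) (ξ : IrrCharacter K)
    (g : G) :
    inducedCentralChar K (ξ : K → ℂ) g = centralChar (irrMap (topIso K hK) ξ : G → ℂ) g := by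
  classical
  let _ : Fintype G := Fintype.ofFinite G
  let _ : Fintype K := Fintype.ofFinite K
  rw [Cfsg.Agent.S0965.inducedCentralChar_eq_omega, ← omega_classInd _ (isClassFunction_irr _),
    omega_def, omega_def, irrMap_one]
  congr 1
  rw [← Equiv.sum_comp (topIso K hK).toEquiv]
  refine Finset.sum_congr rfl fun h _ => ?_
  have e1 : (topIso K hK).toEquiv h = (h : G) := rfl
  rw [e1, classInd_apply]
  have e2 : (irrMap (topIso K hK) ξ : G → ℂ) (h : G) = (ξ : K → ℂ) h := by
    rw [irrMap_apply]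
    rfl
  rw [e2]
  by_cases hc : IsConj g (h : G)
  · rw [if_pos hc, if_pos hc.symm]
  · rw [if_neg hc, if_neg (fun h' => hc h'.symm)]

/-- For a subgroup `K = ⊤`, the only block of `K` inducing `B` is the transport of `B`. -/
theorem isInducedBlock_top_iff (hM : IsPModular p M) (K : Subgroup G) (hK : ∀ g : G, g ∈ K)
    (b : Set (IrrCharacter K)) (B : Set (IrrCharacter G)) (hB : IsPBlock M B) :
    IsInducedBlock M K b B ↔ b = irrMap (topIso K hK).symm '' B := by
  constructor
  · rintro ⟨hb, -, h⟩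
    obtain ⟨ξ₀, hξ₀⟩ := id hb
    have hξ₀b : ξ₀ ∈ b := by rw [hξ₀]; exact mem_blockOf_self hM ξ₀
    obtain ⟨χ₀, hχ₀⟩ := id hB
    have hχ₀B : χ₀ ∈ B := by rw [hχ₀]; exact mem_blockOf_self hM χ₀
    have h1 : irrMap (topIso K hK) ξ₀ ∈ B := by
      rw [hχ₀]
      show SameBlock M (χ₀ : G → ℂ) (irrMap (topIso K hK) ξ₀ : G → ℂ)
      apply sameBlock_symm
      intro g
      have h2 := h ξ₀ hξ₀b χ₀ hχ₀B g
      rwa [inducedCentralChar_top K hK] at h2
    have h3 : irrMap (topIso K hK) '' b = B := by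
      rw [Cfsg.Agent.Lib.Helper79.blockOf_eq_of_mem hM (isPBlock_image_irrMap _ hb)
        (show irrMap (topIso K hK) ξ₀ ∈ irrMap (topIso K hK) '' b from ⟨ξ₀, hξ₀b, rfl⟩),
        ← Cfsg.Agent.Lib.Helper79.blockOf_eq_of_mem hM hB h1]
    rw [← h3, image_irrMap_image_symm]
  · rintro rfl
    refine ⟨isPBlock_image_irrMap _ hB, hB, ?_⟩
    rintro _ ⟨χ₁, hχ₁, rfl⟩ χ hχ g
    rw [inducedCentralChar_top K hK, irrMap_irrMap_symm]
    have h1 : χ ∈ blockOf M (χ₁ : G → ℂ) := by
      rw [← Cfsg.Agent.Lib.Helper79.blockOf_eq_of_mem hM hB hχ₁]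
      exact hχ
    exact h1 g

/-- The blocks of `K = ⊤` inducing `B` contribute the rank of `B`. -/
theorem finsum_induced_top (hM : IsPModular p M) (K : Subgroup G) (hK : ∀ g : G, g ∈ K)
    (B : Set (IrrCharacter G)) (hB : IsPBlock M B) :
    ∑ᶠ b ∈ {b : Set (IrrCharacter K) | IsInducedBlock M K b B}, blockRank p b =
      blockRank p B := by
  have hset : {b : Set (IrrCharacter K) | IsInducedBlock M K b B} =
      {irrMap (topIso K hK).symm '' B} := by
    ext b
    rw [Set.mem_singleton_iff]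
    exact isInducedBlock_top_iff hM K hK b B hB
  rw [hset, finsum_mem_singleton, blockRank_image_irrMap]

/-- The transport of `B` to `K = ⊤` induces `B` and has the same defect. -/
theorem exists_induced_top (hM : IsPModular p M) (K : Subgroup G) (hK : ∀ g : G, g ∈ K)
    (B : Set (IrrCharacter G)) (hB : IsPBlock M B) :
    ∃ b : Set (IrrCharacter K), IsInducedBlock M K b B ∧ blockDefect p b = blockDefect p B ∧
      blockRank p b = blockRank p B :=
  ⟨irrMap (topIso K hK).symm '' B, (isInducedBlock_top_iff hM K hK _ B hB).mpr rfl,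
    blockDefect_image_irrMap _ p B, blockRank_image_irrMap _ p B⟩

omit [Finite G] in
/-- The sum over the blocks of a subgroup inducing `B` only depends on the subgroup. -/
theorem finsum_induced_congr (H H' : Subgroup G) (h : H = H') (B : Set (IrrCharacter G)) :
    ∑ᶠ b ∈ {b : Set (IrrCharacter H) | IsInducedBlock M H b B}, blockRank p b =
      ∑ᶠ b ∈ {b : Set (IrrCharacter H') | IsInducedBlock M H' b B}, blockRank p b := by
  subst h
  rfl

end Top

end Cfsg.Agent.Lib.Helper33.Klein
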