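import Mathlib
import Cfsg.Agent.Lib.Helper80.Major3
import Cfsg.Agent.Lib.Helper33.KleinTop

/-!
# A `2`-block of defect two has exactly four irreducible characters (helper33)

Via the contribution matrix of the trivial subsection (helper80's `Major` library).
-/

set_option autoImplicit false
set_option linter.style.haveILetI false

namespace Cfsg.Agent.Lib.Helper33.Klein

open Cfsg Cfsg.Agent.Lib.Helper4 Cfsg.Agent.Lib.Helper21 Cfsg.Agent.Lib.Helper22
open Cfsg.Agent.Lib.Helper80.Major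
open scoped ComplexConjugate

/-- The combinatorial core: an integer row with `∑ n² = 4 n₀`, `n₀` odd, no zero entry, has
exactly four entries. -/
theorem four_of_row {I : Type*} [DecidableEq I] (S : Finset I) (n : I → ℤ) (ψ₀ : I)
    (hψ₀ : ψ₀ ∈ S) (hrow : ∑ ψ ∈ S, n ψ ^ 2 = 4 * n ψ₀) (hne : ∀ ψ ∈ S, n ψ ≠ 0)
    (hodd : Odd (n ψ₀)) : S.card = 4 := by
  have hsplit := Finset.add_sum_erase S (fun ψ => n ψ ^ 2) hψ₀
  have hR0 : 0 ≤ ∑ ψ ∈ S.erase ψ₀, n ψ ^ 2 := Finset.sum_nonneg fun ψ _ => sq_nonneg _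
  have hm : n ψ₀ ^ 2 + ∑ ψ ∈ S.erase ψ₀, n ψ ^ 2 = 4 * n ψ₀ := by
    rw [← hrow]
    exact hsplit
  have hm0 : 0 ≤ n ψ₀ := by nlinarith [sq_nonneg (n ψ₀)]
  have hm4 : n ψ₀ ≤ 4 := by nlinarith
  have hR : ∑ ψ ∈ S.erase ψ₀, n ψ ^ 2 = 3 := by
    obtain ⟨k, hk⟩ := hodd
    have hcases : n ψ₀ = 1 ∨ n ψ₀ = 3 := by omega
    rcases hcases with h | h
    · rw [h] at hm; linarith
    · rw [h] at hm; linarith
  have hone : ∀ ψ ∈ S.erase ψ₀, n ψ ^ 2 = 1 := by
    intro ψ hψ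
    have h1 : n ψ ^ 2 ≤ 3 := by
      rw [← hR]
      exact Finset.single_le_sum (f := fun ψ => n ψ ^ 2) (fun ψ _ => sq_nonneg _) hψ
    have h2 : n ψ ≠ 0 := hne ψ (Finset.mem_of_mem_erase hψ)
    have h3 : -1 ≤ n ψ := by nlinarith
    have h4 : n ψ ≤ 1 := by nlinarith
    have h5 : n ψ = -1 ∨ n ψ = 1 := by omega
    rcases h5 with h | h <;> rw [h] <;> norm_num
  have hcard : ((S.erase ψ₀).card : ℤ) = 3 := by
    rw [← hR, Finset.sum_congr rfl hone]
    simp
  have h6 : (S.erase ψ₀).card = 3 := by exact_mod_cast hcard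
  rw [Finset.card_erase_of_mem hψ₀] at h6
  have hpos : 0 < S.card := Finset.card_pos.mpr ⟨ψ₀, hψ₀⟩
  omega

section Main

variable {G : Type*} [Group G] [Finite G] {M : Ideal AlgInt}

/-- **A `2`-block of defect two has exactly four irreducible characters.** -/
theorem card_eq_four_of_defect_two (hM : IsPModular 2 M) (B : Set (IrrCharacter G))
    (hB : IsPBlock M B) (hd : blockDefect 2 B = 2) : Nat.card B = 4 := by
  classical
  haveI : Fact (Nat.Prime 2) := ⟨Nat.prime_two⟩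
  letI : Fintype G := Fintype.ofFinite G
  obtain ⟨H, hH⟩ : ∃ H : Subgroup G, H = ⊤ := ⟨_, rfl⟩
  have hHtop : ∀ g : G, g ∈ H := fun g => by rw [hH]; exact Subgroup.mem_top g
  letI : Fintype H := Fintype.ofFinite H
  haveI := irr_finite (G := G)
  letI : Fintype (IrrCharacter G) := Fintype.ofFinite (IrrCharacter G)
  haveI := irr_finite (G := H)
  letI : Fintype (IrrCharacter H) := Fintype.ofFinite (IrrCharacter H)
  obtain ⟨e, hind, hdef, -⟩ := exists_induced_top (p := 2) hM H hHtop B hB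
  have he : IsPBlock M e := hind.1
  have hz : (1 : H) ∈ Subgroup.center H := Subgroup.one_mem _
  have hu : ∃ k : ℕ, orderOf (((1 : H) : G)) = 2 ^ k := ⟨0, by simp⟩
  have huH : ((1 : H) : G) ∈ H := (1 : H).2
  have hcent : ∀ h ∈ H, h * ((1 : H) : G) = ((1 : H) : G) * h := fun h _ => by simp
  have hCH : Subgroup.centralizer ({((1 : H) : G)} : Set G) ≤ H := fun g _ => hHtop g
  -- integrality of alpha
  obtain ⟨n, hn⟩ : ∃ n : IrrCharacter G → IrrCharacter G → ℤ,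
      ∀ χ ψ, alpha H 2 e (1 : H) χ ψ = (n χ ψ : ℂ) := by
    refine ⟨fun χ ψ => ∑ j : IrrCharacter H × IrrCharacter H, coef H 2 e χ ψ j, fun χ ψ => ?_⟩
    unfold alpha
    push_cast
    refine Finset.sum_congr rfl fun j _ => ?_
    have h1 : ∀ ξ : IrrCharacter H, eps H (1 : H) ξ = 1 := fun ξ => by
      unfold eps
      exact div_self (irr_one_ne_zero ξ)
    rw [h1, h1, map_one, mul_one, mul_one]
  -- the constant
  obtain ⟨K, hK⟩ : ∃ K : ℕ, K = 2 ^ e0 H 2 e * (Nat.card H / 2 ^ (Nat.card H).factorization 2) :=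
    ⟨_, rfl⟩
  have hcardH : Nat.card H = K * 4 := by
    have h1 := Nat.ordProj_mul_ordCompl_eq_self (Nat.card H) 2
    have h2 := e0_add (p := 2) H e
    rw [hdef, hd] at h2
    rw [← h2] at h1
    rw [hK, ← h2]
    generalize Nat.card H / 2 ^ (e0 H 2 e + 2) = c at h1 ⊢
    rw [← h1, pow_add]
    ring
  have hKpos : 0 < K := by
    rcases Nat.eq_zero_or_pos K with h | h
    · rw [h, zero_mul] at hcardH
      exact absurd hcardH Nat.card_pos.ne'
    · exact h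
  have hKc : (K : ℂ) ≠ 0 := Nat.cast_ne_zero.mpr hKpos.ne'
  have hT : ∀ χ ψ, T H 2 e ((1 : H) : G) χ ψ = (K : ℂ) * (n χ ψ : ℂ) := by
    intro χ ψ
    rw [T_eq_alpha H hM e he χ ψ (1 : H) hz, hn, hK]
    push_cast
    ring
  -- symmetry
  have hsymm : ∀ χ ψ, n χ ψ = n ψ χ := by
    intro χ ψ
    have h1 := T_conj (p := 2) H e ((1 : H) : G) χ ψ
    rw [hT, hT, map_mul, Complex.conj_natCast, map_intCast] at h1
    have h2 := mul_left_cancel₀ hKc h1
    exact_mod_cast h2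
  -- the row identity
  have hrow : ∀ χ, ∑ ψ ∈ Finset.univ.filter (fun ψ : IrrCharacter G => ψ ∈ B), n χ ψ ^ 2 =
      4 * n χ χ := by
    intro χ
    have h1 := T_row H hM ((1 : H) : G) hu huH hcent hCH e B hind χ
    rw [hT, hcardH] at h1
    have h2 : ∑ ψ : IrrCharacter G, (if ψ ∈ B then T H 2 e ((1 : H) : G) χ ψ *
        conj (T H 2 e ((1 : H) : G) χ ψ) else 0) =
        (K : ℂ) * (K : ℂ) * ((∑ ψ ∈ Finset.univ.filter (fun ψ : IrrCharacter G => ψ ∈ B),
          n χ ψ ^ 2 : ℤ) : ℂ) := by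
      rw [Finset.sum_filter, Int.cast_sum, Finset.mul_sum]
      refine Finset.sum_congr rfl fun ψ _ => ?_
      by_cases hψ : ψ ∈ B
      · rw [if_pos hψ, if_pos hψ, hT, map_mul, Complex.conj_natCast, map_intCast, Int.cast_pow]
        ring
      · rw [if_neg hψ, if_neg hψ, Int.cast_zero, mul_zero]
    rw [h2] at h1
    have h3 : (K : ℂ) * (K : ℂ) * ((∑ ψ ∈ Finset.univ.filter (fun ψ : IrrCharacter G => ψ ∈ B),
          n χ ψ ^ 2 : ℤ) : ℂ) = (K : ℂ) * (K : ℂ) * ((4 * n χ χ : ℤ) : ℂ) := by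
      rw [h1]
      push_cast
      ring
    have h4 := mul_left_cancel₀ (mul_ne_zero hKc hKc) h3
    exact_mod_cast h4
  -- a height zero character
  obtain ⟨ψ₀, hψ₀B, hψ₀0⟩ := exists_height_zero (p := 2) hM B hB
  have hzk : (1 : H) ^ (2 ^ 0) = 1 := one_pow _
  have hne : ∀ ψ ∈ Finset.univ.filter (fun ψ : IrrCharacter G => ψ ∈ B), n ψ₀ ψ ≠ 0 := by
    intro ψ hψ
    have hψB : ψ ∈ B := (Finset.mem_filter.mp hψ).2
    have h1 := (alpha_major H hM (1 : H) hz 0 hzk e B hind hdef ψ ψ₀ hψB hψ₀B hψ₀0).2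
    intro h0
    apply h1
    rw [hn, hsymm, h0, Int.cast_zero, zero_div]
    exact locIdeal_zero hM
  have hodd : Odd (n ψ₀ ψ₀) := by
    have h1 := (alpha_major H hM (1 : H) hz 0 hzk e B hind hdef ψ₀ ψ₀ hψ₀B hψ₀B hψ₀0).2
    rw [hψ₀0, pow_zero, div_one, hn] at h1
    by_contra hcon
    rw [Int.not_odd_iff_even] at hcon
    obtain ⟨k, hk⟩ := hcon
    apply h1
    have h2 : ((n ψ₀ ψ₀ : ℤ) : ℂ) = ((2 : ℕ) : ℂ) * (k : ℂ) := by
      rw [hk]
      push_cast
      ring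
    rw [h2]
    exact locIdeal_mul_right hM ((locIdeal_natCast_iff hM 2).mpr dvd_rfl) (locRing_intCast hM k)
  have hfin := four_of_row (Finset.univ.filter (fun ψ : IrrCharacter G => ψ ∈ B)) (n ψ₀) ψ₀
    (Finset.mem_filter.mpr ⟨Finset.mem_univ _, hψ₀B⟩) (hrow ψ₀) hne hodd
  rw [Nat.card_eq_fintype_card, Fintype.card_subtype]
  exact hfin

end Main

end Cfsg.Agent.Lib.Helper33.Klein
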