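import Mathlib
import Cfsg.Agent.Lib.Helper33.KleinK4
import Cfsg.Agent.Lib.Helper82.Major
import Cfsg.Agent.Lib.Helper30.Cores
import Cfsg.Agent.S4511
import Cfsg.Agent.S0958
import Cfsg.Agent.S0912
import Cfsg.Agent.S0906

/-!
# A `2`-block of defect two of a group with a central involution has rank one (helper33)
-/

set_option autoImplicit false
set_option linter.style.haveILetI false

namespace Cfsg.Agent.Lib.Helper33.Klein

open Cfsg Cfsg.Agent.Lib.Helper4 Cfsg.Agent.Lib.Helper21 Cfsg.Agent.Lib.Helper22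
open scoped ComplexConjugate

section Reps

variable {G : Type*} [Group G] [Finite G]

/-- A set of representatives of the classes of `p`-elements containing a prescribed set of
pairwise non-conjugate `p`-elements. -/
theorem exists_reps (p : ℕ) (Y : Finset G) (hY : ∀ y ∈ Y, ∃ k : ℕ, orderOf y = p ^ k)
    (hYc : ∀ y ∈ Y, ∀ y' ∈ Y, IsConj y y' → y = y') :
    ∃ X : Finset G, Y ⊆ X ∧ (∀ x ∈ X, ∃ k : ℕ, orderOf x = p ^ k) ∧
      ∀ g : G, (∃ k : ℕ, orderOf g = p ^ k) → ∃! x, x ∈ X ∧ IsConj g x := by
  classical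
  letI : Fintype G := Fintype.ofFinite G
  obtain ⟨r, hr⟩ : ∃ r : G → G, ∀ g, r g =
      if h : ∃ y ∈ Y, IsConj g y then Classical.choose h
      else Quotient.out (ConjClasses.mk g) := ⟨_, fun _ => rfl⟩
  have hr1 : ∀ g, IsConj g (r g) := by
    intro g
    rw [hr]
    by_cases h : ∃ y ∈ Y, IsConj g y
    · rw [dif_pos h]
      exact (Classical.choose_spec h).2
    · rw [dif_neg h]
      have h1 : ConjClasses.mk (Quotient.out (ConjClasses.mk g)) = ConjClasses.mk g :=
        Quotient.out_eq _
      exact (ConjClasses.mk_eq_mk_iff_isConj.mp h1).symm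
  have hr2 : ∀ g g', IsConj g g' → r g = r g' := by
    intro g g' hgg
    rw [hr, hr]
    by_cases h : ∃ y ∈ Y, IsConj g y
    · have h' : ∃ y ∈ Y, IsConj g' y := by
        obtain ⟨y, hy, hgy⟩ := h
        exact ⟨y, hy, hgg.symm.trans hgy⟩
      rw [dif_pos h, dif_pos h']
      exact hYc _ (Classical.choose_spec h).1 _ (Classical.choose_spec h').1
        (((Classical.choose_spec h).2.symm.trans hgg).trans (Classical.choose_spec h').2)
    · have h' : ¬ ∃ y ∈ Y, IsConj g' y := by
        rintro ⟨y, hy, hgy⟩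
        exact h ⟨y, hy, hgg.trans hgy⟩
      rw [dif_neg h, dif_neg h']
      have h1 : ConjClasses.mk g = ConjClasses.mk g' := ConjClasses.mk_eq_mk_iff_isConj.mpr hgg
      rw [h1]
  have hr3 : ∀ y ∈ Y, r y = y := by
    intro y hy
    have h : ∃ y' ∈ Y, IsConj y y' := ⟨y, hy, IsConj.refl y⟩
    rw [hr, dif_pos h]
    exact (hYc _ hy _ (Classical.choose_spec h).1 (Classical.choose_spec h).2).symm
  have hord : ∀ g g' : G, IsConj g g' → orderOf g = orderOf g' := by
    intro g g' hgg
    obtain ⟨c, hc⟩ := isConj_iff.mp hgg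
    have hs : SemiconjBy c g g' := by
      unfold SemiconjBy
      rw [← hc]
      group
    exact hs.orderOf_eq c
  refine ⟨(Finset.univ.filter (fun g : G => ∃ k : ℕ, orderOf g = p ^ k)).image r, ?_, ?_, ?_⟩
  · intro y hy
    rw [Finset.mem_image]
    exact ⟨y, Finset.mem_filter.mpr ⟨Finset.mem_univ _, hY y hy⟩, hr3 y hy⟩
  · intro x hx
    rw [Finset.mem_image] at hx
    obtain ⟨g, hg, rfl⟩ := hx
    obtain ⟨k, hk⟩ := (Finset.mem_filter.mp hg).2
    exact ⟨k, by rw [← hord g (r g) (hr1 g), hk]⟩
  · intro g hg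
    refine ⟨r g, ⟨Finset.mem_image.mpr ⟨g, Finset.mem_filter.mpr ⟨Finset.mem_univ _, hg⟩, rfl⟩,
      hr1 g⟩, ?_⟩
    rintro x ⟨hx, hgx⟩
    rw [Finset.mem_image] at hx
    obtain ⟨g', -, rfl⟩ := hx
    exact (hr2 g g' (hgx.trans (hr1 g').symm)).symm

end Reps

section Rank

variable {G : Type*} [Group G] [Finite G] {p : ℕ} {M : Ideal AlgInt}

/-- A block has positive rank. -/
theorem blockRank_pos (hM : IsPModular p M) (B : Set (IrrCharacter G)) (hB : IsPBlock M B) :
    0 < blockRank p B := by
  classical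
  obtain ⟨χ₀, hχ₀⟩ := id hB
  have hχ₀B : χ₀ ∈ B := by rw [hχ₀]; exact mem_blockOf_self hM χ₀
  unfold blockRank
  rw [Module.finrank_pos_iff_exists_ne_zero]
  refine ⟨⟨pRegularPart p (χ₀ : G → ℂ), Submodule.subset_span ⟨χ₀, hχ₀B, rfl⟩⟩, ?_⟩
  intro h
  have h1 : pRegularPart p (χ₀ : G → ℂ) = 0 := congrArg Subtype.val h
  have h2 : pRegularPart p (χ₀ : G → ℂ) 1 = (χ₀ : G → ℂ) 1 := by
    unfold pRegularPart IsPRegular
    rw [if_pos]
    rw [orderOf_one, Nat.dvd_one]
    exact hM.1.ne_one
  rw [h1] at h2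
  exact irr_one_ne_zero χ₀ h2.symm

/-- The sum over a finite set of blocks dominates each term. -/
theorem le_finsum_induced (H : Subgroup G) (B : Set (IrrCharacter G))
    (b : Set (IrrCharacter H)) (hb : IsInducedBlock M H b B) :
    blockRank p b ≤ ∑ᶠ b' ∈ {b' : Set (IrrCharacter H) | IsInducedBlock M H b' B},
      blockRank p b' := by
  classical
  letI : Fintype H := Fintype.ofFinite H
  haveI := irr_finite (G := H)
  have hfin : ({b' : Set (IrrCharacter H) | IsInducedBlock M H b' B}).Finite := Set.toFinite _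
  rw [finsum_mem_eq_finite_toFinset_sum _ hfin]
  exact Finset.single_le_sum (f := fun b' => blockRank p b') (fun _ _ => Nat.zero_le _)
    (hfin.mem_toFinset.mpr hb)

end Rank

section L1

variable {G : Type*} [Group G] [Finite G] {M : Ideal AlgInt}

/-- **Rank one**: a `2`-block of defect two of a group with a central involution has a single
irreducible Brauer character. -/
theorem rank_one_of_central_involution (hM : IsPModular 2 M) (b : Set (IrrCharacter G))
    (hb : IsPBlock M b) (hd : blockDefect 2 b = 2) (z : G) (hz : z ∈ Subgroup.center G)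
    (hz1 : z ≠ 1) (hz2 : z * z = 1) : blockRank 2 b = 1 := by
  classical
  haveI : Fact (Nat.Prime 2) := ⟨Nat.prime_two⟩
  letI : Fintype G := Fintype.ofFinite G
  have hk := card_eq_four_of_defect_two hM b hb hd
  -- a defect group
  obtain ⟨g₀, hg₀⟩ := Cfsg.Agent.S0906.result 2 M hM b hb
  obtain ⟨S₀⟩ : Nonempty (Sylow 2 (Subgroup.centralizer ({g₀} : Set G))) := inferInstance
  obtain ⟨D, hDdef⟩ : ∃ D : Subgroup G, D = (S₀ : Subgroup _).map
      (Subgroup.centralizer ({g₀} : Set G)).subtype := ⟨_, rfl⟩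
  have hD : IsDefectGroup 2 M b D := ⟨g₀, hg₀, S₀, hDdef⟩
  have hDp : IsPGroup 2 D := isDefectGroup_isPGroup b D hD
  have hDcard : Nat.card D = 4 := by
    rw [Cfsg.Agent.Lib.Helper82.card_defectGroup hM b hb D hD, hd]
    norm_num
  -- z ∈ D
  have hzD : z ∈ D := by
    have hzn : (Subgroup.zpowers z).Normal := by
      constructor
      intro x hx g
      have h1 : g * x * g⁻¹ = x := by
        obtain ⟨k, rfl⟩ := Subgroup.mem_zpowers_iff.mp hx
        have h2 : Commute g (z ^ k) := by
          have h3 : Commute g z := (Subgroup.mem_center_iff.mp hz g)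
          exact h3.zpow_right k
        rw [h2.eq, mul_inv_cancel_right]
      rw [h1]
      exact hx
    have hzp : IsPGroup 2 (Subgroup.zpowers z) := by
      apply IsPGroup.of_card (n := 1)
      rw [Nat.card_zpowers, pow_one]
      exact orderOf_eq_prime (by rw [pow_two]; exact hz2) hz1
    exact Cfsg.Agent.S0912.result 2 M hM b hb D hD
      (Cfsg.Agent.Lib.Helper30.le_pCore_of_normal hzn hzp (Subgroup.mem_zpowers z))
  -- a third element
  obtain ⟨w, hwD, hw1, hwz⟩ : ∃ w ∈ D, w ≠ 1 ∧ w ≠ z := by
    by_contra hcon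
    push Not at hcon
    have hsub : (D : Set G) ⊆ ({1, z} : Set G) := by
      intro w hw
      by_cases h1 : w = 1
      · left; exact h1
      · right; exact hcon w hw h1
    have h1 : Nat.card D ≤ 2 := by
      have h2 : Nat.card D = (D : Set G).ncard := rfl
      rw [h2]
      calc (D : Set G).ncard ≤ ({1, z} : Set G).ncard :=
            Set.ncard_le_ncard hsub (Set.toFinite _)
        _ ≤ 2 := (Set.ncard_insert_le 1 {z}).trans (by rw [Set.ncard_singleton])
    omega
  have hwo : ∃ k : ℕ, orderOf w = 2 ^ k := by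
    obtain ⟨k, hk⟩ := hDp ⟨w, hwD⟩
    have h1 : w ^ (2 ^ k) = 1 := by
      have := congrArg Subtype.val hk
      simpa using this
    obtain ⟨j, -, hj⟩ := (Nat.dvd_prime_pow Nat.prime_two).mp (orderOf_dvd_of_pow_eq_one h1)
    exact ⟨j, hj⟩
  have hcentral : ∀ a c : G, c ∈ Subgroup.center G → IsConj a c → a = c := by
    intro a c hc hac
    obtain ⟨t, ht⟩ := isConj_iff.mp hac.symm
    rw [← ht, mul_assoc, ← Subgroup.mem_center_iff.mp hc t⁻¹, ← mul_assoc, mul_inv_cancel,
      one_mul]
  -- the representatives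
  obtain ⟨X, hYX, hX, hXrep⟩ := exists_reps 2 ({1, z, w} : Finset G)
    (by
      intro y hy
      simp only [Finset.mem_insert, Finset.mem_singleton] at hy
      rcases hy with rfl | rfl | rfl
      · exact ⟨0, by simp⟩
      · exact ⟨1, by rw [pow_one]; exact orderOf_eq_prime (by rw [pow_two]; exact hz2) hz1⟩
      · exact hwo)
    (by
      intro y hy y' hy' hc
      simp only [Finset.mem_insert, Finset.mem_singleton] at hy hy'
      rcases hy with rfl | rfl | rfl <;> rcases hy' with rfl | rfl | rfl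
      · rfl
      · exact hcentral _ _ hz hc
      · exact (hcentral _ _ (Subgroup.one_mem _) hc.symm).symm
      · exact (hcentral _ _ hz hc.symm).symm
      · rfl
      · exact (hcentral _ _ hz hc.symm).symm
      · exact hcentral _ _ (Subgroup.one_mem _) hc
      · exact hcentral _ _ hz hc
      · rfl)
  have hcount := Cfsg.Agent.S4511.result 2 M hM b hb X hX hXrep
  rw [hk] at hcount
  -- the three terms
  have h1 : ∑ᶠ b' ∈ {b' : Set (IrrCharacter ↥(Subgroup.centralizer ({(1 : G)} : Set G))) |
      IsInducedBlock M (Subgroup.centralizer ({(1 : G)} : Set G)) b' b}, blockRank 2 b' =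
      blockRank 2 b :=
    finsum_induced_top hM _ (fun g => by
      rw [Subgroup.mem_centralizer_iff]
      intro y hy
      rw [Set.mem_singleton_iff.mp hy, mul_one, one_mul]) b hb
  have h2 : ∑ᶠ b' ∈ {b' : Set (IrrCharacter ↥(Subgroup.centralizer ({z} : Set G))) |
      IsInducedBlock M (Subgroup.centralizer ({z} : Set G)) b' b}, blockRank 2 b' =
      blockRank 2 b :=
    finsum_induced_top hM _ (fun g => by
      rw [Subgroup.mem_centralizer_iff]
      intro y hy
      rw [Set.mem_singleton_iff.mp hy]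
      exact (Subgroup.mem_center_iff.mp hz g).symm) b hb
  have h3 : 1 ≤ ∑ᶠ b' ∈ {b' : Set (IrrCharacter ↥(Subgroup.centralizer ({w} : Set G))) |
      IsInducedBlock M (Subgroup.centralizer ({w} : Set G)) b' b}, blockRank 2 b' := by
    have hP : IsPGroup 2 (Subgroup.zpowers w) := by
      obtain ⟨k, hk⟩ := hwo
      apply IsPGroup.of_card (n := k)
      rw [Nat.card_zpowers, hk]
    obtain ⟨b', hb'⟩ := (Cfsg.Agent.S0958.result 2 M hM (Subgroup.zpowers w)
      (Subgroup.centralizer ({w} : Set G)) hP
      (by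
        refine sup_le ?_ ?_
        · rw [Subgroup.zpowers_le, Subgroup.mem_centralizer_iff]
          intro y hy
          rw [Set.mem_singleton_iff] at hy
          rw [hy]
        · exact Subgroup.centralizer_le (by
            intro y hy
            rw [Set.mem_singleton_iff] at hy
            rw [hy]
            exact Subgroup.mem_zpowers w))
      (fun x hx => Subgroup.centralizer_le_normalizer _
        (Cfsg.Agent.Lib.Helper82.mem_centralizer_zpowers hx)) b hb).mpr
      ⟨D, hD, 1, by
        rintro _ ⟨y, hy, rfl⟩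
        have hyD : y ∈ D := (Subgroup.zpowers_le.mpr hwD) hy
        simpa using hyD⟩
    exact (blockRank_pos hM b' hb'.1).trans_le (le_finsum_induced _ b b' hb')
  have hsub : ∑ x ∈ ({1, z, w} : Finset G),
      ∑ᶠ b' ∈ {b' : Set (IrrCharacter ↥(Subgroup.centralizer ({x} : Set G))) |
        IsInducedBlock M (Subgroup.centralizer ({x} : Set G)) b' b}, blockRank 2 b' ≤ 4 := by
    rw [hcount]
    exact Finset.sum_le_sum_of_subset hYX
  rw [Finset.sum_insert (by
      simp only [Finset.mem_insert, Finset.mem_singleton]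
      rintro (h | h)
      · exact hz1 h.symm
      · exact hw1 h.symm),
    Finset.sum_insert (by
      simp only [Finset.mem_singleton]
      exact fun h => hwz h.symm), Finset.sum_singleton, h1, h2] at hsub
  have hpos := blockRank_pos hM b hb
  omega

end L1

end Cfsg.Agent.Lib.Helper33.Klein
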