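import Mathlib
import Cfsg.Agent.Lib.Helper33.KleinFus
import Cfsg.Agent.Lib.Helper33.KleinL1
import Cfsg.Agent.Lib.Helper81.BrMax2
import Cfsg.Agent.Lib.Helper81.BrPair
import Cfsg.Agent.Lib.Helper81.BrCent
import Cfsg.Agent.Lib.Helper82.Major

/-!
# Brauer pairs on cyclic subgroups generated by involutions of an abelian defect group (helper33)
-/

set_option autoImplicit false
set_option linter.style.haveILetI false

namespace Cfsg.Agent.Lib.Helper33.Klein

open Cfsg Cfsg.Agent.Lib.Helper4 Cfsg.Agent.Lib.Helper21 Cfsg.Agent.Lib.Helper22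
open Cfsg.Agent.Lib.Helper81
open scoped ComplexConjugate

section Elt

variable {G : Type*} [Group G]

theorem zpowers_conj (g x : G) :
    (Subgroup.zpowers x).map (MulAut.conj g).toMonoidHom = Subgroup.zpowers (g * x * g⁻¹) := by
  rw [MonoidHom.map_zpowers]
  rfl

theorem exists_snd (a : BrauerPairIdx G) (Q : Subgroup G) (h : a.1 = Q) :
    ∃ f : Set (IrrCharacter (Subgroup.centralizer (Q : Set G))),
      (⟨Q, f⟩ : BrauerPairIdx G) = a := by
  subst h
  exact ⟨a.2, rfl⟩

theorem centralizer_singleton_eq (x : G) :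
    Subgroup.centralizer ({x} : Set G) =
      Subgroup.centralizer ((Subgroup.zpowers x : Subgroup G) : Set G) := by
  apply le_antisymm
  · intro g hg
    rw [Subgroup.mem_centralizer_iff]
    rintro z ⟨k, rfl⟩
    have h1 : x * g = g * x := Subgroup.mem_centralizer_iff.mp hg x rfl
    have h2 : Commute x g := h1
    exact (h2.zpow_left k).eq
  · exact Subgroup.centralizer_le (by
      intro y hy
      rw [Set.mem_singleton_iff] at hy
      rw [hy]
      exact Subgroup.mem_zpowers x)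

theorem mem_zpowers_involution {y u : G} (hy : y * y = 1) (hu : u ∈ Subgroup.zpowers y) :
    u = 1 ∨ u = y := by
  obtain ⟨k, rfl⟩ := Subgroup.mem_zpowers_iff.mp hu
  have h2 : y ^ (2 : ℤ) = 1 := by rw [zpow_two]; exact hy
  rcases Int.even_or_odd' k with ⟨m, rfl | rfl⟩
  · left
    rw [zpow_mul, h2, one_zpow]
  · right
    rw [zpow_add, zpow_mul, h2, one_zpow, one_mul, zpow_one]

/-- A counting lemma: an injective relation into a finite set bounds the cardinality by a sum of
positive weights. -/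
theorem count_le_finsum {α β : Type*} [Finite β] (s : Finset α) (t : Set β)
    (R : α → β → Prop) (hex : ∀ a ∈ s, ∃ b ∈ t, R a b)
    (hinj : ∀ a ∈ s, ∀ a' ∈ s, ∀ b, R a b → R a' b → a = a')
    (l : β → ℕ) (hl : ∀ b ∈ t, 1 ≤ l b) : s.card ≤ ∑ᶠ b ∈ t, l b := by
  classical
  have hfin : t.Finite := Set.toFinite t
  rw [finsum_mem_eq_finite_toFinset_sum _ hfin]
  choose φ hφ using hex
  have h1 : s.attach.card ≤ hfin.toFinset.card :=
    Finset.card_le_card_of_injOn (fun a => φ a.1 a.2)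
      (fun a _ => hfin.mem_toFinset.mpr (hφ a.1 a.2).1)
      (by
        intro a _ a' _ h
        have h' : φ a.1 a.2 = φ a'.1 a'.2 := h
        exact Subtype.ext (hinj a.1 a.2 a'.1 a'.2 _ (hφ a.1 a.2).2
          (by rw [h']; exact (hφ a'.1 a'.2).2)))
  calc s.card = s.attach.card := Finset.card_attach.symm
    _ ≤ hfin.toFinset.card := h1
    _ = ∑ b ∈ hfin.toFinset, 1 := by simp
    _ ≤ ∑ b ∈ hfin.toFinset, l b :=
        Finset.sum_le_sum (fun b hb => hl b (hfin.mem_toFinset.mp hb))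

end Elt

section Pair

variable {G : Type*} [Group G] [Fintype G] {p : ℕ} {M : Ideal AlgInt}

/-- The conjugate of a `B`-pair on `⟨y⟩`, as a `B`-pair on `⟨g y g⁻¹⟩`. -/
theorem exists_conj_pair (B : Set (IrrCharacter G)) (y g x : G) (hx : g * y * g⁻¹ = x)
    (f : Set (IrrCharacter (Subgroup.centralizer ((Subgroup.zpowers y : Subgroup G) : Set G))))
    (hf : IsBrauerPairOf p M B (Subgroup.zpowers y) f) :
    ∃ f' : Set (IrrCharacter (Subgroup.centralizer ((Subgroup.zpowers x : Subgroup G) : Set G))),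
      IsBrauerPairOf p M B (Subgroup.zpowers x) f' ∧
        (⟨Subgroup.zpowers x, f'⟩ : BrauerPairIdx G) = conjPair g ⟨Subgroup.zpowers y, f⟩ := by
  have h1 : (conjPair g (⟨Subgroup.zpowers y, f⟩ : BrauerPairIdx G)).1 = Subgroup.zpowers x := by
    rw [conjPair_fst, zpowers_conj, hx]
  obtain ⟨f', hf'⟩ := exists_snd _ _ h1
  refine ⟨f', ?_, hf'⟩
  have h3 : IsBrauerPairOf p M B (conjPair g (⟨Subgroup.zpowers y, f⟩ : BrauerPairIdx G)).1
      (conjPair g (⟨Subgroup.zpowers y, f⟩ : BrauerPairIdx G)).2 :=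
    brauerPairOf_conj B _ f hf g
  rw [← hf'] at h3
  exact h3

/-- Fusion of involutions of an abelian defect group is controlled by the stabilizer of the
maximal pair. -/
theorem involution_fusion (hM : IsPModular p M) [Fact p.Prime]
    (B : Set (IrrCharacter G)) (P : Subgroup G)
    (c : Set (IrrCharacter (Subgroup.centralizer (P : Set G))))
    (hmax : IsMaximalBrauerPair p M B P c) (hab : ∀ x ∈ P, ∀ y ∈ P, x * y = y * x)
    (y y' : G)
    (f : Set (IrrCharacter (Subgroup.centralizer ((Subgroup.zpowers y : Subgroup G) : Set G))))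
    (hle : SubpairLE p M (Subgroup.zpowers y) f P c)
    (f' : Set (IrrCharacter (Subgroup.centralizer ((Subgroup.zpowers y' : Subgroup G) : Set G))))
    (hf' : IsPBlock M f') (hle' : SubpairLE p M (Subgroup.zpowers y') f' P c)
    (g g' x : G) (hg : g * y * g⁻¹ = x) (hg' : g' * y' * g'⁻¹ = x)
    (h : conjPair g (⟨Subgroup.zpowers y, f⟩ : BrauerPairIdx G) =
      conjPair g' ⟨Subgroup.zpowers y', f'⟩) :
    ∃ t : G, conjPair t (⟨P, c⟩ : BrauerPairIdx G) = ⟨P, c⟩ ∧ t * y * t⁻¹ = y' := by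
  have h1 : conjPair (g'⁻¹ * g) (⟨Subgroup.zpowers y, f⟩ : BrauerPairIdx G) =
      ⟨Subgroup.zpowers y', f'⟩ := by
    rw [← conjPair_mul, h, conjPair_inv_conjPair]
  obtain ⟨t, ht, c₀, hc₀, hx⟩ :=
    fusion_of_abelian hM B P c hmax hab _ f hle _ f' hf' hle' (g'⁻¹ * g) h1
  refine ⟨t, ht, ?_⟩
  have h2 : y' * c₀ = c₀ * y' :=
    Subgroup.mem_centralizer_iff.mp hc₀ y' (Subgroup.mem_zpowers y')
  have ht' : t = c₀⁻¹ * (g'⁻¹ * g) := by rw [hx]; group
  rw [ht']
  calc c₀⁻¹ * (g'⁻¹ * g) * y * (c₀⁻¹ * (g'⁻¹ * g))⁻¹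
      = c₀⁻¹ * (g'⁻¹ * (g * y * g⁻¹) * g') * c₀ := by group
    _ = c₀⁻¹ * (g'⁻¹ * (g' * y' * g'⁻¹) * g') * c₀ := by rw [hg, hg']
    _ = c₀⁻¹ * (y' * c₀) := by group
    _ = y' := by rw [h2]; group

/-- Every `B`-pair on a cyclic subgroup is conjugate into the maximal pair, and then can be moved
by the stabilizer of the maximal pair. -/
theorem conj_to_base (hM : IsPModular p M) [Fact p.Prime]
    (B : Set (IrrCharacter G)) (P : Subgroup G)
    (c : Set (IrrCharacter (Subgroup.centralizer (P : Set G))))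
    (hmax : IsMaximalBrauerPair p M B P c) (x : G)
    (f' : Set (IrrCharacter (Subgroup.centralizer ((Subgroup.zpowers x : Subgroup G) : Set G))))
    (hf' : IsBrauerPairOf p M B (Subgroup.zpowers x) f') :
    ∃ g : G, g * x * g⁻¹ ∈ P ∧ ∀ (t : G), conjPair t (⟨P, c⟩ : BrauerPairIdx G) = ⟨P, c⟩ →
      ∀ (y₁ : G), t * (g * x * g⁻¹) * t⁻¹ = y₁ →
      ∀ (f₁ : Set (IrrCharacter
        (Subgroup.centralizer ((Subgroup.zpowers y₁ : Subgroup G) : Set G)))),
      SubpairLE p M (Subgroup.zpowers y₁) f₁ P c →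
      conjPair (t * g) (⟨Subgroup.zpowers x, f'⟩ : BrauerPairIdx G) =
        ⟨Subgroup.zpowers y₁, f₁⟩ := by
  obtain ⟨g, hg⟩ := exists_conj_subpairLE_maximal hM B P (Subgroup.zpowers x) c f' hmax hf'
  have hg' : Relation.ReflTransGen (NormalSubpairRel p M)
      (conjPair g (⟨Subgroup.zpowers x, f'⟩ : BrauerPairIdx G)) ⟨P, c⟩ := hg
  refine ⟨g, ?_, ?_⟩
  · have h1 : (Subgroup.zpowers x).map (MulAut.conj g).toMonoidHom ≤ P := reflTransGen_le _ _ hg'
    exact h1 ⟨x, Subgroup.mem_zpowers x, rfl⟩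
  · intro t ht y₁ hy₁ f₁ hle₁
    have h1 := reflTransGen_conjPair (p := p) (M := M) t _ _ hg'
    rw [ht, conjPair_mul] at h1
    refine eq_of_le_of_fst_eq hM _ _ ⟨P, c⟩ hmax.1.1 h1 hle₁ ?_
    show (Subgroup.zpowers x).map (MulAut.conj (t * g)).toMonoidHom = Subgroup.zpowers y₁
    rw [zpowers_conj, ← hy₁]
    congr 1
    group

/-- Conjugation by an element of `C_G(Q)` fixes every pair on `Q`. -/
theorem eq_of_centralizes (Q : Subgroup G)
    (f f₁ : Set (IrrCharacter (Subgroup.centralizer (Q : Set G)))) (h : G)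
    (hh : h ∈ Subgroup.centralizer (Q : Set G))
    (heq : conjPair h (⟨Q, f⟩ : BrauerPairIdx G) = ⟨Q, f₁⟩) : f = f₁ := by
  have h1 : conjPair h (⟨Q, f⟩ : BrauerPairIdx G) = ⟨Q, f⟩ :=
    (conjPair_eq_self_iff Q f h).mpr
      ⟨Subgroup.centralizer_le_normalizer _ hh, stabilizesBlock_of_mem _ f hh⟩
  rw [h1] at heq
  exact eq_of_heq (Sigma.mk.inj_iff.mp heq).2

end Pair

section Rank

variable {G : Type*} [Group G] [Fintype G] {M : Ideal AlgInt}

/-- The block of `C_G(y)` below a maximal pair with Klein four (or any abelian order four)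
subgroup, for an involution `y`, has rank one. -/
theorem rank_one_below (hM : IsPModular 2 M) (B : Set (IrrCharacter G)) (P : Subgroup G)
    (c : Set (IrrCharacter (Subgroup.centralizer (P : Set G))))
    (hmax : IsMaximalBrauerPair 2 M B P c) (hab : ∀ x ∈ P, ∀ y ∈ P, x * y = y * x)
    (hcard : Nat.card P = 4) (y : G) (hyP : y ∈ P) (hy1 : y ≠ 1) (hy2 : y * y = 1)
    (f : Set (IrrCharacter (Subgroup.centralizer ((Subgroup.zpowers y : Subgroup G) : Set G))))
    (hf : IsPBlock M f) (hle : SubpairLE 2 M (Subgroup.zpowers y) f P c) :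
    blockRank 2 f = 1 := by
  classical
  haveI : Fact (Nat.Prime 2) := ⟨Nat.prime_two⟩
  letI : Fintype (Subgroup.centralizer ((Subgroup.zpowers y : Subgroup G) : Set G)) :=
    Fintype.ofFinite _
  have hB : IsPBlock M B := hmax.1.2.1
  have hPD : IsDefectGroup 2 M B P := isDefectGroup_of_maximal hM B P c hmax
  have hdB : blockDefect 2 B = 2 := by
    have h1 := Cfsg.Agent.Lib.Helper82.card_defectGroup hM B hB P hPD
    rw [hcard] at h1
    have h2 : (2 : ℕ) ^ 2 = 2 ^ blockDefect 2 B := by rw [← h1]; norm_num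
    exact (Nat.pow_right_injective (le_refl 2) h2).symm
  have hQP : Subgroup.zpowers y ≤ P := Subgroup.zpowers_le.mpr hyP
  have hQ : IsPGroup 2 (Subgroup.zpowers y) := hmax.1.1.1.to_le hQP
  have hpair : IsBrauerPairOf 2 M B (Subgroup.zpowers y) f :=
    (brauerPairOf_iff_of_subpairLE hM _ P f c hle B hB).mp hmax.1
  have hind := (isBrauerPairOf_iff_isInducedBlock hM _ hQ f B).mp hpair
  have hle2 : blockDefect 2 f ≤ 2 :=
    le_trans (Cfsg.Agent.Lib.Helper82.blockDefect_le_of_induced hM _ f B hind) (le_of_eq hdB)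
  have hge2 : 2 ≤ blockDefect 2 f := by
    obtain ⟨D, hD, hDle⟩ := exists_defectGroup_ge_cent hM P _ c f hmax.1.1 hf hle
    have h1 := Cfsg.Agent.Lib.Helper82.card_defectGroup hM f hf D hD
    have hPC : P ≤ Subgroup.centralizer ((Subgroup.zpowers y : Subgroup G) : Set G) :=
      fun u hu => Subgroup.mem_centralizer_iff.mpr (fun q hq => hab q (hQP hq) u hu)
    have h2 : Nat.card ((P ⊓ Subgroup.centralizer
        ((Subgroup.zpowers y : Subgroup G) : Set G)).subgroupOf
        (Subgroup.centralizer ((Subgroup.zpowers y : Subgroup G) : Set G))) = 4 := by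
      rw [card_subgroupOf_of_le inf_le_right, inf_eq_left.mpr hPC, hcard]
    have h3 := Subgroup.card_le_of_le hDle
    rw [h2, h1] at h3
    by_contra hcon
    have h4 : blockDefect 2 f ≤ 1 := by omega
    have h5 : 2 ^ blockDefect 2 f ≤ 2 ^ 1 := Nat.pow_le_pow_right (by norm_num) h4
    omega
  have hd : blockDefect 2 f = 2 := le_antisymm hle2 hge2
  have hyC : y ∈ Subgroup.centralizer ((Subgroup.zpowers y : Subgroup G) : Set G) := by
    rw [Subgroup.mem_centralizer_iff]
    rintro _ ⟨k, rfl⟩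
    exact ((Commute.refl y).zpow_left k).eq
  refine rank_one_of_central_involution hM f hf hd ⟨y, hyC⟩ ?_ ?_ ?_
  · rw [Subgroup.mem_center_iff]
    intro k
    apply Subtype.ext
    show (k : G) * y = y * (k : G)
    exact (Subgroup.mem_centralizer_iff.mp k.2 y (Subgroup.mem_zpowers y)).symm
  · intro h
    exact hy1 (congrArg Subtype.val h)
  · exact Subtype.ext hy2

end Rank

end Cfsg.Agent.Lib.Helper33.Klein
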