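import Mathlib
import Cfsg.Agent.Lib.Helper33.BFOne
import Cfsg.Agent.Lib.Helper43.BFLat
import Cfsg.Agent.Lib.Helper4.BFOrth
import Cfsg.Agent.Lib.Helper4.BFSub
import Cfsg.Agent.Lib.Helper81.BFTr
import Cfsg.Agent.Lib.Helper33.KleinPair
import Cfsg.Agent.Lib.Helper57.BFFourier
import Cfsg.Agent.Lib.Helper81.BrSubgrp
import Cfsg.Agent.S0923

/-!
# Blocks of defect one have a doubly spanning family of columns (helper33)
-/

set_option autoImplicit false
set_option linter.style.haveILetI false
set_option maxHeartbeats 3200000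

namespace Cfsg.Agent.Lib.Helper33.BF

open Cfsg Cfsg.Agent.Lib.Helper80.GenDec Cfsg.Agent.Lib.Helper80.Contrib
open Cfsg.Agent.Lib.Helper4 Cfsg.Agent.Lib.Helper21 Cfsg.Agent.Lib.Helper22
open Cfsg.Agent.Lib.Helper80.K2 Cfsg.Agent.Lib.Helper80.Major Cfsg.Agent.Lib.Helper81
open scoped ComplexConjugate

section Two

variable {G : Type*} [Group G] [Fintype G] {p : ℕ} [Fact p.Prime] {M : Ideal AlgInt}

omit [Fintype G] [Fact p.Prime] in
/-- Block parts only depend on the subgroup, not on its presentation. -/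
theorem blockPart_cast [Finite G] (M : Ideal AlgInt) (H H' : Subgroup G) (h : H = H')
    (b : Set (IrrCharacter H)) :
    ∃ b' : Set (IrrCharacter H'),
      (∀ B : Set (IrrCharacter G), IsInducedBlock M H b B ↔ IsInducedBlock M H' b' B) ∧
      ∀ (F : G → ℂ) (s : H) (s' : H'), (s : G) = (s' : G) →
        blockPart b (fun c : H => F (c : G)) s = blockPart b' (fun c : H' => F (c : G)) s' := by
  subst h
  exact ⟨b, fun _ => Iff.rfl, fun F s s' hs => by rw [Subtype.ext hs]⟩

omit [Fintype G] in
theorem singular_mul_of_commute [Finite G] (x c : G) (hx1 : x ≠ 1)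
    (hx : ∃ k : ℕ, orderOf x = p ^ k) (hc : ¬ p ∣ orderOf c) (hcomm : x * c = c * x) :
    p ∣ orderOf (x * c) := by
  have hp : p.Prime := Fact.out
  by_contra hcon
  set n := orderOf (x * c) with hn
  have hcm : Commute x c := hcomm
  have h1 : x ^ n * c ^ n = 1 := by
    rw [← hcm.mul_pow, hn, pow_orderOf_eq_one]
  have h2 : x ^ (n * orderOf c) = 1 := by
    have h3 : x ^ n = (c ^ n)⁻¹ := eq_inv_of_mul_eq_one_left h1
    rw [pow_mul, h3, inv_pow, ← pow_mul, mul_comm, pow_mul, pow_orderOf_eq_one, one_pow, inv_one]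
  have h4 : orderOf x ∣ n * orderOf c := orderOf_dvd_of_pow_eq_one h2
  obtain ⟨j, hj⟩ := hx
  have hj0 : j ≠ 0 := by
    intro h0
    rw [h0, pow_zero, orderOf_eq_one_iff] at hj
    exact hx1 hj
  have h5 : p ∣ n * orderOf c := dvd_trans (hj ▸ dvd_pow_self p hj0) h4
  rcases (Nat.Prime.dvd_mul hp).mp h5 with h6 | h6
  · exact hcon h6
  · exact hc h6

open scoped Classical in
/-- **Blocks of defect one** have a doubly spanning family of total norm at most `2 p`. -/
theorem hasFamily_of_defect_one [Fintype (IrrCharacter G)] (hM : IsPModular p M)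
    (β : Set (IrrCharacter G)) (hβ : IsPBlock M β) (hβ1 : blockDefect p β = 1) :
    HasFamily p β (p ^ 1) := by
  have hp : p.Prime := Fact.out
  haveI : NeZero p := ⟨hp.ne_zero⟩
  -- a maximal pair and a generator of its subgroup
  obtain ⟨P, c, hmax⟩ := exists_maximalBrauerPair hM β hβ
  have hDP := isDefectGroup_of_maximal hM β P c hmax
  have hPcard : Nat.card P = p := by
    rw [Cfsg.Agent.Lib.Helper82.card_defectGroup hM β hβ P hDP, hβ1, pow_one]
  have hPp : IsPGroup p P := hmax.1.1.1
  have hpair : IsBrauerPairOf p M β P c := hmax.1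
  obtain ⟨u, huP, hu1⟩ : ∃ u ∈ P, u ≠ 1 := by
    by_contra hcon
    push Not at hcon
    have h1 : P = ⊥ := (Subgroup.eq_bot_iff_forall P).mpr hcon
    rw [h1, Subgroup.card_bot] at hPcard
    exact hp.one_lt.ne' hPcard.symm
  have hou : orderOf u = p := by
    have h1 : orderOf u ∣ p := by
      have h2 := Subgroup.orderOf_dvd_natCard P huP
      rwa [hPcard] at h2
    rcases (Nat.dvd_prime hp).mp h1 with h | h
    · exact absurd (orderOf_eq_one_iff.mp h) hu1
    · exact h
  have hPu : P = Subgroup.zpowers u := by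
    symm
    apply Subgroup.eq_of_le_of_card_ge (Subgroup.zpowers_le.mpr huP)
    rw [Nat.card_zpowers, hou, hPcard]
  have hgen : ∀ t : ZMod p, t ≠ 0 → Subgroup.zpowers (u ^ t.val) = P := by
    intro t ht
    apply Subgroup.eq_of_le_of_card_ge (Subgroup.zpowers_le.mpr (Subgroup.pow_mem _ huP _))
    have htv : t.val ≠ 0 := fun h => ht ((ZMod.val_eq_zero t).mp h)
    have hcop : (orderOf u).Coprime t.val := by
      rw [hou]
      refine (Nat.Prime.coprime_iff_not_dvd hp).mpr fun h => htv ?_
      exact Nat.eq_zero_of_dvd_of_lt h (ZMod.val_lt t)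
    rw [Nat.card_zpowers, hcop.orderOf_pow, hou, hPcard]
  -- the subsection
  letI : Fintype (Subgroup.centralizer (P : Set G)) := Fintype.ofFinite _
  haveI := irr_finite (G := Subgroup.centralizer (P : Set G))
  letI := Fintype.ofFinite (IrrCharacter (Subgroup.centralizer (P : Set G)))
  have hind : IsInducedBlock M (Subgroup.centralizer (P : Set G)) c β :=
    (isBrauerPairOf_iff_isInducedBlock hM P hPp c β).mp hpair
  have hc : IsPBlock M c := hind.1
  have huH : u ∈ Subgroup.centralizer (P : Set G) := by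
    rw [Subgroup.mem_centralizer_iff]
    intro g hg
    rw [hPu] at hg
    obtain ⟨i, rfl⟩ := Subgroup.mem_zpowers_iff.mp hg
    exact ((Commute.refl u).zpow_left i).eq
  obtain ⟨z, hzdef⟩ : ∃ z : Subgroup.centralizer (P : Set G), (z : G) = u := ⟨⟨u, huH⟩, rfl⟩
  have hz : z ∈ Subgroup.center (Subgroup.centralizer (P : Set G)) := by
    rw [Subgroup.mem_center_iff]
    intro g
    apply Subtype.ext
    rw [Subgroup.coe_mul, Subgroup.coe_mul, hzdef]
    exact (Subgroup.mem_centralizer_iff.mp g.2 u huP).symm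
  have hn : orderOf (z : G) = p := by rw [hzdef]; exact hou
  have hCH : Subgroup.centralizer ({(z : G)} : Set G) ≤ Subgroup.centralizer (P : Set G) := by
    rw [hzdef, hPu]
    exact (Klein.centralizer_singleton_eq u).le
  obtain ⟨ζ, hζ⟩ : ∃ ζ : ℂ, IsPrimitiveRoot ζ p :=
    ⟨_, Complex.isPrimitiveRoot_exp p hp.ne_zero⟩
  obtain ⟨ξ₀, v, hsupp, hnorm, hKD⟩ := exists_gendec _ hM z hz hn hCH c β hind hβ1 ζ hζ
  obtain ⟨Dv, hDv⟩ : ∃ Dv : ZMod p → IrrCharacter G → ℂ,
      ∀ t θ, Dv t θ = ∑ a : ZMod p, (v a θ : ℂ) * ζ ^ (a * t).val := ⟨_, fun _ _ => rfl⟩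
  have hN0 : ξ₀.1 1 ≠ 0 := irr_one_ne_zero ξ₀
  have h1reg : ¬ p ∣ orderOf (1 : Subgroup.centralizer (P : Set G)) := by
    rw [orderOf_one]; exact hp.not_dvd_one
  have hKD' : ∀ (t : ZMod p) (θ : IrrCharacter G), θ ∈ β →
      ∀ s : Subgroup.centralizer (P : Set G), ¬ p ∣ orderOf s →
        blockPart c (fun x : Subgroup.centralizer (P : Set G) => θ.1 (u ^ t.val * (x : G))) s =
          Dv t θ * ξ₀.1 s := by
    intro t θ hθ s hs
    rw [hDv, ← hKD t θ hθ s hs, X_def, Subgroup.coe_pow, hzdef]
  have hDsupp : ∀ t θ, θ ∉ β → Dv t θ = 0 := by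
    intro t θ hθ
    rw [hDv]
    refine Finset.sum_eq_zero fun a _ => ?_
    rw [hsupp a θ hθ, Int.cast_zero, zero_mul]
  have hpow : ∀ t : ZMod p, t ≠ 0 → (∃ k : ℕ, orderOf (u ^ t.val) = p ^ k) ∧
      u ^ t.val ∈ Subgroup.centralizer (P : Set G) ∧
      (∀ h ∈ Subgroup.centralizer (P : Set G), h * u ^ t.val = u ^ t.val * h) ∧
      Subgroup.centralizer ({u ^ t.val} : Set G) ≤ Subgroup.centralizer (P : Set G) ∧
      u ^ t.val ≠ 1 := by
    intro t ht
    obtain ⟨-, hne1, hut, hcentt, hCHt⟩ := pow_val_hyps _ z hz hn hCH t ht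
    rw [Subgroup.coe_pow, hzdef] at hut hcentt hCHt
    refine ⟨hut, Subgroup.pow_mem _ huH _, hcentt, hCHt, ?_⟩
    intro h1
    apply hne1
    apply Subtype.ext
    rw [Subgroup.coe_pow, hzdef, h1]
    rfl
  have H3 : ∀ t : ZMod p, t ≠ 0 → ∑ θ : IrrCharacter G, Dv t θ * conj (Dv t θ) = (p : ℂ) := by
    intro t ht
    have h2 := gendec_norm _ hM z hz hn hCH c β hind ζ ξ₀ v hsupp hnorm hKD t ht
    rw [← h2]
    refine Finset.sum_congr rfl fun θ _ => ?_
    rw [hDv]
  have H4 : ∀ θ ∈ β, Dv 1 θ ≠ 0 := by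
    intro θ hθ
    rw [hDv]
    exact gendec_ne_zero _ hM z hz hn c β hind hβ1 ζ ξ₀ v hKD θ hθ
  -- the dichotomy
  have hfinal : ∀ (t t' : ZMod p), (∑ θ : IrrCharacter G, (if θ ∈ β then
      conj (Dv t θ * ξ₀.1 1) * (Dv t' θ * ξ₀.1 1) else 0) = 0) →
      ∑ θ : IrrCharacter G, Dv t θ * conj (Dv t' θ) = 0 := by
    intro t t' h
    have h2 : ∑ θ : IrrCharacter G, conj (Dv t θ) * Dv t' θ = 0 := by
      have hN : conj (ξ₀.1 1) * ξ₀.1 1 ≠ 0 := mul_ne_zero ((map_ne_zero _).mpr hN0) hN0
      apply mul_right_cancel₀ hN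
      rw [zero_mul, ← h, Finset.sum_mul]
      refine Finset.sum_congr rfl fun θ _ => ?_
      by_cases hθ : θ ∈ β
      · rw [if_pos hθ, map_mul]; ring
      · rw [if_neg hθ, hDsupp t θ hθ, map_zero, zero_mul, zero_mul]
    have h3 := congrArg conj h2
    rw [map_sum, map_zero] at h3
    rw [← h3]
    refine Finset.sum_congr rfl fun θ _ => ?_
    rw [map_mul, Complex.conj_conj]
  have H2 : ∀ t t' : ZMod p, t ≠ 0 → t' ≠ 0 →
      Dv t = Dv t' ∨ ∑ θ : IrrCharacter G, Dv t θ * conj (Dv t' θ) = 0 := by
    intro t t' ht ht'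
    obtain ⟨hut, hxH, hcentt, hCHt, -⟩ := hpow t ht
    obtain ⟨hut', hxH', hcentt', hCHt', -⟩ := hpow t' ht'
    by_cases hconj : ∃ g : G, g * u ^ t'.val * g⁻¹ = u ^ t.val
    · obtain ⟨g, hg⟩ := hconj
      have hmap : P.map (MulAut.conj g).toMonoidHom = P := by
        rw [← hgen t' ht', Klein.zpowers_conj, hg, hgen t' ht', hgen t ht]
      obtain ⟨c'', hc''⟩ := Klein.exists_snd (conjPair g ⟨P, c⟩) P hmap
      have hpair'' : IsBrauerPairOf p M β P c'' := by
        have h1 := brauerPairOf_conj β P c hpair g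
        have h2 : IsBrauerPairOf p M β (conjPair g ⟨P, c⟩).1 (conjPair g ⟨P, c⟩).2 := h1
        rw [← hc''] at h2
        exact h2
      have hc''b : IsPBlock M c'' := hpair''.1.2
      have htr : ∀ θ : IrrCharacter G,
          blockPart c'' (fun x : Subgroup.centralizer (P : Set G) => θ.1 (u ^ t.val * (x : G))) 1 =
          blockPart c (fun x : Subgroup.centralizer (P : Set G) => θ.1 (u ^ t'.val * (x : G))) 1 := by
        intro θ
        have h3 := Cfsg.Agent.Lib.BF.blockPart_conjPair g ⟨P, c⟩ ⟨P, c''⟩ hc''.symm θ.1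
          (isClassFunction_irr θ) (u ^ t'.val) 1 1 (by simp)
        rw [hg] at h3
        exact h3
      by_cases hcc : c'' = c
      · left
        funext θ
        by_cases hθ : θ ∈ β
        · have h4 := htr θ
          rw [hcc, hKD' t θ hθ 1 h1reg, hKD' t' θ hθ 1 h1reg] at h4
          exact mul_right_cancel₀ hN0 h4
        · rw [hDsupp t θ hθ, hDsupp t' θ hθ]
      · right
        have h5 := Cfsg.Agent.Lib.BF.cross_orth hM (Subgroup.centralizer (P : Set G)) (u ^ t.val)
          (u ^ t.val) hut hxH hcentt hCHt hut hcentt c c'' hc''b β hind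
          (Or.inr ⟨rfl, fun h => hcc h.symm⟩) 1 1 h1reg h1reg
        apply hfinal
        refine Eq.trans (Finset.sum_congr rfl fun θ _ => ?_) h5
        by_cases hθ : θ ∈ β
        · rw [if_pos hθ, if_pos hθ, htr θ, hKD' t θ hθ 1 h1reg, hKD' t' θ hθ 1 h1reg]
        · rw [if_neg hθ, if_neg hθ]
    · right
      push Not at hconj
      have h5 := Cfsg.Agent.Lib.BF.cross_orth hM (Subgroup.centralizer (P : Set G)) (u ^ t.val)
        (u ^ t'.val) hut hxH hcentt hCHt hut' hcentt' c c hc β hind (Or.inl hconj) 1 1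
        h1reg h1reg
      apply hfinal
      refine Eq.trans (Finset.sum_congr rfl fun θ _ => ?_) h5
      by_cases hθ : θ ∈ β
      · rw [if_pos hθ, if_pos hθ, hKD' t θ hθ 1 h1reg, hKD' t' θ hθ 1 h1reg]
      · rw [if_neg hθ, if_neg hθ]
  -- vectors orthogonal to the `D_t` vanish on `p`-singular elements
  have hspan : ∀ y : IrrCharacter G → ℂ, (∀ θ, θ ∉ β → y θ = 0) →
      (∀ t : ZMod p, t ≠ 0 → ∑ θ : IrrCharacter G, y θ * Dv t θ = 0) →
      ∀ k : G, p ∣ orderOf k → ∑ θ : IrrCharacter G, y θ * θ.1 k = 0 := by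
    intro y hy hyD
    obtain ⟨vf, hvf⟩ : ∃ vf : G → ℂ, ∀ k, vf k =
        if p ∣ orderOf k then ∑ θ : IrrCharacter G, y θ * θ.1 k else 0 := ⟨_, fun _ => rfl⟩
    have hcf : IsClassFunction G vf := by
      intro g h
      rw [hvf, hvf]
      have ho : orderOf (h * g * h⁻¹) = orderOf g := by
        have := (MulAut.conj h).orderOf_eq g
        rwa [MulAut.conj_apply] at this
      rw [ho]
      by_cases hk : p ∣ orderOf g
      · rw [if_pos hk, if_pos hk]
        refine Finset.sum_congr rfl fun θ _ => ?_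
        rw [isClassFunction_irr θ g h]
      · rw [if_neg hk, if_neg hk]
    have hXall : ∀ g : G, (∃ k : ℕ, orderOf g = p ^ k) →
        ∃ x ∈ (Finset.univ.filter (fun x : G => ∃ k : ℕ, orderOf x = p ^ k)), IsConj g x :=
      fun g hg => ⟨g, Finset.mem_filter.mpr ⟨Finset.mem_univ _, hg⟩, IsConj.refl g⟩
    have hv0 : vf = 0 := by
      refine eq_zero_of_parts hM (Finset.univ.filter (fun x : G => ∃ k : ℕ, orderOf x = p ^ k))
        hXall hcf ?_
      intro x hx b hb
      have hxp : ∃ k : ℕ, orderOf x = p ^ k := (Finset.mem_filter.mp hx).2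
      funext s
      by_cases hs : p ∣ orderOf s
      · rw [pRegularPart_of_sing _ hs]; rfl
      · rw [pRegularPart_of_reg _ hs]
        show blockPart b (shiftL x vf) s = 0
        by_cases hx1 : x = 1
        · refine blockPart_eq_zero_of_reg hM hb ?_ hs
          intro c' hc'
          have e0 : x * (c' : G) = (c' : G) :=
            (congrArg (fun a : G => a * (c' : G)) hx1).trans (one_mul _)
          rw [shiftL_apply, hvf, e0, if_neg]
          rw [Subgroup.orderOf_coe]
          exact hc'
        · have hdiff : ∀ c' : Subgroup.centralizer ({x} : Set G), ¬ p ∣ orderOf c' →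
              (shiftL x vf - ∑ θ : IrrCharacter G, y θ •
                (fun k : Subgroup.centralizer ({x} : Set G) => θ.1 (x * (k : G)))) c' = 0 := by
            intro c' hc'
            rw [Pi.sub_apply, Finset.sum_apply, shiftL_apply, hvf, if_pos, sub_eq_zero]
            · refine Finset.sum_congr rfl fun θ _ => ?_
              rw [Pi.smul_apply, smul_eq_mul]
            · have hcomm : x * (c' : G) = (c' : G) * x :=
                (Subgroup.mem_centralizer_iff.mp c'.2 x rfl)
              exact singular_mul_of_commute x (c' : G) hx1 hxp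
                (by rw [Subgroup.orderOf_coe]; exact hc') hcomm
          have h0 := blockPart_eq_zero_of_reg hM hb hdiff hs
          rw [← bpL_apply, map_sub, map_sum, Pi.sub_apply, Finset.sum_apply, sub_eq_zero,
            bpL_apply] at h0
          rw [h0]
          have e1 : ∀ θ : IrrCharacter G, bpL b (y θ •
              (fun k : Subgroup.centralizer ({x} : Set G) => θ.1 (x * (k : G)))) s =
              y θ * blockPart b
                (fun k : Subgroup.centralizer ({x} : Set G) => θ.1 (x * (k : G))) s := by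
            intro θ
            rw [map_smul, Pi.smul_apply, smul_eq_mul, bpL_apply]
          rw [Finset.sum_congr rfl (fun θ _ => e1 θ)]
          by_cases hindb : IsInducedBlock M (Subgroup.centralizer ({x} : Set G)) b β
          · -- transport to the maximal pair
            have heqC := Klein.centralizer_singleton_eq x
            obtain ⟨b', hb'ind, hb'part⟩ := blockPart_cast M _ _ heqC b
            have hb'i := (hb'ind β).mp hindb
            have hQp : IsPGroup p (Subgroup.zpowers x) := by
              obtain ⟨k, hk⟩ := hxp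
              exact IsPGroup.of_card (n := k) (by rw [Nat.card_zpowers, hk])
            have hpairQ : IsBrauerPairOf p M β (Subgroup.zpowers x) b' :=
              (isBrauerPairOf_iff_isInducedBlock hM _ hQp b' β).mpr hb'i
            obtain ⟨g, hg⟩ := exists_conj_subpairLE_maximal hM β P (Subgroup.zpowers x) c b'
              hmax hpairQ
            have hle : (Subgroup.zpowers x).map (MulAut.conj g).toMonoidHom ≤ P :=
              reflTransGen_le _ _ hg
            have hgxP : g * x * g⁻¹ ∈ P := by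
              apply hle
              rw [Klein.zpowers_conj]
              exact Subgroup.mem_zpowers _
            have hgx1 : g * x * g⁻¹ ≠ 1 := fun h => hx1 (conj_eq_one_iff.mp h)
            have hQP : (Subgroup.zpowers x).map (MulAut.conj g).toMonoidHom = P := by
              apply Subgroup.eq_of_le_of_card_ge hle
              rw [Klein.zpowers_conj, hPcard, Nat.card_zpowers]
              have h1 : orderOf (g * x * g⁻¹) ∣ p := by
                have h2 := Subgroup.orderOf_dvd_natCard P hgxP
                rwa [hPcard] at h2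
              rcases (Nat.dvd_prime hp).mp h1 with h | h
              · exact absurd (orderOf_eq_one_iff.mp h) hgx1
              · exact h.ge
            have heq : conjPair g ⟨Subgroup.zpowers x, b'⟩ = ⟨P, c⟩ :=
              reflTransGen_eq_of_fst_eq hM _ _ hg hQP
            obtain ⟨t, ht0, htx⟩ : ∃ t : ZMod p, t ≠ 0 ∧ g * x * g⁻¹ = u ^ t.val := by
              have hgxP' := hgxP
              rw [hPu] at hgxP'
              obtain ⟨j, hj⟩ := Subgroup.mem_zpowers_iff.mp hgxP'
              have hval : u ^ (j : ZMod p).val = u ^ j := by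
                rw [← zpow_natCast, ZMod.val_intCast, ← hou, zpow_mod_orderOf]
              refine ⟨(j : ZMod p), ?_, ?_⟩
              · intro h0
                apply hgx1
                rw [← hj, ← hval, h0, ZMod.val_zero, pow_zero]
              · rw [hval, hj]
            obtain ⟨-, -, -, -, -⟩ := hpow t ht0
            obtain ⟨s₁, hs₁⟩ : ∃ s₁ : Subgroup.centralizer ((Subgroup.zpowers x : Subgroup G) : Set G),
                (s₁ : G) = (s : G) := ⟨⟨(s : G), heqC ▸ s.2⟩, rfl⟩
            have hs₁' : g * (s : G) * g⁻¹ ∈ Subgroup.centralizer (P : Set G) := by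
              have h1 : g * (s₁ : G) * g⁻¹ ∈ Subgroup.centralizer
                  (((Subgroup.zpowers x).map (MulAut.conj g).toMonoidHom : Subgroup G) : Set G) :=
                (conjCent (Subgroup.zpowers x) g s₁).2
              rw [hQP] at h1
              rw [← hs₁]
              exact h1
            have hreg' : ¬ p ∣ orderOf (⟨g * (s : G) * g⁻¹, hs₁'⟩ :
                Subgroup.centralizer (P : Set G)) := by
              rw [← Subgroup.orderOf_coe]
              have ho : orderOf (g * (s : G) * g⁻¹) = orderOf (s : G) := by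
                have := (MulAut.conj g).orderOf_eq (s : G)
                rwa [MulAut.conj_apply] at this
              show ¬ p ∣ orderOf (g * (s : G) * g⁻¹)
              rw [ho, Subgroup.orderOf_coe]
              exact hs
            have hsum : ∀ θ : IrrCharacter G, y θ * blockPart b
                (fun k : Subgroup.centralizer ({x} : Set G) => θ.1 (x * (k : G))) s =
                y θ * Dv t θ * ξ₀.1 ⟨g * (s : G) * g⁻¹, hs₁'⟩ := by
              intro θ
              by_cases hθ : θ ∈ β
              · have h6 := Cfsg.Agent.Lib.BF.blockPart_conjPair g ⟨Subgroup.zpowers x, b'⟩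
                  ⟨P, c⟩ heq θ.1 (isClassFunction_irr θ) x s₁ ⟨g * (s : G) * g⁻¹, hs₁'⟩
                  (by rw [hs₁])
                rw [htx] at h6
                have h7 := hb'part (fun k => θ.1 (x * k)) s s₁ hs₁.symm
                rw [h7, ← h6, hKD' t θ hθ _ hreg']
                ring
              · rw [hy θ hθ, zero_mul, zero_mul, zero_mul]
            rw [Finset.sum_congr rfl (fun θ _ => hsum θ), ← Finset.sum_mul, hyD t ht0, zero_mul]
          · refine Finset.sum_eq_zero fun θ _ => ?_
            by_cases hθ : θ ∈ β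
            · rw [Cfsg.Agent.S0923.result p M hM x hxp β hβ θ hθ b hb hindb s hs, mul_zero]
            · rw [hy θ hθ, zero_mul]
    intro k hk
    have h1 := congrFun hv0 k
    rw [hvf, if_pos hk] at h1
    exact h1
  -- the abstract core
  obtain ⟨m, e, Θ, hm, he, hpem, hΘsupp, hgram, hrow, hiff⟩ :=
    Cfsg.Agent.Lib.BF.fourier_core p ζ hζ β v hsupp Dv hDv H2 H3 H4
  obtain ⟨r, Φ, hr, hΦsupp, hΦΘ, hΦnorm, hΦfour⟩ :=
    Cfsg.Agent.Lib.BF.lemmaL β m e p hm he hpem hp Θ hΘsupp hgram hrow
  refine ⟨r, Φ, hr, hΦsupp, ?_, ?_, ?_⟩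
  · intro s k hk
    refine hspan (fun θ => (Φ s θ : ℂ)) (fun θ hθ => by rw [hΦsupp s θ hθ, Int.cast_zero]) ?_ k hk
    apply (hiff _).mp
    intro i
    have h1 := hΦΘ s i
    have h2 : ((∑ θ : IrrCharacter G, Φ s θ * Θ i θ : ℤ) : ℂ) = 0 := by rw [h1]; norm_num
    push_cast at h2
    exact h2
  · rw [pow_one]
    exact hΦnorm
  · intro s₀ f hf hfs hfΦ
    apply hΦfour s₀ f hf ?_ hfΦ
    apply (hiff f).mpr
    intro t ht
    have h1 := gendec_orth_of_sing _ hM z hz hn hCH c β hind ζ ξ₀ v hKD f hf hfs t ht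
    rw [← h1]
    refine Finset.sum_congr rfl fun θ _ => ?_
    rw [hDv]

end Two

end Cfsg.Agent.Lib.Helper33.BF
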