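import Mathlib
import Cfsg.Agent.Lib.Helper33.BFLift
import Cfsg.Agent.Lib.Helper33.BFOne2

/-!
# The Brauer-Feit bounds `k(B) ≤ p^d` (`d ≤ 2`) and `k(B) ≤ p^(2d-2)` (`d ≥ 3`) (helper33)
-/

set_option autoImplicit false
set_option linter.style.haveILetI false
set_option maxHeartbeats 1600000

namespace Cfsg.Agent.Lib.Helper33.BF

open Cfsg Cfsg.Agent.Lib.Helper80.GenDec Cfsg.Agent.Lib.Helper80.Contrib
open Cfsg.Agent.Lib.Helper4 Cfsg.Agent.Lib.Helper21 Cfsg.Agent.Lib.Helper22
open Cfsg.Agent.Lib.Helper80.K2 Cfsg.Agent.Lib.Helper80.Major Cfsg.Agent.Lib.Helper81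
open scoped ComplexConjugate

universe u

/-- **Brauer-Feit**: `k(B) ≤ p^d` for `d ≤ 2` and `k(B) ≤ p^(2d-2)` for `d ≥ 3`. -/
theorem bf_bound (p : ℕ) [Fact p.Prime] (M : Ideal AlgInt) (hM : IsPModular p M) :
    ∀ (d : ℕ) (G : Type u) [Group G] [Finite G] (B : Set (IrrCharacter G)), IsPBlock M B →
      blockDefect p B = d → Nat.card B ≤ (if d ≤ 2 then p ^ d else p ^ (2 * d - 2)) := by
  intro d
  induction d using Nat.strong_induction_on with
  | _ d ih =>
  intro G _ _ B hB hd
  classical
  have hp : p.Prime := Fact.out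
  rcases Nat.eq_zero_or_pos d with h0 | hpos
  · subst h0
    have h1 := ((Cfsg.Agent.S4733.result p M hM B hB).2.1.mp hd).1
    simp [h1]
  letI : Fintype G := Fintype.ofFinite G
  haveI := irr_finite (G := G)
  letI : Fintype (IrrCharacter G) := Fintype.ofFinite _
  obtain ⟨x, hx1, ⟨n, hxn⟩, b, hind⟩ :=
    Cfsg.Agent.Lib.BF.exists_nontrivial_subsection p M hM B hB (by omega)
  letI : Fintype (Subgroup.centralizer ({x} : Set G)) := Fintype.ofFinite _
  haveI := irr_finite (G := Subgroup.centralizer ({x} : Set G))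
  letI : Fintype (IrrCharacter (Subgroup.centralizer ({x} : Set G))) := Fintype.ofFinite _
  have hxH : x ∈ Subgroup.centralizer ({x} : Set G) := by
    rw [Subgroup.mem_centralizer_iff]
    intro g hg
    rw [Set.mem_singleton_iff.mp hg]
  obtain ⟨z, hzdef⟩ : ∃ z : Subgroup.centralizer ({x} : Set G), (z : G) = x := ⟨⟨x, hxH⟩, rfl⟩
  have hz : z ∈ Subgroup.center (Subgroup.centralizer ({x} : Set G)) := by
    rw [Subgroup.mem_center_iff]
    intro g
    apply Subtype.ext
    rw [Subgroup.coe_mul, Subgroup.coe_mul, hzdef]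
    exact (Subgroup.mem_centralizer_iff.mp g.2 x rfl).symm
  have hn : orderOf (z : G) = p ^ n := by rw [hzdef]; exact hxn
  have hCH : Subgroup.centralizer ({(z : G)} : Set G) ≤ Subgroup.centralizer ({x} : Set G) := by
    rw [hzdef]
  have hn1 : 1 ≤ n := by
    by_contra h
    have h2 : n = 0 := by omega
    rw [h2, pow_zero, orderOf_eq_one_iff] at hxn
    exact hx1 hxn
  have hb : IsPBlock M b := hind.1
  obtain ⟨D, hD⟩ : ∃ D : Subgroup (Subgroup.centralizer ({x} : Set G)),
      D = Subgroup.zpowers z := ⟨_, rfl⟩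
  have hDZ : D ≤ Subgroup.center (Subgroup.centralizer ({x} : Set G)) := by
    rw [hD, Subgroup.zpowers_le]; exact hz
  have hDcard : Nat.card D = p ^ n := by
    rw [hD, Nat.card_zpowers, ← hn, Subgroup.orderOf_coe]
  have hDp : IsPGroup p D := IsPGroup.of_card hDcard
  haveI hDn : D.Normal := by
    constructor
    intro m hm g
    have := Subgroup.mem_center_iff.mp (hDZ hm) g
    rw [this, mul_inv_cancel_right]
    exact hm
  letI : Fintype (Subgroup.centralizer ({x} : Set G) ⧸ D) := Fintype.ofFinite _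
  haveI := irr_finite (G := Subgroup.centralizer ({x} : Set G) ⧸ D)
  letI := Fintype.ofFinite (IrrCharacter (Subgroup.centralizer ({x} : Set G) ⧸ D))
  have hC : ∃ k : ℕ, (Subgroup.centralizer (D : Set (Subgroup.centralizer ({x} : Set G)))).index =
      p ^ k :=
    ⟨0, by rw [Subgroup.centralizer_eq_top_iff_subset.mpr hDZ]; simp⟩
  obtain ⟨b', hb'def⟩ : ∃ b' : Set (IrrCharacter (Subgroup.centralizer ({x} : Set G) ⧸ D)),
      b' = {θ | Cfsg.Agent.Lib.Helper83.inflate D θ ∈ b} := ⟨_, rfl⟩
  have hb' : IsPBlock M b' := by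
    rw [hb'def]; exact isPBlock_deflate hM D hDp hC b hb
  have hle1 : blockDefect p b' + n ≤ blockDefect p b := by
    rw [hb'def]; exact blockDefect_deflate_le hM b hb D hDp n hDcard
  have hle2 : blockDefect p b ≤ d := by
    rw [← hd]
    exact Cfsg.Agent.Lib.Helper82.blockDefect_le_of_induced hM _ b B hind
  have hrank : blockRank p b = blockRank p b' := by
    rw [hb'def]; exact (blockRank_deflate hM b hb D hDZ hDp).symm
  have hrk : blockRank p b' ≤ Nat.card b' := (Cfsg.Agent.S4733.result p M hM b' hb').1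
  have hih := ih (blockDefect p b') (by omega) (Subgroup.centralizer ({x} : Set G) ⧸ D) b' hb' rfl
  have hsq := fun hh => card_sq_le _ hM z hz n hn hCH b B hind hh
  have hhts := Cfsg.Agent.S4710.result p M hM B hB d hd
  by_cases hd2 : d ≤ 2
  · rw [if_pos hd2]
    have hh : ∀ χ ∈ B, blockHeight p B χ.1 = 0 := by
      intro χ hχ
      rcases Nat.lt_or_ge d 2 with h | h
      · exact (hhts.2 χ hχ).1 (by omega)
      · have h3 := (hhts.2 χ hχ).2 h
        omega
    have hsq' := hsq hh
    by_cases hb'1 : blockDefect p b' = 0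
    · have hc1 : Nat.card b' = 1 := ((Cfsg.Agent.S4733.result p M hM b' hb').2.1.mp hb'1).1
      have hr1 : blockRank p b ≤ 1 := by rw [hrank]; omega
      have h3 : Nat.card B ^ 2 ≤ (p ^ d) ^ 2 := by
        calc Nat.card B ^ 2 ≤ p ^ (2 * blockDefect p b) * blockRank p b := hsq'
          _ ≤ p ^ (2 * blockDefect p b) * 1 := Nat.mul_le_mul_left _ hr1
          _ ≤ p ^ (2 * d) := by
              rw [mul_one]; exact Nat.pow_le_pow_right hp.pos (by omega)
          _ = (p ^ d) ^ 2 := by rw [← pow_mul, mul_comm]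
      exact (Nat.pow_le_pow_iff_left (by norm_num)).mp h3
    · have hb'd : blockDefect p b' = 1 := by omega
      have hbd : blockDefect p b = 2 := by omega
      have hn1' : n = 1 := by omega
      have hd2' : d = 2 := by omega
      have hfam := hasFamily_of_defect_one hM b' hb' hb'd
      subst hb'def
      have hA := k0_le_of_family _ hM z hz n hn hCH b B hind D hD 1 le_rfl
        (by rw [hbd, hn1']) hb'd hfam
      rw [hbd] at hA
      have hcount : Nat.card B = (Finset.univ.filter
          (fun χ : IrrCharacter G => χ ∈ B ∧ blockHeight p B χ.1 = 0)).card := by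
        rw [Nat.card_eq_fintype_card, ← Fintype.card_coe]
        apply Fintype.card_congr
        exact ⟨fun χ => ⟨χ.1, Finset.mem_filter.mpr ⟨Finset.mem_univ _, χ.2, hh χ.1 χ.2⟩⟩,
          fun χ => ⟨χ.1, (Finset.mem_filter.mp χ.2).2.1⟩, fun _ => rfl, fun _ => rfl⟩
      rw [hcount, hd2']
      exact hA
  · rw [if_neg hd2]
    by_cases hpos' : ∃ χ ∈ B, 0 < blockHeight p B (χ : G → ℂ)
    · have h3 := hhts.1 hpos'
      omega
    · push Not at hpos'
      have hh : ∀ χ ∈ B, blockHeight p B χ.1 = 0 := fun χ hχ => Nat.le_zero.mp (hpos' χ hχ)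
      have hsq' := hsq hh
      have hf : Nat.card b' ≤ p ^ (2 * d - 4) := by
        refine hih.trans ?_
        split_ifs with h
        · exact Nat.pow_le_pow_right hp.pos (by omega)
        · exact Nat.pow_le_pow_right hp.pos (by omega)
      have h3 : Nat.card B ^ 2 ≤ (p ^ (2 * d - 2)) ^ 2 := by
        calc Nat.card B ^ 2 ≤ p ^ (2 * blockDefect p b) * blockRank p b := hsq'
          _ ≤ p ^ (2 * d) * p ^ (2 * d - 4) :=
              Nat.mul_le_mul (Nat.pow_le_pow_right hp.pos (by omega))
                (by rw [hrank]; exact hrk.trans hf)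
          _ = (p ^ (2 * d - 2)) ^ 2 := by
              rw [← pow_add, ← pow_mul]
              congr 1
              omega
      exact (Nat.pow_le_pow_iff_left (by norm_num)).mp h3

end Cfsg.Agent.Lib.Helper33.BF
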