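import Mathlib
import Cfsg.Agent.Lib.Helper33.BFMain
import Cfsg.Agent.Lib.Helper79.Prin
import Cfsg.Agent.S0936

/-!
# Characters of `p'`-degree in the principal block when some `p`-element has a small
centralizer (helper33)
-/

set_option autoImplicit false
set_option linter.style.haveILetI false
set_option maxHeartbeats 1600000

namespace Cfsg.Agent.Lib.Helper33.BF

open Cfsg Cfsg.Agent.Lib.Helper80.GenDec Cfsg.Agent.Lib.Helper80.Contrib
open Cfsg.Agent.Lib.Helper4 Cfsg.Agent.Lib.Helper21 Cfsg.Agent.Lib.Helper22
open Cfsg.Agent.Lib.Helper80.K2 Cfsg.Agent.Lib.Helper80.Major Cfsg.Agent.Lib.Helper81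
open scoped ComplexConjugate

universe u

theorem sInf_deg_eq_zero {K : Type*} [Group K] (p : ℕ) (B : Set (IrrCharacter K))
    (χ₁ : IrrCharacter K) (h₁ : χ₁ ∈ B) (hdeg : charDegree χ₁.1 = 1) :
    sInf ((fun χ : IrrCharacter K => (charDegree χ.1).factorization p) '' B) = 0 := by
  apply Nat.eq_zero_of_le_zero
  have h := Nat.sInf_le (show (charDegree χ₁.1).factorization p ∈
    (fun χ : IrrCharacter K => (charDegree χ.1).factorization p) '' B from ⟨χ₁, h₁, rfl⟩)
  rw [hdeg] at h
  simpa using h

theorem charDegree_trivIrr (K : Type*) [Group K] :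
    charDegree (Cfsg.Agent.Lib.Helper83.trivIrr K : K → ℂ) = 1 := by
  unfold charDegree
  show ⌊((1 : ℂ)).re⌋₊ = 1
  simp

/-- If some `p`-element has a centralizer whose order has `p`-part at most `p²`, the principal
block has at most `p²` characters of degree prime to `p`. -/
theorem k0_principal (p : ℕ) [Fact p.Prime] (M : Ideal AlgInt) (hM : IsPModular p M)
    (G : Type u) [Group G] [Finite G]
    (hx : ∃ x : G, (∃ k : ℕ, orderOf x = p ^ k) ∧
      (Nat.card (Subgroup.centralizer ({x} : Set G))).factorization p ≤ 2) :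
    Nat.card {χ : IrrCharacter G // χ ∈ principalBlock M G ∧
      ¬ p ∣ charDegree (χ : G → ℂ)} ≤ p ^ 2 := by
  classical
  have hp : p.Prime := Fact.out
  letI : Fintype G := Fintype.ofFinite G
  haveI := irr_finite (G := G)
  letI : Fintype (IrrCharacter G) := Fintype.ofFinite _
  obtain ⟨x, ⟨n, hxn⟩, hfac⟩ := hx
  have hB : IsPBlock M (principalBlock M G) := Cfsg.Agent.Lib.Helper79.isPBlock_principalBlock
  have htriv : Cfsg.Agent.Lib.Helper83.trivIrr G ∈ principalBlock M G :=
    Cfsg.Agent.Lib.Helper79.trivIrr_mem_principalBlock hM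
  have hinf0 := sInf_deg_eq_zero p (principalBlock M G) _ htriv (charDegree_trivIrr G)
  have hht : ∀ χ : IrrCharacter G, blockHeight p (principalBlock M G) χ.1 = 0 ↔
      ¬ p ∣ charDegree χ.1 := by
    intro χ
    unfold blockHeight
    rw [hinf0, Nat.sub_zero]
    have hpos := (Cfsg.Agent.Lib.Helper83.irr_degree χ.2).1
    constructor
    · intro h hdvd
      have h2 := (hp.dvd_iff_one_le_factorization hpos.ne').mp hdvd
      omega
    · intro h
      by_contra h2
      exact h ((hp.dvd_iff_one_le_factorization hpos.ne').mpr (by omega))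
  have hdefect : blockDefect p (principalBlock M G) = (Nat.card G).factorization p := by
    unfold blockDefect
    rw [hinf0, Nat.sub_zero]
  have hcount : Nat.card {χ : IrrCharacter G // χ ∈ principalBlock M G ∧
      ¬ p ∣ charDegree (χ : G → ℂ)} = (Finset.univ.filter (fun χ : IrrCharacter G =>
        χ ∈ principalBlock M G ∧ blockHeight p (principalBlock M G) χ.1 = 0)).card := by
    rw [Nat.card_eq_fintype_card, ← Fintype.card_coe]
    apply Fintype.card_congr
    exact ⟨fun χ => ⟨χ.1, Finset.mem_filter.mpr ⟨Finset.mem_univ _, χ.2.1, (hht χ.1).mpr χ.2.2⟩⟩,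
      fun χ => ⟨χ.1, (Finset.mem_filter.mp χ.2).2.1, (hht χ.1).mp (Finset.mem_filter.mp χ.2).2.2⟩,
      fun _ => rfl, fun _ => rfl⟩
  rw [hcount]
  by_cases hx1 : x = 1
  · have hG : (Nat.card G).factorization p ≤ 2 := by
      have h1 : Nat.card (Subgroup.centralizer ({x} : Set G)) = Nat.card G := by
        have h2 : Subgroup.centralizer ({x} : Set G) = ⊤ := by
          ext g
          simp [Subgroup.mem_centralizer_iff, hx1]
        rw [h2, Subgroup.card_top]
      rwa [h1] at hfac
    have hbd := bf_bound p M hM _ G (principalBlock M G) hB rfl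
    rw [hdefect, if_pos hG] at hbd
    have hle : (Finset.univ.filter (fun χ : IrrCharacter G =>
        χ ∈ principalBlock M G ∧ blockHeight p (principalBlock M G) χ.1 = 0)).card ≤
        Nat.card (principalBlock M G) := by
      rw [Nat.card_eq_fintype_card, ← Fintype.card_coe]
      refine Fintype.card_le_of_injective
        (fun χ => (⟨χ.1, (Finset.mem_filter.mp χ.2).2.1⟩ : principalBlock M G)) ?_
      intro a b h
      exact Subtype.ext (congrArg (fun t : principalBlock M G => t.1) h)
    exact hle.trans (hbd.trans (Nat.pow_le_pow_right hp.pos hG))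
  · letI : Fintype (Subgroup.centralizer ({x} : Set G)) := Fintype.ofFinite _
    haveI := irr_finite (G := Subgroup.centralizer ({x} : Set G))
    letI : Fintype (IrrCharacter (Subgroup.centralizer ({x} : Set G))) := Fintype.ofFinite _
    have hxH : x ∈ Subgroup.centralizer ({x} : Set G) := by
      rw [Subgroup.mem_centralizer_iff]
      intro g hg
      rw [Set.mem_singleton_iff.mp hg]
    obtain ⟨z, hzdef⟩ : ∃ z : Subgroup.centralizer ({x} : Set G), (z : G) = x := ⟨⟨x, hxH⟩, rfl⟩
    have hz : z ∈ Subgroup.center (Subgroup.centralizer ({x} : Set G)) := by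
      rw [Subgroup.mem_center_iff]
      intro g
      apply Subtype.ext
      rw [Subgroup.coe_mul, Subgroup.coe_mul, hzdef]
      exact (Subgroup.mem_centralizer_iff.mp g.2 x rfl).symm
    have hn : orderOf (z : G) = p ^ n := by rw [hzdef]; exact hxn
    have hCH : Subgroup.centralizer ({(z : G)} : Set G) ≤ Subgroup.centralizer ({x} : Set G) := by
      rw [hzdef]
    have hn1 : 1 ≤ n := by
      by_contra h
      have h2 : n = 0 := by omega
      rw [h2, pow_zero, orderOf_eq_one_iff] at hxn
      exact hx1 hxn
    have he : IsPBlock M (principalBlock M (Subgroup.centralizer ({x} : Set G))) :=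
      Cfsg.Agent.Lib.Helper79.isPBlock_principalBlock
    have hind : IsInducedBlock M (Subgroup.centralizer ({x} : Set G))
        (principalBlock M (Subgroup.centralizer ({x} : Set G))) (principalBlock M G) := by
      obtain ⟨B', hB'⟩ := Cfsg.Agent.Lib.Helper82.exists_induced_centralizer hM x ⟨n, hxn⟩
        (principalBlock M (Subgroup.centralizer ({x} : Set G))) he
      exact (Cfsg.Agent.S0936.result p M hM (Subgroup.centralizer ({x} : Set G))
        (principalBlock M (Subgroup.centralizer ({x} : Set G))) ⟨B', hB'⟩).mpr rfl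
    obtain ⟨D, hD⟩ : ∃ D : Subgroup (Subgroup.centralizer ({x} : Set G)),
        D = Subgroup.zpowers z := ⟨_, rfl⟩
    have hDZ : D ≤ Subgroup.center (Subgroup.centralizer ({x} : Set G)) := by
      rw [hD, Subgroup.zpowers_le]; exact hz
    have hDcard : Nat.card D = p ^ n := by
      rw [hD, Nat.card_zpowers, ← hn, Subgroup.orderOf_coe]
    have hDp : IsPGroup p D := IsPGroup.of_card hDcard
    haveI hDn : D.Normal := by
      constructor
      intro m hm g
      have := Subgroup.mem_center_iff.mp (hDZ hm) g
      rw [this, mul_inv_cancel_right]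
      exact hm
    letI : Fintype (Subgroup.centralizer ({x} : Set G) ⧸ D) := Fintype.ofFinite _
    haveI := irr_finite (G := Subgroup.centralizer ({x} : Set G) ⧸ D)
    letI := Fintype.ofFinite (IrrCharacter (Subgroup.centralizer ({x} : Set G) ⧸ D))
    have hC : ∃ k : ℕ,
        (Subgroup.centralizer (D : Set (Subgroup.centralizer ({x} : Set G)))).index = p ^ k :=
      ⟨0, by rw [Subgroup.centralizer_eq_top_iff_subset.mpr hDZ]; simp⟩
    have hβ : IsPBlock M {θ : IrrCharacter (Subgroup.centralizer ({x} : Set G) ⧸ D) |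
        Cfsg.Agent.Lib.Helper83.inflate D θ ∈
          principalBlock M (Subgroup.centralizer ({x} : Set G))} :=
      isPBlock_deflate hM D hDp hC _ he
    have htrivH : Cfsg.Agent.Lib.Helper83.trivIrr (Subgroup.centralizer ({x} : Set G)) ∈
        principalBlock M (Subgroup.centralizer ({x} : Set G)) :=
      Cfsg.Agent.Lib.Helper79.trivIrr_mem_principalBlock hM
    have htrivK : Cfsg.Agent.Lib.Helper83.trivIrr (Subgroup.centralizer ({x} : Set G) ⧸ D) ∈
        {θ : IrrCharacter (Subgroup.centralizer ({x} : Set G) ⧸ D) |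
          Cfsg.Agent.Lib.Helper83.inflate D θ ∈
            principalBlock M (Subgroup.centralizer ({x} : Set G))} := by
      show Cfsg.Agent.Lib.Helper83.inflate D
        (Cfsg.Agent.Lib.Helper83.trivIrr (Subgroup.centralizer ({x} : Set G) ⧸ D)) ∈
          principalBlock M (Subgroup.centralizer ({x} : Set G))
      have e1 : Cfsg.Agent.Lib.Helper83.inflate D
          (Cfsg.Agent.Lib.Helper83.trivIrr (Subgroup.centralizer ({x} : Set G) ⧸ D)) =
          Cfsg.Agent.Lib.Helper83.trivIrr (Subgroup.centralizer ({x} : Set G)) :=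
        Subtype.ext rfl
      rw [e1]
      exact htrivH
    have hdefe : blockDefect p (principalBlock M (Subgroup.centralizer ({x} : Set G))) =
        (Nat.card (Subgroup.centralizer ({x} : Set G))).factorization p := by
      unfold blockDefect
      rw [sInf_deg_eq_zero p _ _ htrivH (charDegree_trivIrr _), Nat.sub_zero]
    have hdefβ : blockDefect p {θ : IrrCharacter (Subgroup.centralizer ({x} : Set G) ⧸ D) |
        Cfsg.Agent.Lib.Helper83.inflate D θ ∈
          principalBlock M (Subgroup.centralizer ({x} : Set G))} =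
        (Nat.card (Subgroup.centralizer ({x} : Set G) ⧸ D)).factorization p := by
      unfold blockDefect
      rw [sInf_deg_eq_zero p _ _ htrivK (charDegree_trivIrr _), Nat.sub_zero]
    have hcardH : Nat.card (Subgroup.centralizer ({x} : Set G)) =
        Nat.card (Subgroup.centralizer ({x} : Set G) ⧸ D) * p ^ n := by
      rw [← hDcard]; exact Subgroup.card_eq_card_quotient_mul_card_subgroup D
    have hfacH : (Nat.card (Subgroup.centralizer ({x} : Set G))).factorization p =
        (Nat.card (Subgroup.centralizer ({x} : Set G) ⧸ D)).factorization p + n := by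
      rw [hcardH, Nat.factorization_mul Nat.card_pos.ne' (pow_pos hp.pos n).ne',
        Finsupp.add_apply, Nat.Prime.factorization_pow hp]
      simp
    obtain ⟨δ, hδdef⟩ : ∃ δ : ℕ,
        δ = (Nat.card (Subgroup.centralizer ({x} : Set G) ⧸ D)).factorization p := ⟨_, rfl⟩
    have hδ1 : δ ≤ 1 := by omega
    have hfam : HasFamily p {θ : IrrCharacter (Subgroup.centralizer ({x} : Set G) ⧸ D) |
        Cfsg.Agent.Lib.Helper83.inflate D θ ∈
          principalBlock M (Subgroup.centralizer ({x} : Set G))} (p ^ δ) := by
      rcases Nat.eq_zero_or_pos δ with h0 | h0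
      · rw [h0, pow_zero]
        exact hasFamily_of_defect_zero hM _ hβ (by rw [hdefβ, ← hδdef, h0])
      · have h1 : δ = 1 := by omega
        rw [h1]
        exact hasFamily_of_defect_one hM _ hβ (by rw [hdefβ, ← hδdef, h1])
    have hA := k0_le_of_family _ hM z hz n hn hCH
      (principalBlock M (Subgroup.centralizer ({x} : Set G))) (principalBlock M G) hind D hD δ hδ1
      (by rw [hdefe, hfacH, ← hδdef, add_comm]) (by rw [hdefβ, ← hδdef]) hfam
    rw [hdefe] at hA
    exact hA.trans (Nat.pow_le_pow_right hp.pos hfac)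

end Cfsg.Agent.Lib.Helper33.BF
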