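import Cfsg.Agent.Lib.Helper41.BG11Kit
import Cfsg.Agent.Lib.Helper41.BG11Aux
import Cfsg.Agent.Lib.Helper15.BG11Aux
import Cfsg.Agent.S0026
import Cfsg.Agent.S0058
import Cfsg.Agent.S1443

/-!
# B&G Section 12.4, piece S5II (helper33, for helper41)

`M` a maximal subgroup, `p ∉ σ(M)`, `A ≤ M` maximal elementary abelian of order `p ^ 2` with
`M_σ ≤ C(A)`: then `A` centralizes the normal `q`-subgroups of `M` for `q ∉ σ(M)`, `q ≠ p`.
-/

set_option autoImplicit false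

open Cfsg Cfsg.Agent.Lib.Helper32 Cfsg.Agent.Lib.Helper32.BG10 Cfsg.Agent.Lib.Helper3.BG12
open Cfsg.Agent.Lib.Helper41.BG11 Cfsg.Agent.Lib.Helper15.BG11

namespace Cfsg.Agent.Lib.Helper33.BG11

universe u

variable {G : Type u} [Group G] [Finite G]

/-- the subgroup of the elements of order dividing `q` of a nontrivial cyclic `q`-subgroup has
order `q` -/
theorem s5_exists_omega (q : ℕ) [Fact q.Prime] {Y : Subgroup G} (hcyc : IsCyclic ↥Y)
    (hYq : IsPGroup q Y) (hY1 : Y ≠ ⊥) :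
    ∃ B₀ : Subgroup G, (∀ x, x ∈ B₀ ↔ x ∈ Y ∧ x ^ q = 1) ∧ Nat.card B₀ = q := by
  have hq : q.Prime := Fact.out
  have hcomm : ∀ x ∈ Y, ∀ y ∈ Y, x * y = y * x := by
    obtain ⟨g, hg⟩ := hcyc.exists_generator
    intro x hx y hy
    obtain ⟨i, hi⟩ := hg ⟨x, hx⟩
    obtain ⟨j, hj⟩ := hg ⟨y, hy⟩
    have hi' : x = (g : G) ^ i := by
      have := congrArg Subtype.val hi
      simpa using this.symm
    have hj' : y = (g : G) ^ j := by
      have := congrArg Subtype.val hj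
      simpa using this.symm
    rw [hi', hj', ← zpow_add, ← zpow_add, add_comm]
  let B₀ : Subgroup G :=
    { carrier := {x | x ∈ Y ∧ x ^ q = 1}
      mul_mem' := by
        rintro a b ⟨ha, ha'⟩ ⟨hb, hb'⟩
        refine ⟨Y.mul_mem ha hb, ?_⟩
        have hc : Commute a b := hcomm a ha b hb
        rw [hc.mul_pow, ha', hb', one_mul]
      one_mem' := ⟨Y.one_mem, one_pow _⟩
      inv_mem' := by
        rintro a ⟨ha, ha'⟩
        exact ⟨Y.inv_mem ha, by rw [inv_pow, ha', inv_one]⟩ }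
  have hmem : ∀ x, x ∈ B₀ ↔ x ∈ Y ∧ x ^ q = 1 := fun x => Iff.rfl
  refine ⟨B₀, hmem, ?_⟩
  have hB₀Y : B₀ ≤ Y := fun x hx => ((hmem x).mp hx).1
  have hcycB : IsCyclic ↥B₀ :=
    isCyclic_of_injective (Subgroup.inclusion hB₀Y) (Subgroup.inclusion_injective hB₀Y)
  obtain ⟨g, hg⟩ := hcycB.exists_generator
  have h1 : orderOf g = Nat.card B₀ := orderOf_eq_card_of_forall_mem_zpowers hg
  have h2 : g ^ q = 1 := Subtype.ext (by simpa using ((hmem g.1).mp g.2).2)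
  have h3 : orderOf g ∣ q := orderOf_dvd_of_pow_eq_one h2
  rw [h1] at h3
  rcases (Nat.dvd_prime hq).mp h3 with h4 | h4
  · exfalso
    have hdvd : q ∣ Nat.card Y := by
      obtain ⟨k, hk⟩ := IsPGroup.iff_card.mp hYq
      rcases Nat.eq_zero_or_pos k with h0 | h0
      · exfalso
        apply hY1
        rw [h0, pow_zero] at hk
        exact Subgroup.card_eq_one.mp hk
      · rw [hk]
        exact dvd_pow_self q h0.ne'
    obtain ⟨y, hy⟩ := exists_prime_orderOf_dvd_card' q hdvd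
    have hyq : (y : G) ^ q = 1 := by
      have : y ^ q = 1 := by rw [← hy, pow_orderOf_eq_one]
      simpa using congrArg Subtype.val this
    have hyB : (y : G) ∈ B₀ := (hmem _).mpr ⟨y.2, hyq⟩
    have hB₀bot : B₀ = ⊥ := Subgroup.card_eq_one.mp h4
    rw [hB₀bot, Subgroup.mem_bot] at hyB
    have hy1 : y = 1 := Subtype.ext hyB
    rw [hy1, orderOf_one] at hy
    exact hq.one_lt.ne hy
  · exact h4

omit [Finite G] in
/-- an elementary abelian group of order `p ^ 2` is not cyclic -/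
theorem s5_not_cyclic {p : ℕ} (hp : p.Prime) {A : Subgroup G} (hAe : IsElementaryAbelian p A)
    (hAc : Nat.card A = p ^ 2) : ¬ IsCyclic ↥A := by
  intro hcyc
  obtain ⟨g, hg⟩ := hcyc.exists_generator
  have h1 : orderOf g = Nat.card A := orderOf_eq_card_of_forall_mem_zpowers hg
  have h2 : g ^ p = 1 := Subtype.ext (by simpa using hAe.2 g.1 g.2)
  have h3 : orderOf g ∣ p := orderOf_dvd_of_pow_eq_one h2
  have h4 := Nat.le_of_dvd hp.pos h3
  rw [h1, hAc] at h4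
  have := hp.one_lt
  nlinarith

/-- a subgroup `B₀` of prime order normalized, but not centralized, by `A` lies in every
subgroup containing `A` that it normalizes -/
theorem s5_le_of_not_centralize {q : ℕ} (hq : q.Prime) {B₀ A N : Subgroup G}
    (hc : Nat.card B₀ = q) (hAB₀ : A ≤ Subgroup.normalizer (B₀ : Set G))
    (hnc : ¬ B₀ ≤ Subgroup.centralizer (A : Set G)) (hAN : A ≤ N)
    (hB₀N : B₀ ≤ Subgroup.normalizer (N : Set G)) : B₀ ≤ N := by
  obtain ⟨b, hb, a, ha, hba⟩ : ∃ b ∈ B₀, ∃ a ∈ A, a * b ≠ b * a := by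
    by_contra hcon
    push Not at hcon
    exact hnc (fun b hb => Subgroup.mem_centralizer_iff.mpr (fun a ha => hcon b hb a ha))
  have h1 : b * a * b⁻¹ * a⁻¹ ∈ N :=
    N.mul_mem (conj_mem_of_mem_normalizer (hB₀N hb) (hAN ha)) (N.inv_mem (hAN ha))
  have h2 : b * a * b⁻¹ * a⁻¹ ∈ B₀ := by
    have e : b * a * b⁻¹ * a⁻¹ = b * (a * b⁻¹ * a⁻¹) := by group
    rw [e]
    exact B₀.mul_mem hb (conj_mem_of_mem_normalizer (hAB₀ ha) (B₀.inv_mem hb))
  have h3 : b * a * b⁻¹ * a⁻¹ ≠ 1 := by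
    intro h
    apply hba
    have e : b * a = (b * a * b⁻¹ * a⁻¹) * (a * b) := by group
    rw [e, h, one_mul]
  have h4 := zpowers_eq_of_card_prime hq hc h2 h3
  rw [← h4, Subgroup.zpowers_le]
  exact h1

omit [Finite G] in
/-- conjugates of elementary abelian subgroups are elementary abelian -/
theorem s5_elemAb_cj {q : ℕ} {B' : Subgroup G} (s : G) (hB'e : IsElementaryAbelian q B') :
    IsElementaryAbelian q (cj s B') := by
  refine ⟨⟨⟨?_⟩⟩, ?_⟩
  · rintro ⟨x, hx⟩ ⟨y, hy⟩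
    rw [mem_cj] at hx hy
    have := hB'e.1.is_comm.comm ⟨_, hx⟩ ⟨_, hy⟩
    have h1 : (s⁻¹ * x * s) * (s⁻¹ * y * s) = (s⁻¹ * y * s) * (s⁻¹ * x * s) :=
      congrArg Subtype.val this
    apply Subtype.ext
    show x * y = y * x
    have e1 : x * y = s * ((s⁻¹ * x * s) * (s⁻¹ * y * s)) * s⁻¹ := by group
    have e2 : y * x = s * ((s⁻¹ * y * s) * (s⁻¹ * x * s)) * s⁻¹ := by group
    rw [e1, e2, h1]
  · intro x hx
    rw [mem_cj] at hx
    have h1 := hB'e.2 _ hx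
    have e : s⁻¹ * x * s = s⁻¹ * x * s⁻¹⁻¹ := by group
    rw [e, conj_pow] at h1
    have e2 : x ^ q = s * (s⁻¹ * x ^ q * s⁻¹⁻¹) * s⁻¹ := by group
    rw [e2, h1]
    group

theorem s5ii (hG : IsMinSimpleOddOrder G) (hNorm : PNorm G) (hFpf : PFpf G) (hBeta : PBeta G)
    (hNe : PNe G) (hCyc : PCyc G) : PS5 G := by
  intro M p A hM hp hσ hAM hmax hAc hSgA q hq hqp hqσ Y hYM hMY hYq
  by_contra hY
  have : Fact p.Prime := ⟨hp⟩
  have : Fact q.Prime := ⟨hq⟩
  have hAe : IsElementaryAbelian p A := hmax.1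
  have hAp : IsPGroup p A := isPGroup_of_elemAb hAe
  have hAsol : Group.IsSolvable ↥A :=
    minSimple_solvable hG (fun h => hM.1 (top_le_iff.mp (h ▸ hAM)))
  obtain ⟨hr2, hr1⟩ := rank_two_of hG hM hp hσ hAM hAe hAc
  have hpid : ¬ IsIdealPrime p G := (h5_of hG M hM p hσ hr2 hr1).1
  have hpq : Nat.Coprime p q := (Nat.coprime_primes hp hq).mpr (Ne.symm hqp)
  -- `Y` is cyclic; its subgroup `B₀` of order `q`
  have hYcyc : IsCyclic ↥Y := hCyc M q hM hq hqσ Y hYM hMY hYq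
  have hY1 : Y ≠ ⊥ := by
    rintro rfl
    exact hY bot_le
  obtain ⟨B₀, hB₀mem, hB₀c⟩ := s5_exists_omega q hYcyc hYq hY1
  have hB₀Y : B₀ ≤ Y := fun x hx => ((hB₀mem x).mp hx).1
  have hB₀M : B₀ ≤ M := hB₀Y.trans hYM
  have hMB₀ : M ≤ Subgroup.normalizer (B₀ : Set G) := by
    intro m hm
    apply mem_normalizer_of_conj_mem
    intro x hx
    obtain ⟨hxY, hxq⟩ := (hB₀mem x).mp hx
    refine (hB₀mem _).mpr ⟨conj_mem_of_mem_normalizer (hMY hm) hxY, ?_⟩
    rw [conj_pow, hxq]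
    group
  have hAB₀ : A ≤ Subgroup.normalizer (B₀ : Set G) := hAM.trans hMB₀
  have hB₀ne : B₀ ≠ ⊥ := ne_bot_of_card_prime hq hB₀c
  have hNB₀ : Subgroup.normalizer (B₀ : Set G) = M :=
    normalizer_eq_of_coatom hG hM hB₀ne hB₀M hMB₀
  have hB₀q : IsPGroup q B₀ := IsPGroup.of_card (n := 1) (by rw [hB₀c, pow_one])
  have hq2 : q ≠ 2 := by
    rintro rfl
    have := minSimple_odd_sub hG B₀
    rw [hB₀c] at this
    exact absurd this (by decide)
  have hcopAq : (Nat.card A).Coprime q := by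
    rw [hAc]
    exact Nat.Coprime.pow_left 2 hpq
  -- `A` does not centralize `B₀`
  have hB₀A : ¬ B₀ ≤ Subgroup.centralizer (A : Set G) := by
    intro h
    apply hY
    have hbe : IsElementaryAbelian q (⊥ : Subgroup G) :=
      ⟨⟨⟨fun a b => Subsingleton.elim _ _⟩⟩, fun a ha => by
        rw [Subgroup.mem_bot.mp ha, one_pow]⟩
    have h1 := Cfsg.Agent.S1443.result q hq2 Y ⊥ A hYq bot_le hbe (hAM.trans hMY) hcopAq
      (fun x hx hxo => by
        have hxB : x ∈ B₀ := (hB₀mem x).mpr ⟨hx.1, by rw [← hxo, pow_orderOf_eq_one]⟩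
        intro a ha
        rw [Subgroup.mem_centralizer_iff]
        intro y hy
        rw [Set.mem_singleton_iff] at hy
        subst hy
        exact ((Subgroup.mem_centralizer_iff.mp (h hxB)) a ha).symm)
    intro y hy
    rw [Subgroup.mem_centralizer_iff]
    intro a ha
    exact ((Subgroup.mem_centralizer_iff.mp (h1 ha)) y hy).symm
  -- B&G 10.6 for `B₀`
  obtain ⟨-, hqid, B', hB'e, hB'c, hB₀B'⟩ := h6_of hG M hM q hqσ B₀ hB₀c hNB₀.le
  have hB'M : B' ≤ M := by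
    intro x hx
    apply hNB₀.le
    apply centralizer_le_normalizer' B₀
    rw [Subgroup.mem_centralizer_iff]
    intro b hb
    have := hB'e.1.is_comm.comm ⟨b, hB₀B' hb⟩ ⟨x, hx⟩
    exact congrArg Subtype.val this
  have hE' : Exc M q B' B₀ := exc_mk hG hM hq hqσ hB'M hB'e hB'c hB₀B' hB₀c hNB₀.le
  have hMS' : M ≤ Subgroup.normalizer ((sigmaCore M ⊔ B' : Subgroup G) : Set G) :=
    hNorm M q B' B₀ hE'
  have hSgM : sigmaCore M ≤ M := aux_sigmaCore_le M
  have hMSg : M ≤ Subgroup.normalizer (sigmaCore M : Set G) := aux_le_normalizer_sigmaCore M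
  have hcopSgq : (Nat.card ↥(sigmaCore M)).Coprime q := aux_coprime hq hqσ le_rfl
  have hcopSgp : (Nat.card ↥(sigmaCore M)).Coprime p := aux_coprime hp hσ le_rfl
  have hSM : sigmaCore M ⊔ B' ≤ M := sup_le hSgM hB'M
  have hcardS : Nat.card ↥(sigmaCore M ⊔ B') ∣ Nat.card ↥(sigmaCore M) * q ^ 2 := by
    have := Cfsg.Agent.Lib.Helper76.CS.card_sup_dvd (H := B') (K := sigmaCore M)
      (hB'M.trans hMSg)
    rw [sup_comm, hB'c] at this
    exact this
  have hcopAS : (Nat.card A).Coprime (Nat.card ↥(sigmaCore M ⊔ B')) := by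
    refine Nat.Coprime.coprime_dvd_right hcardS ?_
    rw [hAc]
    apply Nat.Coprime.pow_left
    exact Nat.Coprime.mul_right hcopSgp.symm (Nat.Coprime.pow_right 2 hpq)
  -- an `A`-invariant Sylow `q`-subgroup `B` of `M_σ B'`
  obtain ⟨B, hBsyl, hAB⟩ := exists_invariant_sylow (q := q) A (sigmaCore M ⊔ B')
    (hAM.trans hMS') hcopAS hAsol
  have hB'syl : B' ∈ sylSet q (sigmaCore M ⊔ B') := by
    refine ⟨le_sup_right, ?_⟩
    have h1 : q ^ 2 ∣ Nat.card ↥(sigmaCore M ⊔ B') :=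
      hB'c ▸ Subgroup.card_dvd_of_le (le_sup_right : B' ≤ sigmaCore M ⊔ B')
    have h2 : 2 ≤ (Nat.card ↥(sigmaCore M ⊔ B')).factorization q :=
      (hq.pow_dvd_iff_le_factorization Nat.card_pos.ne').mp h1
    have h3 : q ^ (Nat.card ↥(sigmaCore M ⊔ B')).factorization q ∣
        Nat.card ↥(sigmaCore M) * q ^ 2 := (Nat.ordProj_dvd _ _).trans hcardS
    have h4 : q ^ (Nat.card ↥(sigmaCore M ⊔ B')).factorization q ∣ q ^ 2 :=
      (Nat.Coprime.dvd_mul_left (Nat.Coprime.pow_left _ hcopSgq.symm)).mp h3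
    have h5 : (Nat.card ↥(sigmaCore M ⊔ B')).factorization q ≤ 2 :=
      (Nat.pow_dvd_pow_iff_le_right hq.one_lt).mp h4
    have h6 : (Nat.card ↥(sigmaCore M ⊔ B')).factorization q = 2 := le_antisymm h5 h2
    rw [hB'c, h6]
  obtain ⟨s, hsS, hsB⟩ := sylSet_conj hB'syl hBsyl
  have hsM : s ∈ M := hSM hsS
  have hBM : B ≤ M := hBsyl.1.trans hSM
  have hBc : Nat.card B = q ^ 2 := by rw [← hsB, card_cj, hB'c]
  have hB₀B : B₀ ≤ B := by
    rw [← hsB, ← cj_eq_self_iff.mpr (hMB₀ hsM)]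
    exact cj_mono s hB₀B'
  have hBe : IsElementaryAbelian q B := hsB ▸ s5_elemAb_cj s hB'e
  have hE : Exc M q B B₀ := exc_mk hG hM hq hqσ hBM hBe hBc hB₀B hB₀c hNB₀.le
  have hBq : IsPGroup q B := isPGroup_of_elemAb hBe
  have hcopAB : (Nat.card A).Coprime (Nat.card B) := by
    rw [hAc, hBc]
    exact Nat.Coprime.pow 2 2 hpq
  -- `B₁ = C_B(A) ≠ 1`
  have hB₁ne : B ⊓ Subgroup.centralizer (A : Set G) ≠ ⊥ := by
    intro h0
    have h26 := Cfsg.Agent.S0026.result A B hAB hcopAB (Or.inl hAsol)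
    rw [h0, sup_bot_eq] at h26
    have hAZ : A ≤ Subgroup.centralizer (sigmaCore M : Set G) := by
      intro a ha
      rw [Subgroup.mem_centralizer_iff]
      intro x hx
      exact ((Subgroup.mem_centralizer_iff.mp (hSgA hx)) a ha).symm
    have hBZ : B ≤ Subgroup.centralizer (sigmaCore M : Set G) := by
      rw [← h26, Subgroup.commutator_le]
      intro b hb a ha
      have h1 : b * a * b⁻¹ ∈ Subgroup.centralizer (sigmaCore M : Set G) :=
        conj_mem_centralizer (hMSg (hBM hb)) (hAZ ha)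
      rw [commutatorElement_def]
      exact Subgroup.mul_mem _ h1 (Subgroup.inv_mem _ (hAZ ha))
    have hSgbot : sigmaCore M ≤ sigmaCore M ⊓ Subgroup.centralizer (B : Set G) := by
      intro x hx
      refine Subgroup.mem_inf.mpr ⟨hx, ?_⟩
      rw [Subgroup.mem_centralizer_iff]
      intro b hb
      exact ((Subgroup.mem_centralizer_iff.mp (hBZ hb)) x hx).symm
    rw [(hFpf M q B B₀ hE).1] at hSgbot
    exact hNe M hM (le_bot_iff.mp hSgbot)
  obtain ⟨B₁, hB₁def⟩ : ∃ X : Subgroup G, X = B ⊓ Subgroup.centralizer (A : Set G) := ⟨_, rfl⟩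
  rw [← hB₁def] at hB₁ne
  have hB₁B : B₁ ≤ B := hB₁def ▸ inf_le_left
  have hB₁A : B₁ ≤ Subgroup.centralizer (A : Set G) := hB₁def ▸ inf_le_right
  have hinf : B₀ ⊓ B₁ = ⊥ := by
    rw [eq_bot_iff]
    intro x hx
    rw [Subgroup.mem_bot]
    by_contra hx1
    have hz := zpowers_eq_of_card_prime hq hB₀c hx.1 hx1
    apply hB₀A
    rw [← hz, Subgroup.zpowers_le]
    exact hB₁A hx.2
  have hB₁neB : B₁ ≠ B := by
    intro h
    apply hB₀A
    exact (h ▸ hB₀B : B₀ ≤ B₁).trans hB₁A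
  have hB₁c : Nat.card B₁ = q := card_eq_prime_of_lt hq hBc hB₁B hB₁ne hB₁neB
  have hBsup : B₀ ⊔ B₁ = B := sup_eq_of_card hq hBc hB₀B hB₁B hB₀c hB₁c hinf
  -- `A₂ = C_A(B₀)` has order `p`
  obtain ⟨A₂, hA₂def⟩ : ∃ X : Subgroup G, X = A ⊓ Subgroup.centralizer (B₀ : Set G) := ⟨_, rfl⟩
  have hA₂A : A₂ ≤ A := hA₂def ▸ inf_le_left
  have hA₂B₀ : A₂ ≤ Subgroup.centralizer (B₀ : Set G) := hA₂def ▸ inf_le_right
  have hA₂neA : A₂ ≠ A := by
    intro h
    apply hB₀A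
    intro b hb
    rw [Subgroup.mem_centralizer_iff]
    intro a ha
    have ha2 : a ∈ A₂ := h ▸ ha
    exact ((Subgroup.mem_centralizer_iff.mp (hA₂B₀ ha2)) b hb).symm
  have hA₂ne : A₂ ≠ ⊥ := by
    have hAcomm : IsMulCommutative ↥A := hAe.1
    have hAnc : ¬ IsCyclic ↥A := s5_not_cyclic hp hAe hAc
    have h58 := Cfsg.Agent.S0058.result A B₀ hAnc hAB₀ (by rw [hB₀c]; exact hcopAq)
    intro h0
    apply hB₀ne
    rw [← h58, eq_bot_iff]
    apply iSup₂_le
    rintro a ⟨haA, ha1⟩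
    intro x hx
    rw [Subgroup.mem_bot]
    by_contra hx1
    have hz := zpowers_eq_of_card_prime hq hB₀c hx.1 hx1
    have haC : a ∈ Subgroup.centralizer (B₀ : Set G) := by
      have hle : B₀ ≤ Subgroup.centralizer ({a} : Set G) := by
        rw [← hz, Subgroup.zpowers_le]
        exact hx.2
      rw [Subgroup.mem_centralizer_iff]
      intro b hb
      exact ((Subgroup.mem_centralizer_iff.mp (hle hb)) a rfl).symm
    have haA₂ : a ∈ A₂ := by
      rw [hA₂def]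
      exact ⟨haA, haC⟩
    rw [h0, Subgroup.mem_bot] at haA₂
    exact ha1 haA₂
  have hA₂c : Nat.card A₂ = p := card_eq_prime_of_lt hp hAc hA₂A hA₂ne hA₂neA
  have hBA₂ : B ≤ Subgroup.centralizer (A₂ : Set G) := by
    rw [← hBsup]
    refine sup_le ?_ ?_
    · intro b hb
      rw [Subgroup.mem_centralizer_iff]
      intro a ha
      exact ((Subgroup.mem_centralizer_iff.mp (hA₂B₀ ha)) b hb).symm
    · intro b hb
      rw [Subgroup.mem_centralizer_iff]
      intro a ha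
      exact (Subgroup.mem_centralizer_iff.mp (hB₁A hb)) a (hA₂A ha)
  have hAA₂ : A ≤ Subgroup.centralizer (A₂ : Set G) := by
    intro a ha
    rw [Subgroup.mem_centralizer_iff]
    intro x hx
    have := hAe.1.is_comm.comm ⟨x, hA₂A hx⟩ ⟨a, ha⟩
    exact congrArg Subtype.val this
  have hA₂top : A₂ ≠ ⊤ := fun h => hM.1 (top_le_iff.mp (h ▸ hA₂A.trans hAM))
  have hNtop := minSimple_normalizer_ne_top hG hA₂ne hA₂top
  obtain ⟨H₂, hH₂, hNH₂⟩ := exists_coatom_ge hNtop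
  have hAH₂ : A ≤ H₂ := hAA₂.trans ((centralizer_le_normalizer' A₂).trans hNH₂)
  have hBH₂ : B ≤ H₂ := hBA₂.trans ((centralizer_le_normalizer' A₂).trans hNH₂)
  have hB₀H₂ : B₀ ≤ H₂ := hB₀B.trans hBH₂
  by_cases hpH : p ∈ sigma H₂
  · have hASg₂ : A ≤ sigmaCore H₂ :=
      Cfsg.Agent.Lib.Helper32.BG12.pgroup_le_sigmaCore hG hH₂ hpH hAp hAH₂
    have hB₀Sg₂ : B₀ ≤ sigmaCore H₂ :=
      s5_le_of_not_centralize hq hB₀c hAB₀ hB₀A hASg₂
        (hB₀H₂.trans (aux_le_normalizer_sigmaCore H₂))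
    have hW : A ⊔ B₀ ≤ sigmaCore H₂ := sup_le hASg₂ hB₀Sg₂
    have hWnil : Group.IsNilpotent ↥(A ⊔ B₀) := by
      apply hBeta H₂ (A ⊔ B₀) hH₂ hW
      intro r hr hrW
      have h1 : r ∣ Nat.card B₀ * Nat.card A :=
        hrW.trans (Cfsg.Agent.Lib.Helper76.CS.card_sup_dvd hAB₀)
      rw [hB₀c, hAc] at h1
      rcases (Nat.Prime.dvd_mul hr).mp h1 with h2 | h2
      · have : r = q := (Nat.prime_dvd_prime_iff_eq hr hq).mp h2
        rw [this]
        exact hqid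
      · have : r = p := (Nat.prime_dvd_prime_iff_eq hr hp).mp (hr.dvd_of_dvd_pow h2)
        rw [this]
        exact hpid
    have hcomm := aux_commute_of_nilpotent hWnil hp hq hqp hB₀q hAp le_sup_right le_sup_left
    apply hB₀A
    intro x hx
    exact Subgroup.mem_centralizer_iff.mpr (fun a ha => hcomm x hx a ha)
  · have hE₂ : Exc H₂ p A A₂ := exc_mk hG hH₂ hp hpH hAH₂ hAe hAc hA₂A hA₂c hNH₂
    have hN₂ : H₂ ≤ Subgroup.normalizer ((sigmaCore H₂ ⊔ A : Subgroup G) : Set G) :=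
      hNorm H₂ p A A₂ hE₂
    have hB₀D : B₀ ≤ sigmaCore H₂ ⊔ A :=
      s5_le_of_not_centralize hq hB₀c hAB₀ hB₀A le_sup_right (hB₀H₂.trans hN₂)
    have hcardD : Nat.card ↥(sigmaCore H₂ ⊔ A) ∣ Nat.card ↥(sigmaCore H₂) * p ^ 2 := by
      have := Cfsg.Agent.Lib.Helper76.CS.card_sup_dvd (H := A) (K := sigmaCore H₂)
        (hAH₂.trans (aux_le_normalizer_sigmaCore H₂))
      rw [sup_comm, hAc] at this
      exact this
    have hqD : q ∣ Nat.card ↥(sigmaCore H₂) * p ^ 2 := by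
      have h1 : q ∣ Nat.card ↥(sigmaCore H₂ ⊔ A) := hB₀c ▸ Subgroup.card_dvd_of_le hB₀D
      exact h1.trans hcardD
    have hqSg₂ : q ∣ Nat.card ↥(sigmaCore H₂) := by
      rcases (Nat.Prime.dvd_mul hq).mp hqD with h | h
      · exact h
      · exact absurd ((Nat.prime_dvd_prime_iff_eq hq hp).mp (hq.dvd_of_dvd_pow h)) hqp
    have hqH : q ∈ sigma H₂ :=
      Cfsg.Agent.Lib.Helper32.BG12.mem_sigma_of_dvd_sigmaCore hq hqSg₂
    have hB₁q : IsPGroup q B₁ := hBq.to_le hB₁B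
    have hB₁Sg₂ : B₁ ≤ sigmaCore H₂ :=
      Cfsg.Agent.Lib.Helper32.BG12.pgroup_le_sigmaCore hG hH₂ hqH hB₁q (hB₁B.trans hBH₂)
    have hle : B₁ ≤ sigmaCore H₂ ⊓ Subgroup.centralizer (A : Set G) := le_inf hB₁Sg₂ hB₁A
    rw [(hFpf H₂ p A A₂ hE₂).1] at hle
    exact hB₁ne (le_bot_iff.mp hle)

end Cfsg.Agent.Lib.Helper33.BG11
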