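import Mathlib
import Cfsg.Agent.Lib.Helper4.FCDefs

/-!
# Project FC (S4146), piece LFDEC (duplicate seat helper33)

`fc_lfdec : ConjHStmt → LFDecStmt`: split `g = g₁ g₂` with `g₁ ∈ A` and `g₂` of order prime to
`|A|` (Bezout on `|A|`, `|G : A|`), and conjugate `g₂` into `H` by an element of `A`.
-/

set_option autoImplicit false

namespace Cfsg.Agent.Lib.Helper4.FC

universe u

theorem lfdec_helper33_cs_conj {G : Type u} [Group G] (a g : G) :
    cs (a * g * a⁻¹) = cs g := by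
  have h : Cen (a * g * a⁻¹) = (Cen g).map (MulAut.conj a).toMonoidHom := by
    ext z
    rw [Subgroup.mem_map_equiv, MulAut.conj_symm_apply, Subgroup.mem_centralizer_iff,
      Subgroup.mem_centralizer_iff]
    constructor
    · intro h w hw
      rw [Set.mem_singleton_iff] at hw
      subst hw
      have h1 := h (a * w * a⁻¹) (Set.mem_singleton _)
      calc w * (a⁻¹ * z * a) = a⁻¹ * ((a * w * a⁻¹) * z) * a := by group
        _ = a⁻¹ * (z * (a * w * a⁻¹)) * a := by rw [h1]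
        _ = a⁻¹ * z * a * w := by group
    · intro h w hw
      rw [Set.mem_singleton_iff] at hw
      subst hw
      have h1 := h g (Set.mem_singleton _)
      calc a * g * a⁻¹ * z = a * (g * (a⁻¹ * z * a)) * a⁻¹ := by group
        _ = a * (a⁻¹ * z * a * g) * a⁻¹ := by rw [h1]
        _ = z * (a * g * a⁻¹) := by group
  change (Cen (a * g * a⁻¹)).index = (Cen g).index
  rw [h]
  exact Subgroup.index_map_equiv (Cen g) (MulAut.conj a)

theorem lfdec_helper33_conj_mul {G : Type u} [Group G] (a b c : G) :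
    a * b * a⁻¹ * (a * c * a⁻¹) = a * (b * c) * a⁻¹ := by
  group

theorem lfdec_helper33_split {G : Type u} [Group G] [Finite G] (A : Subgroup G) [A.Normal]
    (hcop : (Nat.card A).Coprime A.index) (g : G) :
    ∃ g₁ g₂ : G, g₁ ∈ A ∧ g₂ ^ A.index = 1 ∧ g₁ * g₂ = g ∧ g₂ * g₁ = g₁ * g₂ := by
  have hbez := Nat.gcd_eq_gcd_ab (Nat.card A) A.index
  have hgcd : Nat.gcd (Nat.card A) A.index = 1 := hcop
  rw [hgcd] at hbez
  refine ⟨g ^ ((A.index : ℤ) * Nat.gcdB (Nat.card A) A.index),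
    g ^ ((Nat.card A : ℤ) * Nat.gcdA (Nat.card A) A.index), ?_, ?_, ?_, ?_⟩
  · rw [zpow_mul, zpow_natCast]
    exact A.zpow_mem (A.pow_index_mem g) _
  · have e : (Nat.card A : ℤ) * Nat.gcdA (Nat.card A) A.index * (A.index : ℤ) =
        ((Nat.card A * A.index : ℕ) : ℤ) * Nat.gcdA (Nat.card A) A.index := by
      push_cast
      ring
    rw [← zpow_natCast, ← zpow_mul, e, zpow_mul, zpow_natCast, Subgroup.card_mul_index,
      pow_card_eq_one', one_zpow]
  · rw [← zpow_add]
    have e : (A.index : ℤ) * Nat.gcdB (Nat.card A) A.index +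
        (Nat.card A : ℤ) * Nat.gcdA (Nat.card A) A.index = 1 := by
      rw [add_comm, ← hbez]
      exact Nat.cast_one
    rw [e, zpow_one]
  · exact (Commute.zpow_zpow_self g _ _).eq

theorem fc_lfdec : ConjHStmt.{u} → LFDecStmt.{u} := by
  intro hC G _ _ A H g hAn hAab hcop hAH hsup
  have := hAn
  obtain ⟨g₁, g₂, hg₁A, hg₂M, hprod, hcomm⟩ := lfdec_helper33_split A hcop g
  have hord2 : orderOf g₂ ∣ A.index := orderOf_dvd_of_pow_eq_one hg₂M
  have hcop2 : (orderOf g₂).Coprime (Nat.card A) :=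
    Nat.Coprime.coprime_dvd_left hord2 hcop.symm
  obtain ⟨a, haA, haH⟩ := hC G A H g₂ hAn hAab hAH hsup hcop2
  refine ⟨a * g₁ * a⁻¹, a * g₂ * a⁻¹, hAn.conj_mem g₁ hg₁A a, haH, ?_, ?_, ?_⟩
  · rw [lfdec_helper33_conj_mul, lfdec_helper33_conj_mul, hcomm]
  · have hy : orderOf (a * g₁ * a⁻¹) ∣ Nat.card A :=
      Subgroup.orderOf_dvd_natCard A (hAn.conj_mem g₁ hg₁A a)
    have hx : orderOf (a * g₂ * a⁻¹) ∣ A.index := by
      apply orderOf_dvd_of_pow_eq_one
      rw [conj_pow, hg₂M, mul_one, mul_inv_cancel]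
    exact Nat.Coprime.coprime_dvd_left hy (Nat.Coprime.coprime_dvd_right hx hcop)
  · rw [lfdec_helper33_conj_mul, hprod]
    exact lfdec_helper33_cs_conj a g

end Cfsg.Agent.Lib.Helper4.FC
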