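import Mathlib
import Cfsg.Agent.Lib.Helper80.Major3

/-!
# Contributions of major subsections: heights (helper33)

For a major subsection `(z, e)` of `B`, the contribution `alpha χ ψ` is divisible by
`p ^ height χ` in the local ring, and the quotient lies in the local ideal when `ψ` has
positive height.
-/

set_option autoImplicit false
set_option linter.style.haveILetI false

namespace Cfsg.Agent.Lib.Helper33.Sam

open Cfsg Cfsg.Agent.Lib.Helper80.GenDec Cfsg.Agent.Lib.Helper80.Contrib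
open Cfsg.Agent.Lib.Helper4 Cfsg.Agent.Lib.Helper21 Cfsg.Agent.Lib.Helper22
open Cfsg.Agent.Lib.Helper80.Major
open scoped ComplexConjugate

section Height

variable {G : Type*} [Group G] [Fintype G] {p : ℕ} [Fact p.Prime] {M : Ideal AlgInt}
variable (H : Subgroup G) [Fintype H] [Fintype (IrrCharacter H)]

omit [Fintype G] in
theorem coef_swap_gen (e : Set (IrrCharacter H)) (χ ψ : IrrCharacter G)
    (j : IrrCharacter H × IrrCharacter H) :
    coef H p e χ ψ j.swap = coef H p e ψ χ j := by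
  classical
  unfold coef
  by_cases h : j.1 ∈ e ∧ j.2 ∈ e
  · rw [if_pos h, if_pos (show j.swap.1 ∈ e ∧ j.swap.2 ∈ e from ⟨h.2, h.1⟩)]
    show (resMult H χ j.2 : ℤ) * (resMult H ψ j.1 : ℤ) * cc H p e j.2 j.1 = _
    rw [cc_symm H p e j.2 j.1]
    ring
  · rw [if_neg h, if_neg (show ¬ (j.swap.1 ∈ e ∧ j.swap.2 ∈ e) from fun h' => h ⟨h'.2, h'.1⟩)]

omit [Fintype G] in
/-- Hermitian symmetry of the contributions. -/
theorem alpha_conj (e : Set (IrrCharacter H)) (z : H) (χ ψ : IrrCharacter G) :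
    alpha H p e z ψ χ = conj (alpha H p e z χ ψ) := by
  classical
  unfold alpha
  rw [map_sum, ← Equiv.sum_comp (Equiv.prodComm (IrrCharacter H) (IrrCharacter H))]
  refine Finset.sum_congr rfl fun j _ => ?_
  show (coef H p e ψ χ j.swap : ℂ) * (eps H z j.swap.1 * conj (eps H z j.swap.2)) = _
  rw [coef_swap_gen, map_mul, map_mul, Complex.conj_conj, map_intCast]
  show (coef H p e χ ψ j : ℂ) * (eps H z j.2 * conj (eps H z j.1)) = _
  ring

omit [Fintype G] in
/-- Modulo the local ideal, the contribution is the sum of its coefficients. -/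
theorem alpha_sub_sum_locIdeal (hM : IsPModular p M) (z : H) (hz : z ∈ Subgroup.center H)
    (k : ℕ) (hzk : z ^ (p ^ k) = 1) (e : Set (IrrCharacter H)) (χ ψ : IrrCharacter G) :
    MemLocalIdeal M (alpha H p e z χ ψ -
      ∑ j : IrrCharacter H × IrrCharacter H, (coef H p e χ ψ j : ℂ)) := by
  classical
  unfold alpha
  rw [← Finset.sum_sub_distrib]
  refine locIdeal_sum hM _ _ fun j _ => ?_
  have h1 : (coef H p e χ ψ j : ℂ) * (eps H z j.1 * conj (eps H z j.2)) -
      (coef H p e χ ψ j : ℂ) =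
      (coef H p e χ ψ j : ℂ) * (eps H z j.1 * conj (eps H z j.2) - 1) := by ring
  rw [h1]
  refine locIdeal_mul_left hM (locRing_intCast hM _) ?_
  apply locIdeal_ppow_root hM _ k
  rw [mul_pow, ← map_pow, eps_pow_eq_one H z hz _ _ hzk, eps_pow_eq_one H z hz _ _ hzk,
    map_one, mul_one]

omit [Fintype G] in
/-- Modulo the local ideal, the contributions are symmetric. -/
theorem alpha_swap_locIdeal (hM : IsPModular p M) (z : H) (hz : z ∈ Subgroup.center H)
    (k : ℕ) (hzk : z ^ (p ^ k) = 1) (e : Set (IrrCharacter H)) (χ ψ : IrrCharacter G) :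
    MemLocalIdeal M (alpha H p e z χ ψ - alpha H p e z ψ χ) := by
  classical
  have h1 := alpha_sub_sum_locIdeal H hM z hz k hzk e χ ψ
  have h2 := alpha_sub_sum_locIdeal H hM z hz k hzk e ψ χ
  have h3 : ∑ j : IrrCharacter H × IrrCharacter H, (coef H p e ψ χ j : ℂ) =
      ∑ j : IrrCharacter H × IrrCharacter H, (coef H p e χ ψ j : ℂ) := by
    rw [← Equiv.sum_comp (Equiv.prodComm (IrrCharacter H) (IrrCharacter H))]
    refine Finset.sum_congr rfl fun j _ => ?_
    show (coef H p e ψ χ j.swap : ℂ) = _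
    rw [coef_swap_gen]
  rw [h3] at h2
  have h4 := locIdeal_sub hM h1 h2
  have h5 : alpha H p e z χ ψ - ∑ j : IrrCharacter H × IrrCharacter H, (coef H p e χ ψ j : ℂ) -
      (alpha H p e z ψ χ - ∑ j : IrrCharacter H × IrrCharacter H, (coef H p e χ ψ j : ℂ)) =
      alpha H p e z χ ψ - alpha H p e z ψ χ := by ring
  rwa [h5] at h4

open scoped Classical in
/-- For `χ ∈ B`, `alpha χ ψ / p ^ height χ` is a local unit times the value of the central
character of `χ` on the induced section function of `ψ`. -/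
theorem alpha_eq_omega (hM : IsPModular p M) (z : H) (hz : z ∈ Subgroup.center H)
    (e : Set (IrrCharacter H)) (B : Set (IrrCharacter G))
    (hind : IsInducedBlock M H e B) (hdef : blockDefect p e = blockDefect p B)
    (χ ψ : IrrCharacter G) (hχ : χ ∈ B) :
    ∃ ρ : ℂ, MemLocalRing M ρ ∧ ¬ MemLocalIdeal M ρ ∧
      alpha H p e z χ ψ / (p : ℂ) ^ blockHeight p B χ.1 =
        omega χ.1 (indFun H (secFun H p e z ψ)) * ρ := by
  have hp : p.Prime := Fact.out
  have he : IsPBlock M e := hind.1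
  obtain ⟨nχ, hnχ, h1χ⟩ := irr_one_nat χ
  set K1 : ℕ := p ^ e0 H p e with hK1
  set K2 : ℕ := Nat.card H / p ^ (Nat.card H).factorization p with hK2
  have hK1pos : 0 < K1 := pow_pos hp.pos _
  have hK2pos : 0 < K2 := by
    have h1 := Nat.ordProj_mul_ordCompl_eq_self (Nat.card H) p
    rcases Nat.eq_zero_or_pos K2 with h0 | h0
    · rw [← hK2, h0, mul_zero] at h1
      exact absurd h1.symm Nat.card_pos.ne'
    · exact h0
  have hK2fac : K2.factorization p = 0 :=
    Nat.factorization_eq_zero_of_not_dvd (Nat.not_dvd_ordCompl hp Nat.card_pos.ne')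
  have hGpos : 0 < Nat.card G := Nat.card_pos
  have hHpos : 0 < Nat.card H := Nat.card_pos
  have hmB : ∀ χ' : IrrCharacter G, χ' ∈ B →
      sInf ((fun ψ : IrrCharacter G => (charDegree ψ.1).factorization p) '' B) ≤
        (charDegree χ'.1).factorization p := fun χ' hχ' => Nat.sInf_le ⟨χ', hχ', rfl⟩
  have vχ : nχ.factorization p + blockDefect p B =
      blockHeight p B χ.1 + (Nat.card G).factorization p := by
    have h1 := hmB χ hχ
    have h2 := nu_le_card p χ
    rw [charDegree_eq_of_one_eq _ nχ h1χ] at h1 h2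
    unfold blockHeight blockDefect
    rw [charDegree_eq_of_one_eq _ nχ h1χ]
    omega
  have he0 := e0_add (p := p) H e
  have hfacK1 : K1.factorization p = e0 H p e := by
    rw [hK1, hp.factorization_pow, Finsupp.single_eq_same]
  have facmul : ∀ a b : ℕ, a ≠ 0 → b ≠ 0 →
      (a * b).factorization p = a.factorization p + b.factorization p := by
    intro a b ha hb
    rw [Nat.factorization_mul ha hb]
    rfl
  have facpow : ∀ m : ℕ, (p ^ m).factorization p = m := by
    intro m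
    rw [hp.factorization_pow, Finsupp.single_eq_same]
  have hK12 : K1 * K2 ≠ 0 := mul_ne_zero hK1pos.ne' hK2pos.ne'
  have hfacK12 : (K1 * K2).factorization p = e0 H p e := by
    rw [facmul K1 K2 hK1pos.ne' hK2pos.ne', hfacK1, hK2fac, add_zero]
  have hρ₁ := rat_unit hM (Nat.card H * nχ) (Nat.card G * (K1 * K2) * p ^ blockHeight p B χ.1)
    (mul_ne_zero hHpos.ne' hnχ.ne')
    (mul_ne_zero (mul_ne_zero hGpos.ne' hK12) (pow_ne_zero _ hp.ne_zero))
    (by
      rw [facmul _ _ hHpos.ne' hnχ.ne',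
        facmul _ _ (mul_ne_zero hGpos.ne' hK12) (pow_ne_zero _ hp.ne_zero),
        facmul _ _ hGpos.ne' hK12, hfacK12, facpow]
      omega)
  have hTα : T H p e (z : G) χ ψ = (K1 : ℂ) * (K2 : ℂ) * alpha H p e z χ ψ :=
    T_eq_alpha H hM e he χ ψ z hz
  have hG : (Nat.card G : ℂ) ≠ 0 := Nat.cast_ne_zero.mpr hGpos.ne'
  have hH : (Nat.card H : ℂ) ≠ 0 := Nat.cast_ne_zero.mpr hHpos.ne'
  have hK1c : (K1 : ℂ) ≠ 0 := Nat.cast_ne_zero.mpr hK1pos.ne'
  have hK2c : (K2 : ℂ) ≠ 0 := Nat.cast_ne_zero.mpr hK2pos.ne'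
  have hnχc : (nχ : ℂ) ≠ 0 := Nat.cast_ne_zero.mpr hnχ.ne'
  have hpc : (p : ℂ) ≠ 0 := Nat.cast_ne_zero.mpr hp.ne_zero
  refine ⟨_, hρ₁.1, hρ₁.2, ?_⟩
  rw [omega_secFun H hM e he z hz χ ψ, hTα, h1χ]
  push_cast
  field_simp

open scoped Classical in
/-- **Heights and major subsections**: if `e` has the same defect as `B = e^G`, then for
`χ ∈ B`, `alpha χ ψ / p ^ height χ` is a local integer, and it lies in the local ideal if
`ψ ∈ B` has positive height. -/
theorem alpha_height (hM : IsPModular p M) (z : H) (hz : z ∈ Subgroup.center H) (k : ℕ)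
    (hzk : z ^ (p ^ k) = 1) (e : Set (IrrCharacter H)) (B : Set (IrrCharacter G))
    (hind : IsInducedBlock M H e B) (hdef : blockDefect p e = blockDefect p B)
    (χ ψ : IrrCharacter G) (hχ : χ ∈ B) :
    MemLocalRing M (alpha H p e z χ ψ / (p : ℂ) ^ blockHeight p B χ.1) ∧
      (ψ ∈ B → 0 < blockHeight p B ψ.1 →
        MemLocalIdeal M (alpha H p e z χ ψ / (p : ℂ) ^ blockHeight p B χ.1)) := by
  have hp : p.Prime := Fact.out
  have hB : IsPBlock M B := hind.2.1
  have hpc : (p : ℂ) ≠ 0 := Nat.cast_ne_zero.mpr hp.ne_zero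
  have haC : ∀ ψ' : IrrCharacter G, IsClassFunction G (indFun H (secFun H p e z ψ')) :=
    fun ψ' => isClassFunction_indFun H _
  have haL : ∀ (ψ' : IrrCharacter G) (g : G),
      MemLocalRing M (indFun H (secFun H p e z ψ') g) := fun ψ' g =>
    indFun_locRing hM H _ (secFun_classFunction H e z hz ψ')
      (fun h => secFun_locRing H hM e z hz k hzk ψ' h) g
  have hωL : ∀ χ' ψ' : IrrCharacter G,
      MemLocalRing M (omega χ'.1 (indFun H (secFun H p e z ψ'))) := fun χ' ψ' =>
    Cfsg.Agent.Lib.Helper22.omega_locRing hM χ' ⟨haC ψ', haL ψ'⟩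
  have part1 : ∀ χ' ψ' : IrrCharacter G, χ' ∈ B →
      MemLocalRing M (alpha H p e z χ' ψ' / (p : ℂ) ^ blockHeight p B χ'.1) := by
    intro χ' ψ' hχ'
    obtain ⟨ρ, hρ1, -, hρ3⟩ := alpha_eq_omega H hM z hz e B hind hdef χ' ψ' hχ'
    rw [hρ3]
    exact locRing_mul hM (hωL χ' ψ') hρ1
  refine ⟨part1 χ ψ hχ, fun hψ hpos => ?_⟩
  obtain ⟨χ₀, hχ₀, h0⟩ := exists_height_zero (p := p) hM B hB
  -- `alpha ψ χ₀` lies in the local ideal
  have h1 : MemLocalIdeal M (alpha H p e z ψ χ₀) := by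
    have h2 := part1 ψ χ₀ hψ
    have h3 : alpha H p e z ψ χ₀ = (p : ℂ) ^ blockHeight p B ψ.1 *
        (alpha H p e z ψ χ₀ / (p : ℂ) ^ blockHeight p B ψ.1) := by
      field_simp
    rw [h3]
    refine locIdeal_mul_right hM ?_ h2
    have h4 : ((p ^ blockHeight p B ψ.1 : ℕ) : ℂ) = (p : ℂ) ^ blockHeight p B ψ.1 := by
      push_cast
      rfl
    rw [← h4]
    exact (locIdeal_natCast_iff hM _).mpr (dvd_pow_self p hpos.ne')
  -- hence so does `alpha χ₀ ψ`
  have h2 : MemLocalIdeal M (alpha H p e z χ₀ ψ) := by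
    have h3 := locIdeal_add hM (alpha_swap_locIdeal H hM z hz k hzk e χ₀ ψ) h1
    rwa [sub_add_cancel] at h3
  -- the central character of `χ₀`
  obtain ⟨ρ₀, hρ01, hρ02, hρ03⟩ := alpha_eq_omega H hM z hz e B hind hdef χ₀ ψ hχ₀
  rw [h0, pow_zero, div_one] at hρ03
  have h3 : MemLocalIdeal M (omega χ₀.1 (indFun H (secFun H p e z ψ))) := by
    rw [hρ03] at h2
    rcases locIdeal_of_mul hM (hωL χ₀ ψ) hρ01 h2 with h' | h'
    · exact h'
    · exact absurd h' hρ02
  have hsb : SameBlock M χ.1 χ₀.1 := by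
    have h4 : χ ∈ blockOf M χ₀.1 := by
      rw [← Helper79.blockOf_eq_of_mem hM hB hχ₀]
      exact hχ
    exact Helper79.sameBlock_symm' hM h4
  have key := omega_sub_locIdeal hM _ (haC ψ) (haL ψ) χ χ₀ hsb
  have h4 : MemLocalIdeal M (omega χ.1 (indFun H (secFun H p e z ψ))) := by
    have h5 := locIdeal_add hM key h3
    rwa [sub_add_cancel] at h5
  obtain ⟨ρ, hρ1, -, hρ3⟩ := alpha_eq_omega H hM z hz e B hind hdef χ ψ hχ
  rw [hρ3]
  exact locIdeal_mul_right hM h4 hρ1

end Height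

end Cfsg.Agent.Lib.Helper33.Sam
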