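import Mathlib
import Cfsg.Agent.Lib.Helper33.SamH
import Cfsg.Agent.Lib.Helper89.SamZ
import Cfsg.Agent.Lib.Helper80.Cyclo3

/-!
# Major subsections of 2-blocks: the facts feeding the counting cores (helper33)
-/

set_option autoImplicit false
set_option linter.style.haveILetI false

namespace Cfsg.Agent.Lib.Helper33.Sam

open Cfsg Cfsg.Agent.Lib.Helper80.GenDec Cfsg.Agent.Lib.Helper80.Contrib
open Cfsg.Agent.Lib.Helper4 Cfsg.Agent.Lib.Helper21 Cfsg.Agent.Lib.Helper22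
open Cfsg.Agent.Lib.Helper80.Major
open scoped ComplexConjugate

/-- AM-GM for cyclotomic integers divisible by `p ^ h` at all conjugates. -/
theorem card_mul_pow_le_sum_normSq {p : ℕ} {M : Ideal AlgInt} (hM : IsPModular p M) (N : ℕ)
    [NeZero N] {J : Type*} (s : Finset J) (c : J → ℤ) (k : J → ℕ) (h : ℕ)
    (hne : ∀ η ∈ primitiveRoots N ℂ, (∑ j ∈ s, (c j : ℂ) * η ^ k j) ≠ 0)
    (hdiv : ∀ η ∈ primitiveRoots N ℂ,
      MemLocalRing M ((∑ j ∈ s, (c j : ℂ) * η ^ k j) / (p : ℂ) ^ h)) :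
    ((primitiveRoots N ℂ).card : ℝ) * (((p : ℝ) ^ h) ^ 2) ≤
      ∑ η ∈ primitiveRoots N ℂ, Complex.normSq (∑ j ∈ s, (c j : ℂ) * η ^ k j) := by
  obtain ⟨z, hz⟩ := Cfsg.Agent.Lib.Helper80.Cyclo.prod_primitiveRoots_int N s c k
  have hz0 : z ≠ 0 := by
    rintro rfl
    rw [Int.cast_zero, Finset.prod_eq_zero_iff] at hz
    obtain ⟨η, hη, h0⟩ := hz
    exact hne η hη h0
  have h1 : MemLocalRing M ((z : ℂ) / (p : ℂ) ^ (h * (primitiveRoots N ℂ).card)) := by
    have h2 := locRing_prod hM (primitiveRoots N ℂ)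
      (fun η => (∑ j ∈ s, (c j : ℂ) * η ^ k j) / (p : ℂ) ^ h) hdiv
    rw [Finset.prod_div_distrib, hz, Finset.prod_const, ← pow_mul] at h2
    exact h2
  have h2 := Cfsg.Agent.Lib.Helper80.Cyclo.int_dvd_of_locRing hM z _ h1
  have h3 : (p : ℤ) ^ (h * (primitiveRoots N ℂ).card) ≤ |z| :=
    Int.le_of_dvd (abs_pos.mpr hz0) ((dvd_abs _ _).mpr h2)
  apply Cfsg.Agent.Lib.Helper80.Cyclo.card_mul_le_sum_of_pow_le_prod _ _
    (fun _ _ => Complex.normSq_nonneg _) _ (sq_nonneg _)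
  rw [← map_prod, hz, Complex.normSq_intCast]
  have h5 : (((p : ℝ) ^ h) ^ 2) ^ (primitiveRoots N ℂ).card =
      (((p : ℤ) ^ (h * (primitiveRoots N ℂ).card) : ℤ) : ℝ) *
        (((p : ℤ) ^ (h * (primitiveRoots N ℂ).card) : ℤ) : ℝ) := by
    push_cast
    ring
  rw [h5]
  have h6 : (((p : ℤ) ^ (h * (primitiveRoots N ℂ).card) : ℤ) : ℝ) ≤ ((|z| : ℤ) : ℝ) := by
    exact_mod_cast h3
  have h7 : (0 : ℝ) ≤ (((p : ℤ) ^ (h * (primitiveRoots N ℂ).card) : ℤ) : ℝ) := by positivity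
  have h8 : ((|z| : ℤ) : ℝ) * ((|z| : ℤ) : ℝ) = (z : ℝ) * (z : ℝ) := by
    push_cast
    exact abs_mul_abs_self _
  nlinarith

section Facts

variable {G : Type*} [Group G] [Fintype G] {M : Ideal AlgInt}
variable (H : Subgroup G) [Fintype H] [Fintype (IrrCharacter H)]

open scoped Classical in
/-- The facts about a major subsection `(z, e)` of a `2`-block `B` which feed the counting
cores. -/
theorem sam_facts (hM : IsPModular 2 M) (z : H) (hz : z ∈ Subgroup.center H) (n : ℕ)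
    (hn : orderOf (z : G) = 2 ^ n) (hCH : Subgroup.centralizer ({(z : G)} : Set G) ≤ H)
    (e : Set (IrrCharacter H)) (B : Set (IrrCharacter G)) (hind : IsInducedBlock M H e B)
    (hdef : blockDefect 2 e = blockDefect 2 B)
    [Fintype (IrrCharacter G)] :
    ∃ (PR : Finset ℂ) (F : IrrCharacter G → IrrCharacter G → ℂ → ℂ) (a : IrrCharacter G → ℤ),
      0 < PR.card ∧
      (∀ η ∈ PR, ∀ χ ∈ Finset.univ.filter (fun χ : IrrCharacter G => χ ∈ B),
        ∑ ψ ∈ Finset.univ.filter (fun χ : IrrCharacter G => χ ∈ B),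
          F χ ψ η * conj (F χ ψ η) = ((2 ^ blockDefect 2 e : ℕ) : ℂ) * F χ χ η) ∧
      (∀ η ∈ PR, ∑ χ ∈ Finset.univ.filter (fun χ : IrrCharacter G => χ ∈ B), F χ χ η =
        ((2 ^ blockDefect 2 e : ℕ) : ℂ) * (blockRank 2 e : ℂ)) ∧
      (∀ η ∈ PR, ∀ χ ∈ Finset.univ.filter (fun χ : IrrCharacter G => χ ∈ B),
        ∀ ψ ∈ Finset.univ.filter (fun χ : IrrCharacter G => χ ∈ B),
          F ψ χ η = conj (F χ ψ η)) ∧
      (∀ χ ∈ Finset.univ.filter (fun χ : IrrCharacter G => χ ∈ B),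
        ∑ η ∈ PR, F χ χ η = (PR.card : ℂ) * (a χ : ℂ)) ∧
      (∀ χ ∈ Finset.univ.filter (fun χ : IrrCharacter G => χ ∈ B),
        blockHeight 2 B χ.1 = 0 → Odd (a χ)) ∧
      (∀ χ ∈ Finset.univ.filter (fun χ : IrrCharacter G => χ ∈ B),
        0 < blockHeight 2 B χ.1 → (2 : ℤ) ^ (blockHeight 2 B χ.1 + 1) ∣ a χ) ∧
      (∀ χ ∈ Finset.univ.filter (fun χ : IrrCharacter G => χ ∈ B),
        blockHeight 2 B χ.1 = 0 →
        ∀ ψ ∈ Finset.univ.filter (fun χ : IrrCharacter G => χ ∈ B),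
          (PR.card : ℝ) * (4 : ℝ) ^ blockHeight 2 B ψ.1 ≤
            ∑ η ∈ PR, Complex.normSq (F χ ψ η)) ∧
      (∃ χ ∈ Finset.univ.filter (fun χ : IrrCharacter G => χ ∈ B),
        blockHeight 2 B χ.1 = 0) := by
  have hN : 0 < 2 ^ n := pow_pos (by norm_num) n
  have : NeZero (2 ^ n) := ⟨hN.ne'⟩
  have hzn : z ^ (2 ^ n) = 1 := by
    apply Subtype.ext
    rw [Subgroup.coe_pow, ← hn]
    exact pow_orderOf_eq_one _
  obtain ⟨ζ, hζ, kexp, hkz, hk⟩ := exists_kexp' (p := 2) (G := G) H z hz n hzn e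
  have hmemB : ∀ χ : IrrCharacter G,
      χ ∈ Finset.univ.filter (fun χ : IrrCharacter G => χ ∈ B) → χ ∈ B :=
    fun χ hχ => (Finset.mem_filter.mp hχ).2
  have hPRpos : 0 < (primitiveRoots (2 ^ n) ℂ).card := by
    rw [Complex.card_primitiveRoots]
    exact Nat.totient_pos.mpr hN
  -- the value at `ζ`
  have hFζ : ∀ χ ψ : IrrCharacter G,
      ∑ j : IrrCharacter H × IrrCharacter H, (coef H 2 e χ ψ j : ℂ) * ζ ^ kexp j =
        alpha H 2 e z χ ψ := by
    intro χ ψ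
    unfold alpha
    refine Finset.sum_congr rfl fun j _ => ?_
    rw [hkz]
  -- the averaged diagonal contributions
  set τ : IrrCharacter H × IrrCharacter H → ℤ := fun j =>
    if ζ ^ kexp j = 1 then 1 else if ζ ^ kexp j = -1 then -1 else 0 with hτ
  have hτc : ∀ j, ((τ j : ℤ) : ℂ) =
      (if ζ ^ kexp j = 1 then 1 else if ζ ^ kexp j = -1 then -1 else 0) := by
    intro j
    show (((if ζ ^ kexp j = 1 then 1 else if ζ ^ kexp j = -1 then -1 else 0 : ℤ)) : ℂ) = _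
    by_cases h1 : ζ ^ kexp j = 1
    · rw [if_pos h1, if_pos h1, Int.cast_one]
    · rw [if_neg h1, if_neg h1]
      by_cases h2 : ζ ^ kexp j = -1
      · rw [if_pos h2, if_pos h2, Int.cast_neg, Int.cast_one]
      · rw [if_neg h2, if_neg h2, Int.cast_zero]
  have hτ1 : ∀ j, ζ ^ kexp j = 1 → τ j = 1 := by
    intro j h1
    show (if ζ ^ kexp j = 1 then (1 : ℤ) else if ζ ^ kexp j = -1 then -1 else 0) = 1
    rw [if_pos h1]
  have hτ2 : ∀ j, ζ ^ kexp j = -1 → τ j = -1 := by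
    intro j h2
    have h1 : ζ ^ kexp j ≠ 1 := by
      rw [h2]
      norm_num
    show (if ζ ^ kexp j = 1 then (1 : ℤ) else if ζ ^ kexp j = -1 then -1 else 0) = -1
    rw [if_neg h1, if_pos h2]
  have hτ0 : ∀ j, ζ ^ kexp j ≠ 1 → ζ ^ kexp j ≠ -1 → τ j = 0 := by
    intro j h1 h2
    show (if ζ ^ kexp j = 1 then (1 : ℤ) else if ζ ^ kexp j = -1 then -1 else 0) = 0
    rw [if_neg h1, if_neg h2]
  have hw : ∀ j : IrrCharacter H × IrrCharacter H, ζ ^ kexp j.swap = conj (ζ ^ kexp j) := by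
    intro j
    rw [hkz, hkz, map_mul, Complex.conj_conj, mul_comm]
    rfl
  -- Job Z at `χ`
  have hZ : ∀ χ : IrrCharacter G, χ ∈ B →
      (2 : ℤ) ^ blockHeight 2 B χ.1 ∣
          ∑ j : IrrCharacter H × IrrCharacter H, coef H 2 e χ χ j * τ j ∧
      (MemLocalIdeal M (alpha H 2 e z χ χ / (2 : ℂ) ^ blockHeight 2 B χ.1) ↔
        (2 : ℤ) ^ (blockHeight 2 B χ.1 + 1) ∣
          ∑ j : IrrCharacter H × IrrCharacter H, coef H 2 e χ χ j * τ j) := by
    intro χ hχ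
    have hloc := (alpha_height (p := 2) H hM z hz n hzn e B hind hdef χ χ hχ).1
    rw [Nat.cast_ofNat, ← hFζ χ χ] at hloc
    have h1 := Cfsg.Agent.Lib.Helper89.SamZ.avg_dvd hM n ζ hζ (coef H 2 e χ χ) kexp Prod.swap
      Prod.swap_swap (fun j => coef_swap H 2 e χ j) hw τ hτ1 hτ2 hτ0 (blockHeight 2 B χ.1) hloc
    rw [hFζ χ χ] at h1
    exact h1
  refine ⟨primitiveRoots (2 ^ n) ℂ,
    fun χ ψ η => ∑ j : IrrCharacter H × IrrCharacter H, (coef H 2 e χ ψ j : ℂ) * η ^ kexp j,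
    fun χ => ∑ j : IrrCharacter H × IrrCharacter H, coef H 2 e χ χ j * τ j,
    hPRpos, ?_, ?_, ?_, ?_, ?_, ?_, ?_, ?_⟩
  · -- row identity
    intro η hη χ _
    obtain ⟨t, htc, hF⟩ := hk η hη
    obtain ⟨hz', hzn', hu', hCH'⟩ := pow_hyps H z hz n hn hCH t htc
    show ∑ ψ ∈ Finset.univ.filter (fun χ : IrrCharacter G => χ ∈ B),
      (∑ j : IrrCharacter H × IrrCharacter H, (coef H 2 e χ ψ j : ℂ) * η ^ kexp j) *
        conj (∑ j : IrrCharacter H × IrrCharacter H, (coef H 2 e χ ψ j : ℂ) * η ^ kexp j) =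
      ((2 ^ blockDefect 2 e : ℕ) : ℂ) *
        ∑ j : IrrCharacter H × IrrCharacter H, (coef H 2 e χ χ j : ℂ) * η ^ kexp j
    rw [Finset.sum_filter, hF χ χ]
    refine Eq.trans (Finset.sum_congr rfl fun ψ _ => ?_)
      (alpha_row H hM (z ^ t) hz' hu' hCH' e B hind χ)
    rw [hF χ ψ]
  · -- trace identity
    intro η hη
    obtain ⟨t, htc, hF⟩ := hk η hη
    obtain ⟨hz', hzn', hu', hCH'⟩ := pow_hyps H z hz n hn hCH t htc
    show ∑ χ ∈ Finset.univ.filter (fun χ : IrrCharacter G => χ ∈ B),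
      (∑ j : IrrCharacter H × IrrCharacter H, (coef H 2 e χ χ j : ℂ) * η ^ kexp j) =
      ((2 ^ blockDefect 2 e : ℕ) : ℂ) * (blockRank 2 e : ℂ)
    rw [Finset.sum_filter]
    refine Eq.trans (Finset.sum_congr rfl fun χ _ => ?_)
      (alpha_trace H hM (z ^ t) hz' hu' hCH' e B hind)
    rw [hF χ χ]
  · -- Hermitian symmetry
    intro η hη χ _ ψ _
    obtain ⟨t, htc, hF⟩ := hk η hη
    show (∑ j : IrrCharacter H × IrrCharacter H, (coef H 2 e ψ χ j : ℂ) * η ^ kexp j) =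
      conj (∑ j : IrrCharacter H × IrrCharacter H, (coef H 2 e χ ψ j : ℂ) * η ^ kexp j)
    rw [hF ψ χ, hF χ ψ]
    exact alpha_conj H e (z ^ t) χ ψ
  · -- averaged diagonal
    intro χ _
    show ∑ η ∈ primitiveRoots (2 ^ n) ℂ,
        (∑ j : IrrCharacter H × IrrCharacter H, (coef H 2 e χ χ j : ℂ) * η ^ kexp j) =
      ((primitiveRoots (2 ^ n) ℂ).card : ℂ) *
        ((∑ j : IrrCharacter H × IrrCharacter H, coef H 2 e χ χ j * τ j : ℤ) : ℂ)
    calc ∑ η ∈ primitiveRoots (2 ^ n) ℂ,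
          (∑ j : IrrCharacter H × IrrCharacter H, (coef H 2 e χ χ j : ℂ) * η ^ kexp j)
        = ∑ j : IrrCharacter H × IrrCharacter H, ∑ η ∈ primitiveRoots (2 ^ n) ℂ,
            (coef H 2 e χ χ j : ℂ) * η ^ kexp j := Finset.sum_comm
      _ = ∑ j : IrrCharacter H × IrrCharacter H,
            (coef H 2 e χ χ j : ℂ) * (((primitiveRoots (2 ^ n) ℂ).card : ℂ) * (τ j : ℂ)) := by
          refine Finset.sum_congr rfl fun j _ => ?_
          rw [← Finset.mul_sum,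
            Cfsg.Agent.Lib.Helper80.Cyclo.sum_pow_primitiveRoots_two n ζ hζ (kexp j), hτc j]
      _ = ((primitiveRoots (2 ^ n) ℂ).card : ℂ) *
            ((∑ j : IrrCharacter H × IrrCharacter H, coef H 2 e χ χ j * τ j : ℤ) : ℂ) := by
          rw [Int.cast_sum, Finset.mul_sum]
          refine Finset.sum_congr rfl fun j _ => ?_
          rw [Int.cast_mul]
          ring
  · -- parity at height zero
    intro χ hχ h0
    have hχB := hmemB χ hχ
    have h1 := (hZ χ hχB).2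
    rw [h0, pow_zero, div_one, zero_add, pow_one] at h1
    have h2 := (alpha_major (p := 2) H hM z hz n hzn e B hind hdef χ χ hχB hχB h0).2
    rw [h0, pow_zero, div_one] at h2
    have h3 : ¬ (2 : ℤ) ∣ ∑ j : IrrCharacter H × IrrCharacter H, coef H 2 e χ χ j * τ j :=
      fun h => h2 (h1.mpr h)
    show Odd (∑ j : IrrCharacter H × IrrCharacter H, coef H 2 e χ χ j * τ j)
    rw [Int.odd_iff]
    omega
  · -- divisibility at positive height
    intro χ hχ hpos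
    have hχB := hmemB χ hχ
    have h1 := (hZ χ hχB).2
    have h2 := (alpha_height (p := 2) H hM z hz n hzn e B hind hdef χ χ hχB).2 hχB hpos
    rw [Nat.cast_ofNat] at h2
    exact h1.mp h2
  · -- AM-GM
    intro χ hχ h0 ψ hψ
    have hχB := hmemB χ hχ
    have hψB := hmemB ψ hψ
    have hP := card_mul_pow_le_sum_normSq hM (2 ^ n) Finset.univ (coef H 2 e ψ χ) kexp
      (blockHeight 2 B ψ.1)
      (fun η hη => by
        obtain ⟨t, htc, hF⟩ := hk η hη
        obtain ⟨hz', hzn', hu', hCH'⟩ := pow_hyps H z hz n hn hCH t htc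
        rw [hF ψ χ]
        intro h
        have h2 := (alpha_major (p := 2) H hM (z ^ t) hz' n hzn' e B hind hdef ψ χ hψB hχB
          h0).2
        apply h2
        rw [h, zero_div]
        exact locIdeal_zero hM)
      (fun η hη => by
        obtain ⟨t, htc, hF⟩ := hk η hη
        obtain ⟨hz', hzn', hu', hCH'⟩ := pow_hyps H z hz n hn hCH t htc
        rw [hF ψ χ]
        exact (alpha_major (p := 2) H hM (z ^ t) hz' n hzn' e B hind hdef ψ χ hψB hχB h0).1)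
    have h4 : (((2 : ℕ) : ℝ) ^ blockHeight 2 B ψ.1) ^ 2 = (4 : ℝ) ^ blockHeight 2 B ψ.1 := by
      rw [← pow_mul, mul_comm, pow_mul]
      norm_num
    rw [h4] at hP
    refine le_trans hP (le_of_eq (Finset.sum_congr rfl fun η hη => ?_))
    obtain ⟨t, htc, hF⟩ := hk η hη
    show Complex.normSq
        (∑ j : IrrCharacter H × IrrCharacter H, (coef H 2 e ψ χ j : ℂ) * η ^ kexp j) =
      Complex.normSq
        (∑ j : IrrCharacter H × IrrCharacter H, (coef H 2 e χ ψ j : ℂ) * η ^ kexp j)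
    rw [hF ψ χ, hF χ ψ, alpha_conj H e (z ^ t) χ ψ, Complex.normSq_conj]
  · obtain ⟨χ₀, hχ₀, h0⟩ := exists_height_zero (p := 2) hM B hind.2.1
    exact ⟨χ₀, Finset.mem_filter.mpr ⟨Finset.mem_univ _, hχ₀⟩, h0⟩

end Facts

end Cfsg.Agent.Lib.Helper33.Sam
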