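import Mathlib
import Cfsg.Agent.Lib.Helper33.SamA
import Cfsg.Agent.Lib.Helper12.SamC2

/-!
# Major subsections of 2-blocks: the two counting bounds (helper33)
-/

set_option autoImplicit false
set_option linter.style.haveILetI false

namespace Cfsg.Agent.Lib.Helper33.Sam

open Cfsg Cfsg.Agent.Lib.Helper80.GenDec Cfsg.Agent.Lib.Helper80.Contrib
open Cfsg.Agent.Lib.Helper4 Cfsg.Agent.Lib.Helper21 Cfsg.Agent.Lib.Helper22
open Cfsg.Agent.Lib.Helper80.Major
open scoped ComplexConjugate

section Bounds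

variable {G : Type*} [Group G] [Fintype G] {M : Ideal AlgInt}
variable (H : Subgroup G) [Fintype H] [Fintype (IrrCharacter H)]

open scoped Classical in
/-- A `2`-block with a major subsection `(z, e)` with `l(e) ≤ 3`. -/
theorem sam_bound_one (hM : IsPModular 2 M) (z : H) (hz : z ∈ Subgroup.center H) (n : ℕ)
    (hn : orderOf (z : G) = 2 ^ n) (hCH : Subgroup.centralizer ({(z : G)} : Set G) ≤ H)
    (e : Set (IrrCharacter H)) (B : Set (IrrCharacter G)) (hind : IsInducedBlock M H e B)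
    (hdef : blockDefect 2 e = blockDefect 2 B)
    [Fintype (IrrCharacter G)] (hl : blockRank 2 e ≤ 3) :
    3 * ((Finset.univ.filter (fun χ : IrrCharacter G => χ ∈ B)).filter
        (fun χ => blockHeight 2 B χ.1 = 0)).card +
      2 * ∑ χ ∈ (Finset.univ.filter (fun χ : IrrCharacter G => χ ∈ B)).filter
        (fun χ => 1 ≤ blockHeight 2 B χ.1), 2 ^ blockHeight 2 B χ.1 ≤
      3 * 2 ^ blockDefect 2 e := by
  obtain ⟨PR, F, a, hPR, hrow, htr, hsymm, hint, hodd, hdiv, hamgm, h0⟩ :=
    sam_facts H hM z hz n hn hCH e B hind hdef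
  exact Cfsg.Agent.Lib.Helper12.SamC1.sam_core_one
    (Finset.univ.filter (fun χ : IrrCharacter G => χ ∈ B))
    (fun χ => blockHeight 2 B χ.1) PR hPR F (blockDefect 2 e) (blockRank 2 e) a
    hrow htr hsymm hint hodd hdiv hamgm h0 hl

open scoped Classical in
/-- A `2`-block with a major subsection `(z, e)` with `k(B) - l(e) ≤ 3`. -/
theorem sam_bound_two (hM : IsPModular 2 M) (z : H) (hz : z ∈ Subgroup.center H) (n : ℕ)
    (hn : orderOf (z : G) = 2 ^ n) (hCH : Subgroup.centralizer ({(z : G)} : Set G) ≤ H)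
    (e : Set (IrrCharacter H)) (B : Set (IrrCharacter G)) (hind : IsInducedBlock M H e B)
    (hdef : blockDefect 2 e = blockDefect 2 B)
    [Fintype (IrrCharacter G)] (hd : 1 ≤ blockDefect 2 e)
    (hk : (Finset.univ.filter (fun χ : IrrCharacter G => χ ∈ B)).card ≤ blockRank 2 e + 3) :
    (Finset.univ.filter (fun χ : IrrCharacter G => χ ∈ B)).card ≤ 2 ^ blockDefect 2 e := by
  obtain ⟨PR, F, a, hPR, hrow, htr, hsymm, hint, hodd, hdiv, hamgm, h0⟩ :=
    sam_facts H hM z hz n hn hCH e B hind hdef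
  exact Cfsg.Agent.Lib.Helper12.SamC2.sam_core_two
    (Finset.univ.filter (fun χ : IrrCharacter G => χ ∈ B))
    (fun χ => blockHeight 2 B χ.1) PR hPR F (blockDefect 2 e) (blockRank 2 e) a
    hrow htr hsymm hint hodd hdiv hamgm h0 hd hk

end Bounds

end Cfsg.Agent.Lib.Helper33.Sam
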